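import Mathlib
import Cfsg.Agent.H251.E6.TrForm

/-!
# The invariant form of the Lie algebra of `E₆` (helper944)

`KB F` : the symmetric bilinear form with Gram matrix `Ca` (Cartan matrix) on the fundamental coroots and
`(e_r, e_{-r}) = 1`: one sixth of the trace form. It is invariant over every field (`KB_inv`) and nondegenerate if
`3 ≠ 0` (`KB_nondeg`).
-/

set_option autoImplicit false

namespace Cfsg.Agent.H944.E6Kil

open Cfsg Cfsg.Lie Module
open Cfsg.Agent.ChevalleyStructure.E6Min.Tables Cfsg.Agent.ChevalleyStructure.E6Min.Basic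
  Cfsg.Agent.ChevalleyStructure.E6Min.Adjoint Cfsg.Agent.ChevalleyStructure.E6Min.Checks
open Cfsg.Agent.H65.E6Inv (ng ng_ng)
open Cfsg.Agent.H251.E6 (Ca Ka CaKa tr_HH tr_HN tr_NN tr_NN')
open scoped Matrix

/-- the Gram matrix -/
def Gm : Matrix chevE6.Idx chevE6.Idx ℤ := Matrix.of fun a b =>
  match a with
  | Sum.inl i => (match b with | Sum.inl j => Ca (i : Fin 6) (j : Fin 6) | Sum.inr _ => 0)
  | Sum.inr r => (match b with | Sum.inl _ => 0 | Sum.inr s => if s.val + r.val = 71 then 1 else 0)

/-- the Gram matrix over a ring -/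
def GF (F : Type*) [CommRing F] : Matrix chevE6.Idx chevE6.Idx F := Gm.map (Int.castRingHom F)

section field

variable {F : Type*} [Field F]

theorem tr_BB (a b : chevE6.Idx) : (B F a * B F b).trace = 6 * GF F a b := by
  rcases a with i | r <;> rcases b with j | s
  · rw [B_inl, B_inl]
    have h := tr_HH (F := F) (i : Fin 6) (j : Fin 6)
    refine h.trans ?_
    show ((6 * Ca i j : ℤ) : F) = 6 * ((Ca i j : ℤ) : F)
    push_cast
    ring
  · rw [B_inl, B_inr, tr_HN (lt72 s)]
    show (0 : F) = 6 * ((0 : ℤ) : F)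
    simp
  · rw [B_inl, B_inr, Matrix.trace_mul_comm, tr_HN (lt72 r)]
    show (0 : F) = 6 * ((0 : ℤ) : F)
    simp
  · rw [B_inr, B_inr]
    show _ = 6 * (((if s.val + r.val = 71 then 1 else 0 : ℤ)) : F)
    split_ifs with h
    · have h1 : s.val = 71 - r.val := by omega
      rw [h1, tr_NN' (lt72 r)]
      simp
    · rw [tr_NN (lt72 r) (lt72 s) h]
      simp

theorem tr_comb (c d : chevE6.Idx → F) : (comb c * comb d).trace = 6 * (c ⬝ᵥ (GF F *ᵥ d)) := by
  rw [comb_def, comb_def, Finset.sum_mul_sum, Matrix.trace_sum, dotProduct, Finset.mul_sum]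
  refine Finset.sum_congr rfl fun a _ => ?_
  rw [Matrix.trace_sum, Matrix.mulVec, dotProduct, Finset.mul_sum, Finset.mul_sum]
  refine Finset.sum_congr rfl fun b _ => ?_
  rw [smul_mul_smul_comm, Matrix.trace_smul, tr_BB, smul_eq_mul]
  ring

theorem xMat_inv_of_six (h6 : (6 : F) ≠ 0) (r : Fin chevE6.nroots) (t : F) :
    (chevE6.xMat F r t)ᵀ * GF F * chevE6.xMat F r t = GF F := by
  have hP := P_root r t
  have hu : ((zU r.val t : GL I27 F) : Matrix I27 I27 F) = zM r.val t := coe_zU (lt72 r) t
  rw [← hu] at hP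
  set g : GL I27 F := zU r.val t
  have h1 : ∀ c, comb (fun row => chevE6.xMat F r t row c) =
      (g : Matrix I27 I27 F) * B F c * ((g⁻¹ : GL I27 F) : Matrix I27 I27 F) := by
    intro c
    rw [hP c, mul_assoc, ← Units.val_mul, mul_inv_cancel, Units.val_one, mul_one]
  ext a b
  apply mul_left_cancel₀ h6
  rw [← tr_BB]
  have h2 : ((chevE6.xMat F r t)ᵀ * GF F * chevE6.xMat F r t) a b =
      (fun row => chevE6.xMat F r t row a) ⬝ᵥ (GF F *ᵥ fun row => chevE6.xMat F r t row b) := by
    rw [Matrix.mul_assoc, Matrix.mul_apply, dotProduct]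
    refine Finset.sum_congr rfl fun c _ => ?_
    rw [Matrix.transpose_apply, Matrix.mul_apply, Matrix.mulVec, dotProduct]
  rw [h2, ← tr_comb, h1, h1]
  have h3 : (g : Matrix I27 I27 F) * B F a * ((g⁻¹ : GL I27 F) : Matrix I27 I27 F) *
      ((g : Matrix I27 I27 F) * B F b * ((g⁻¹ : GL I27 F) : Matrix I27 I27 F)) =
      (g : Matrix I27 I27 F) * (B F a * B F b) * ((g⁻¹ : GL I27 F) : Matrix I27 I27 F) := by
    have h4 : ((g⁻¹ : GL I27 F) : Matrix I27 I27 F) * (g : Matrix I27 I27 F) = 1 := by
      rw [← Units.val_mul, inv_mul_cancel, Units.val_one]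
    calc _ = (g : Matrix I27 I27 F) * B F a * (((g⁻¹ : GL I27 F) : Matrix I27 I27 F) * (g : Matrix I27 I27 F)) *
        B F b * ((g⁻¹ : GL I27 F) : Matrix I27 I27 F) := by simp only [mul_assoc]
      _ = _ := by rw [h4, mul_one]; simp only [mul_assoc]
  rw [h3, Matrix.trace_mul_cycle, ← Units.val_mul, inv_mul_cancel, Units.val_one, one_mul]

end field

/-! ### all characteristics -/

open Polynomial in
/-- the matrix of `x_r(X)` over `ℤ[X]` -/
noncomputable def XM (r : Fin chevE6.nroots) : Matrix chevE6.Idx chevE6.Idx ℤ[X] :=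
  Matrix.of fun row col =>
    match col with
    | Sum.inl i =>
      (match row with
       | Sum.inl i' => if i' = i then 1 else 0
       | Sum.inr u => if u = r then - (((chevE6.cartanSR.getD i.val #[]).getD r.val 0 : ℤ) : ℤ[X]) * X else 0)
    | Sum.inr s =>
      if s = r then (match row with | Sum.inr u => if u = r then 1 else 0 | Sum.inl _ => 0)
      else if s.val = chevE6.negIdx.getD r.val 0 then
        (match row with
         | Sum.inl i => (((chevE6.coroot.getD r.val #[]).getD i.val 0 : ℤ) : ℤ[X]) * X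
         | Sum.inr u => if u = s then 1 else if u = r then -(X ^ 2) else 0)
      else
        (match row with
         | Sum.inl _ => 0
         | Sum.inr u => (if u = s then 1 else 0) +
             ((chevE6.chainCoeff r.val s.val u.val).map fun km => ((km.2 : ℤ) : ℤ[X]) * X ^ km.1).sum)

open Polynomial in
theorem XM_map {F : Type*} [Field F] (f : ℤ[X] →+* F) (r : Fin chevE6.nroots) :
    (XM r).map f = chevE6.xMat F r (f X) := by
  ext row col
  rw [Matrix.map_apply]
  unfold XM ChevalleyDatum.xMat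
  rw [Matrix.of_apply, Matrix.of_apply]
  rcases col with i | s
  · rcases row with i' | u
    · show f (if i' = i then 1 else 0) = if i' = i then 1 else 0
      rw [apply_ite f, map_one, map_zero]
    · show f (if u = r then _ else 0) = if u = r then _ else 0
      rw [apply_ite f, map_mul, map_neg, map_intCast, map_zero]
  · show f (if s = r then _ else if s.val = _ then _ else _) = if s = r then _ else if s.val = _ then _ else _
    split_ifs with h1 h2
    · rcases row with i' | u
      · show f 0 = 0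
        rw [map_zero]
      · show f (if u = r then 1 else 0) = if u = r then 1 else 0
        rw [apply_ite f, map_one, map_zero]
    · rcases row with i' | u
      · show f ((_ : ℤ[X]) * X) = _
        rw [map_mul, map_intCast]
      · show f (if u = s then 1 else if u = r then -(X ^ 2) else 0) = if u = s then 1 else if u = r then -(f X ^ 2) else 0
        rw [apply_ite f, apply_ite f, map_one, map_zero, map_neg, map_pow]
    · rcases row with i' | u
      · show f 0 = 0
        rw [map_zero]
      · show f ((if u = s then 1 else 0) + List.sum _) = (if u = s then 1 else 0) + List.sum _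
        rw [map_add, apply_ite f, map_one, map_zero, map_list_sum, List.map_map]
        congr 3
        funext km
        show f (((km.2 : ℤ) : ℤ[X]) * X ^ km.1) = _
        rw [map_mul, map_intCast, map_pow]

theorem GF_map {R S : Type*} [CommRing R] [CommRing S] (f : R →+* S) : (GF R).map f = GF S := by
  ext a b
  show f ((Gm a b : ℤ) : R) = ((Gm a b : ℤ) : S)
  rw [map_intCast]

open Polynomial in
theorem XM_inv (r : Fin chevE6.nroots) : (XM r)ᵀ * GF ℤ[X] * XM r = GF ℤ[X] := by
  have hinj := IsFractionRing.injective ℤ[X] (FractionRing ℤ[X])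
  set f := algebraMap ℤ[X] (FractionRing ℤ[X]) with hf
  have h6 : (6 : FractionRing ℤ[X]) ≠ 0 := by
    have h1 : (6 : ℤ[X]) ≠ 0 := by norm_num
    have h2 : f 6 ≠ 0 := (map_ne_zero_iff f hinj).2 h1
    rwa [map_ofNat] at h2
  have h1 := xMat_inv_of_six h6 r (f X)
  rw [← XM_map, ← GF_map f, ← Matrix.transpose_map, ← Matrix.map_mul, ← Matrix.map_mul] at h1
  exact Matrix.map_injective hinj h1

section field

variable {F : Type*} [Field F]

open Polynomial in
theorem xMat_inv (r : Fin chevE6.nroots) (t : F) : (chevE6.xMat F r t)ᵀ * GF F * chevE6.xMat F r t = GF F := by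
  have h := congrArg (fun M : Matrix chevE6.Idx chevE6.Idx ℤ[X] => M.map (Polynomial.eval₂RingHom (Int.castRingHom F) t))
    (XM_inv r)
  simp only [Matrix.map_mul, Matrix.transpose_map, XM_map, GF_map] at h
  have hX : (Polynomial.eval₂RingHom (Int.castRingHom F) t) X = t := by simp
  rwa [hX] at h

theorem group_inv {g : GL chevE6.Idx F} (hg : g ∈ chevE6.group F) :
    (g : Matrix chevE6.Idx chevE6.Idx F)ᵀ * GF F * (g : Matrix chevE6.Idx chevE6.Idx F) = GF F := by
  unfold ChevalleyDatum.group at hg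
  induction hg using Subgroup.closure_induction with
  | mem x hx =>
    obtain ⟨r, t, h⟩ := hx
    rw [h]
    exact xMat_inv r t
  | one => rw [Units.val_one, Matrix.transpose_one, one_mul, mul_one]
  | mul x y _ _ h1 h2 =>
    rw [Units.val_mul, Matrix.transpose_mul]
    calc _ = (y : Matrix chevE6.Idx chevE6.Idx F)ᵀ * ((x : Matrix chevE6.Idx chevE6.Idx F)ᵀ * GF F *
        (x : Matrix chevE6.Idx chevE6.Idx F)) * (y : Matrix chevE6.Idx chevE6.Idx F) := by simp only [mul_assoc]
      _ = _ := by rw [h1, h2]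
  | inv x _ h1 =>
    have h2 : (x : Matrix chevE6.Idx chevE6.Idx F) * ((x⁻¹ : GL chevE6.Idx F) : Matrix chevE6.Idx chevE6.Idx F) = 1 := by
      rw [← Units.val_mul, mul_inv_cancel, Units.val_one]
    have h3 : ((x⁻¹ : GL chevE6.Idx F) : Matrix chevE6.Idx chevE6.Idx F)ᵀ * (x : Matrix chevE6.Idx chevE6.Idx F)ᵀ = 1 := by
      rw [← Matrix.transpose_mul, h2, Matrix.transpose_one]
    calc _ = ((x⁻¹ : GL chevE6.Idx F) : Matrix chevE6.Idx chevE6.Idx F)ᵀ * ((x : Matrix chevE6.Idx chevE6.Idx F)ᵀ *
        GF F * (x : Matrix chevE6.Idx chevE6.Idx F)) * ((x⁻¹ : GL chevE6.Idx F) : Matrix chevE6.Idx chevE6.Idx F) := by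
          rw [h1]
      _ = (((x⁻¹ : GL chevE6.Idx F) : Matrix chevE6.Idx chevE6.Idx F)ᵀ * (x : Matrix chevE6.Idx chevE6.Idx F)ᵀ) *
        GF F * ((x : Matrix chevE6.Idx chevE6.Idx F) *
          ((x⁻¹ : GL chevE6.Idx F) : Matrix chevE6.Idx chevE6.Idx F)) := by simp only [mul_assoc]
      _ = _ := by rw [h2, h3, one_mul, mul_one]

variable (F) in
/-- the invariant form -/
noncomputable def KB : (chevE6.Idx → F) →ₗ[F] (chevE6.Idx → F) →ₗ[F] F := Matrix.toLinearMap₂' F (GF F)

theorem KB_apply (v w : chevE6.Idx → F) : KB F v w = v ⬝ᵥ (GF F *ᵥ w) := Matrix.toLinearMap₂'_apply' _ _ _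

theorem KB_inv (g : ↥(chevE6.group F)) (v w : chevE6.Idx → F) :
    KB F (Cfsg.Agent.H163.E6.LK F g v) (Cfsg.Agent.H163.E6.LK F g w) = KB F v w := by
  have h1 : ∀ x, Cfsg.Agent.H163.E6.LK F g x = ((g : GL chevE6.Idx F) : Matrix chevE6.Idx chevE6.Idx F) *ᵥ x :=
    fun x => rfl
  rw [KB_apply, KB_apply, h1, h1]
  conv_rhs => rw [← group_inv g.2]
  rw [← Matrix.mulVec_mulVec, ← Matrix.mulVec_mulVec, Matrix.dotProduct_mulVec v, Matrix.vecMul_transpose]

/-- **the form is nondegenerate** -/
theorem KB_nondeg (h3 : (3 : F) ≠ 0) (v : chevE6.Idx → F) (h : ∀ w, KB F v w = 0) : v = 0 := by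
  have h1 : ∀ b, ∑ a, v a * GF F a b = 0 := by
    intro b
    have h2 := h (Pi.single b 1)
    rw [KB_apply, dotProduct] at h2
    rw [← h2]
    refine Finset.sum_congr rfl fun a _ => ?_
    rw [Matrix.mulVec_single_one, Matrix.col_apply]
  have hr : ∀ r : Fin chevE6.nroots, v (Sum.inr r) = 0 := by
    intro r
    have h2 := h1 (Sum.inr (ng r))
    have hng : (ng r).val = 71 - r.val := rfl
    have hlt := lt72 r
    rw [Finset.sum_eq_single (Sum.inr r)] at h2
    · have h4 : GF F (Sum.inr r) (Sum.inr (ng r)) = 1 := by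
        show (((if (ng r).val + r.val = 71 then 1 else 0 : ℤ)) : F) = 1
        rw [if_pos (by omega), Int.cast_one]
      rw [h4, mul_one] at h2
      exact h2
    · intro a _ ha
      rcases a with i | s
      · show _ * (((0 : ℤ)) : F) = 0
        rw [Int.cast_zero, mul_zero]
      · show _ * (((if (ng r).val + s.val = 71 then 1 else 0 : ℤ)) : F) = 0
        rw [if_neg, Int.cast_zero, mul_zero]
        intro h5
        apply ha
        congr 1
        apply Fin.ext
        omega
    · intro h; exact absurd (Finset.mem_univ _) h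
  have hi : ∀ j : Fin 6, ∑ i : Fin 6, v (Sum.inl (i : Fin chevE6.rank)) * ((Ca i j : ℤ) : F) = 0 := by
    intro j
    have h2 := h1 (Sum.inl (j : Fin chevE6.rank))
    rw [Fintype.sum_sum_type] at h2
    rw [Finset.sum_eq_zero (s := (Finset.univ : Finset (Fin chevE6.nroots))) fun r _ => by rw [hr r, zero_mul],
      add_zero] at h2
    exact h2
  have hl : ∀ k : Fin 6, v (Sum.inl (k : Fin chevE6.rank)) = 0 := by
    intro k
    have h1 : ∑ j : Fin 6, (∑ i : Fin 6, v (Sum.inl (i : Fin chevE6.rank)) * ((Ca i j : ℤ) : F)) * ((Ka j k : ℤ) : F) = 0 :=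
      Finset.sum_eq_zero fun j _ => by rw [hi j, zero_mul]
    have h4 : ∑ j : Fin 6, (∑ i : Fin 6, v (Sum.inl (i : Fin chevE6.rank)) * ((Ca i j : ℤ) : F)) * ((Ka j k : ℤ) : F) =
        ∑ i : Fin 6, v (Sum.inl (i : Fin chevE6.rank)) * ((∑ j, Ca i j * Ka j k : ℤ) : F) := by
      simp only [Finset.sum_mul, Int.cast_sum, Int.cast_mul, Finset.mul_sum]
      rw [Finset.sum_comm]
      refine Finset.sum_congr rfl fun i _ => Finset.sum_congr rfl fun j _ => ?_
      ring
    rw [h4, Finset.sum_eq_single k] at h1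
    · rw [CaKa, if_pos rfl] at h1
      have h5 : ((3 : ℤ) : F) ≠ 0 := by
        rw [Int.cast_ofNat]
        exact h3
      exact (mul_eq_zero.1 h1).resolve_right h5
    · intro i _ hik
      rw [CaKa, if_neg hik, Int.cast_zero, mul_zero]
    · intro h
      exact absurd (Finset.mem_univ _) h
  funext row
  rcases row with i | r
  · exact hl i
  · exact hr r

end field

end Cfsg.Agent.H944.E6Kil
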