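import Mathlib
import Cfsg.Agent.H944.E6Kil
import Cfsg.Agent.H927.E6Der2
import Cfsg.Agent.H65.E6Ext
import Cfsg.Agent.H251.E6.Gen7
import Cfsg.Agent.H882.E6Thirty
import Cfsg.Agent.H163.E6.Sit
import Cfsg.Agent.H952.F4.Scott

/-!
# Derivations commuting with the three-fold cover of `A₆` in characteristic 2 (helper944)

* `inv_six_two` : the Lie algebra has fixed vectors under `A₆` (Scott's lemma, `30 + 30 + 20 > 78`);
* `exists_der` : a derivation `D c ≠ 0` commuting with the preimage of the alternating group;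
* `no_nilp` : a nilpotent one of rank at most 8 contradicts `Sit.no_add`.
-/

set_option autoImplicit false

namespace Cfsg.Agent.H944.E6CovTwo

open Cfsg Cfsg.Lie Module
open Cfsg.Agent.ChevalleyStructure.E6Min.Tables Cfsg.Agent.ChevalleyStructure.E6Min.Basic
  Cfsg.Agent.ChevalleyStructure.E6Min.Adjoint
open Cfsg.Agent.H163.E6 Cfsg.Agent.H163.E6.Der
open Cfsg.Agent.H952.F4 (ev es matRep sh cr tf MaxAlt GenT)
open Cfsg.Agent.H952.F4.Jord
open Cfsg.Agent.H944.E6Kil (KB KB_inv KB_nondeg)
open scoped Matrix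

universe u

section lin

variable {K : Type*} [Field K] {W : Type*} [AddCommGroup W] [Module K W] [FiniteDimensional K W]

/-- kernels of products -/
theorem finrank_ker_mul_le (f g : Module.End K W) :
    finrank K (LinearMap.ker (f * g)) ≤ finrank K (LinearMap.ker f) + finrank K (LinearMap.ker g) := by
  let h : LinearMap.ker (f * g) →ₗ[K] LinearMap.ker f :=
    g.restrict (p := LinearMap.ker (f * g)) (q := LinearMap.ker f) (fun v hv => hv)
  have h1 := LinearMap.finrank_range_add_finrank_ker h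
  have h2 : finrank K (LinearMap.range h) ≤ finrank K (LinearMap.ker f) := Submodule.finrank_le _
  have h3 : finrank K (LinearMap.ker h) ≤ finrank K (LinearMap.ker g) := by
    let j : LinearMap.ker h →ₗ[K] W := (LinearMap.ker (f * g)).subtype ∘ₗ (LinearMap.ker h).subtype
    have hj : ∀ v, j v ∈ LinearMap.ker g := by
      rintro ⟨⟨v, hv⟩, h0⟩
      exact congrArg Subtype.val (LinearMap.mem_ker.1 h0)
    refine LinearMap.finrank_le_finrank_of_injective (f := j.codRestrict _ hj) ?_
    intro u v huv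
    have h : j u = j v := by
      have h1 : ((j.codRestrict _ hj u : LinearMap.ker g) : W) = (j.codRestrict _ hj v : LinearMap.ker g) := by rw [huv]
      exact h1
    exact Subtype.ext (Subtype.ext h)
  omega

theorem finrank_ker_pow_le (f : Module.End K W) (n : ℕ) :
    finrank K (LinearMap.ker (f ^ n)) ≤ n * finrank K (LinearMap.ker f) := by
  induction n with
  | zero =>
    rw [pow_zero, zero_mul]
    have : LinearMap.ker (1 : Module.End K W) = ⊥ := LinearMap.ker_id
    rw [this, finrank_bot]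
  | succ n ih =>
    have := finrank_ker_mul_le (f ^ n) f
    rw [← pow_succ] at this
    rw [add_mul, one_mul]
    omega

/-- an operator of order 4 in characteristic 2 -/
theorem four_mul_ev [CharP K 2] {T : Module.End K W} (hT : T ^ 4 = 1) : finrank K W ≤ 4 * ev T 1 := by
  by_cases hW : Nontrivial W
  · have : CharP (Module.End K W) 2 := charP_of_injective_algebraMap (algebraMap K (Module.End K W)).injective 2
    have h1 : (T - 1) ^ 4 = 0 := by
      have h2 : Commute T 1 := Commute.one_right _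
      rw [show (4 : ℕ) = 2 ^ 2 by norm_num, sub_pow_char_pow_of_commute 2 2 h2, one_pow, show (2 ^ 2 : ℕ) = 4 by norm_num,
        hT, sub_self]
    have h2 := finrank_ker_pow_le (T - 1) 4
    rw [h1] at h2
    have h3 : LinearMap.ker (0 : Module.End K W) = ⊤ := LinearMap.ker_zero
    have h4 : LinearMap.ker (T - 1) = Module.End.eigenspace T 1 := by
      rw [Module.End.eigenspace_def, one_smul]
    rw [h3, h4, finrank_top] at h2
    exact h2
  · rw [not_nontrivial_iff_subsingleton] at hW
    rw [finrank_zero_of_subsingleton]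
    exact Nat.zero_le _

end lin

variable {F : Type u} [Field F] [Finite F]

/-- **`L^A ≠ 0` for the three-fold cover of `A₆`, `p = 2`** -/
theorem inv_six_two [CharP F 2] {φ : ↥(alternatingGroup (Fin 6)) →* ↥(chevE6.group F)} (hφ : Function.Injective φ)
    {ω : Fˣ} (hc : Cover φ ω) :
    Representation.invariants (MonoidHom.comp (LK F) φ : Representation F ↥(alternatingGroup (Fin 6)) _) ≠ ⊥ := by
  have h3 : (3 : F) ≠ 0 := by
    intro h
    have h1 : ((3 : ℕ) : F) = 0 := by exact_mod_cast h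
    rw [CharP.cast_eq_zero_iff F 2] at h1
    omega
  have ord : ∀ {m : ℕ} {a : ↥(alternatingGroup (Fin 6))} {s : Multiset ℕ},
      (a : Equiv.Perm (Fin 6)).cycleType = s → s.lcm = m → orderOf a = m := by
    intro m a s ha hs
    rw [← Subgroup.orderOf_coe, ← Equiv.Perm.lcm_cycleType, ha, hs]
  have hthree : ∀ a : ↥(alternatingGroup (Fin 6)), orderOf a = 3 → ev (LK F (φ a)) 1 = 30 := by
    intro a ha
    obtain ⟨g, hg⟩ := ad_surjective (φ a)
    have h1 := (Cov.type_thirty (Or.inl rfl) hφ hc ha hg).2.2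
    rwa [L_eq, hg] at h1
  obtain ⟨x, y, hgen, hx, hy, hxy⟩ := H251.E6.gen6c
  have h1 := H952.F4.Scott.scott_form (MonoidHom.comp (LK F) φ : Representation F _ (chevE6.Idx → F)) hgen
    (KB F) (KB_nondeg h3) (fun g v w => KB_inv (φ g) v w)
  have h78 : finrank F (chevE6.Idx → F) = 78 := by
    rw [Module.finrank_fintype_fun_eq_card]
    rfl
  have h5 : ∀ a, (MonoidHom.comp (LK F) φ : Representation F _ (chevE6.Idx → F)) a = LK F (φ a) := fun a => rfl
  rw [h78, h5, h5, h5, hthree x (ord hx (by decide)), hthree y (ord hy (by decide))] at h1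
  have h4 : (LK F (φ (x * y))) ^ 4 = 1 := by
    have h6 := ord hxy (m := 4) (by decide)
    rw [← map_pow, ← map_pow, ← h6, pow_orderOf_eq_one, map_one, map_one]
  have h7 := four_mul_ev h4
  rw [h78] at h7
  intro hbot
  rw [hbot, finrank_bot] at h1
  omega

/-- **a derivation commuting with the preimage of the alternating group** -/
theorem exists_der [CharP F 2] {φ : ↥(alternatingGroup (Fin 6)) →* ↥(chevE6.group F)} (hφ : Function.Injective φ)
    {ω : Fˣ} (hc : Cover φ ω) : ∃ c : chevE6.Idx → F, c ≠ 0 ∧ ∀ g : ↥(Zgrp F), ad F g ∈ φ.range → L F g c = c := by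
  obtain ⟨c, hc1, hc2⟩ := (Submodule.ne_bot_iff _).1 (inv_six_two hφ hc)
  refine ⟨c, hc2, ?_⟩
  rintro g ⟨a, ha⟩
  rw [L_eq, ← ha]
  exact (Representation.mem_invariants (ρ := (MonoidHom.comp (LK F) φ : Representation F _ (chevE6.Idx → F))) c).1 hc1 a

/-! ### derivations commuting with group elements -/

section comm

omit [Finite F]

theorem D_comm {g : ↥(Zgrp F)} {c : chevE6.Idx → F} (h : L F g c = c) (x : I27 → F) :
    V F g (D c x) = D c (V F g x) := by
  rw [D_act, h]

theorem D'_comm {g : ↥(Zgrp F)} {c : chevE6.Idx → F} (h : L F g c = c) (x : I27 → F) :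
    V' F g (D' c x) = D' c (V' F g x) := by
  rw [← sub_eq_zero]
  apply tf_nondeg
  intro y
  obtain ⟨z, rfl⟩ : ∃ z, V F g z = y := ⟨V F g⁻¹ y, Act.V_apply_inv g y⟩
  have h1 : tf (V F g z) (V' F g (D' c x)) = tf z (D' c x) := Act.tf_act g z _
  have h2 := adj_D c z x
  have h3 := adj_D c (V F g z) (V' F g x)
  rw [← D_comm h, Act.tf_act] at h3
  rw [sub_eq_add_neg, tf_add_left, ← neg_one_smul F, tf_smul_left, tf_comm, h1, tf_comm (D' c (V' F g x))]
  linear_combination h2 - h3

/-- conversely -/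
theorem L_of_comm {g : ↥(Zgrp F)} {c : chevE6.Idx → F} (h : ∀ x, V F g (D c x) = D c (V F g x)) : L F g c = c := by
  apply D_injective
  apply LinearMap.ext
  intro x
  obtain ⟨z, rfl⟩ : ∃ z, V F g z = x := ⟨V F g⁻¹ x, Act.V_apply_inv g x⟩
  rw [← D_act, h]

theorem D_smul (t : F) (c : chevE6.Idx → F) (x : I27 → F) : D (t • c) x = t • D c x := by
  rw [D_sum, D_sum, Finset.smul_sum]
  refine Finset.sum_congr rfl fun row _ => ?_
  rw [smul_smul, Pi.smul_apply, smul_eq_mul]

theorem D_zero (x : I27 → F) : D (0 : chevE6.Idx → F) x = 0 := by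
  have := D_smul (0 : F) 0 x
  rwa [zero_smul, zero_smul] at this

theorem D_ne_zero {c : chevE6.Idx → F} (hc : c ≠ 0) : D c ≠ 0 := by
  intro h
  apply hc
  apply D_injective
  rw [h]
  apply LinearMap.ext
  intro x
  rw [D_zero]
  rfl

end comm

/-- **nilpotent derivations of small rank are impossible** -/
theorem no_nilp [CharP F 2] (h3 : 3 ≤ Nat.card F) {H : Subgroup ↥(chevE6.group F)} {n : ℕ}
    {φ : ↥(alternatingGroup (Fin n)) →* ↥(chevE6.group F)} (hS : Sit H n φ) {c : chevE6.Idx → F} (hc : c ≠ 0)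
    (hfix : ∀ g : ↥(Zgrp F), ad F g ∈ φ.range → L F g c = c) (hr : finrank F ↥(LinearMap.range (D c)) ≤ 8)
    (hn : IsNilpotent (D c)) : False := by
  have hp : (2 : ℕ).Prime := Nat.prime_two
  have hF3 : (3 : F) ≠ 0 := by
    intro h
    have h1 : ((3 : ℕ) : F) = 0 := by exact_mod_cast h
    rw [CharP.cast_eq_zero_iff F 2] at h1
    omega
  obtain ⟨m, hm⟩ := hn
  have hex : ∃ k, D c ^ (2 ^ k) = 0 := by
    refine ⟨m, ?_⟩
    have h1 : m ≤ 2 ^ m := Nat.lt_two_pow_self.le
    rw [← Nat.sub_add_cancel h1, pow_add, hm, mul_zero]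
  classical
  obtain ⟨k, hk⟩ : ∃ k, k = Nat.find hex := ⟨_, rfl⟩
  have hk0 : D c ^ (2 ^ k) = 0 := by rw [hk]; exact Nat.find_spec hex
  have hkpos : k ≠ 0 := by
    rintro rfl
    rw [pow_zero, pow_one] at hk0
    exact D_ne_zero hc hk0
  obtain ⟨j, rfl⟩ := Nat.exists_eq_succ_of_ne_zero hkpos
  have hj : D c ^ (2 ^ j) ≠ 0 := Nat.find_min hex (by omega)
  obtain ⟨c', hc'⟩ := pow_mem hp c j
  have hsq : ∀ x, D c' (D c' x) = 0 := by
    intro x
    have h1 : D c' * D c' = 0 := by rw [hc', ← pow_add, ← two_mul, ← pow_succ', hk0]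
    exact LinearMap.congr_fun h1 x
  have hr' : finrank F ↥(LinearMap.range (D c')) ≤ 8 := by
    refine le_trans (Submodule.finrank_mono ?_) hr
    rw [hc']
    have h1 : (2 : ℕ) ^ j = (2 ^ j - 1) + 1 := by have := Nat.one_le_two_pow (n := j); omega
    rw [h1, pow_succ']
    rintro _ ⟨x, rfl⟩
    exact ⟨(D c ^ (2 ^ j - 1)) x, rfl⟩
  have hfix' : ∀ g : ↥(Zgrp F), ad F g ∈ φ.range → L F g c' = c' := by
    intro g hg
    apply L_of_comm
    intro x
    rw [hc']
    have h1 : ∀ i x, V F g ((D c ^ i) x) = (D c ^ i) (V F g x) := by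
      intro i
      induction i with
      | zero => intro x; rfl
      | succ i ih =>
        intro x
        rw [pow_succ', Module.End.mul_apply, Module.End.mul_apply, D_comm (hfix g hg), ih]
    exact h1 _ x
  refine hS.no_add (D c') (by rw [hc']; exact hj) hsq fun t => ?_
  obtain ⟨g, hg⟩ := one_add_mem_of_ts h3 (isDer_D (t • c')) (fun x => by rw [D_smul, D_smul, map_smul, hsq, smul_zero, smul_zero])
    (fun y => by
      rw [D_smul, sh_smul, sh_D_eq_zero h3 hF3 c' hsq hr' y, smul_zero])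
  refine ⟨g, fun x => by rw [hg, D_smul], fun b => ?_⟩
  obtain ⟨h, hh⟩ := ad_surjective (φ b)
  have h1 : h * g = g * h := by
    apply Cfsg.Agent.H65.E6Ext.V_injective
    intro x
    rw [map_mul, map_mul, Module.End.mul_apply, Module.End.mul_apply, hg, hg, map_add, D_smul, D_smul, map_smul,
      D_comm (hfix' h ⟨b, hh.symm⟩)]
  rw [← hh, ← map_mul, ← map_mul, h1]

end Cfsg.Agent.H944.E6CovTwo
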