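import Mathlib
import Cfsg.Agent.H944.E6CovTwo
import Cfsg.Agent.H906.E6.SixC

/-!
# Derivations commuting with the three-fold cover of `A₆` in characteristic 2: the semisimple part (helper944)

* `Fit.exists_three` : a stable subspace of dimension three inside a stable subspace which contains a vector with a line
  stable under a point stabilizer;
* `no_der` : a derivation `D c ≠ 0` commuting with the preimage, of rank at most 6, such that `D c` and `D' c` are 0 on
  all stable subspaces of dimension three, is impossible.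
-/

set_option autoImplicit false

namespace Cfsg.Agent.H944.E6CovFit

open Cfsg Cfsg.Lie Module Equiv
open Cfsg.Agent.ChevalleyStructure.E6Min.Tables Cfsg.Agent.ChevalleyStructure.E6Min.Basic
  Cfsg.Agent.ChevalleyStructure.E6Min.Adjoint
open Cfsg.Agent.H163.E6 Cfsg.Agent.H163.E6.Der
open Cfsg.Agent.H952.F4 (ev es matRep sh cr tf MaxAlt)
open Cfsg.Agent.H952.F4.Jord
open Cfsg.Agent.H944.E6CovTwo
open Cfsg.Agent.H906.E6.Hexa (A6 tx ty Ext XY)
open Cfsg.Agent.H906.E6.SixC (j j_injective j_surj eq_one_of_id)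

universe u

/-! ### linear algebra -/

section lin

variable {K : Type*} [Field K] {W : Type*} [AddCommGroup W] [Module K W] [FiniteDimensional K W]

/-- an involution in characteristic 2 -/
theorem two_mul_ev [CharP K 2] {T : Module.End K W} (hT : T ^ 2 = 1) : finrank K W ≤ 2 * ev T 1 := by
  have h2 : (2 : K) = 0 := CharTwo.two_eq_zero
  have h1 : (T - 1) ^ 2 = 0 := by
    refine LinearMap.ext fun v => ?_
    have h3 : T (T v) = v := by
      have := LinearMap.congr_fun hT v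
      rwa [pow_two] at this
    rw [pow_two]
    show T (T v - v) - (T v - v) = 0
    rw [map_sub, h3]
    have h4 : v - T v - (T v - v) = (2 : K) • (v - T v) := by rw [two_smul]; abel
    rw [h4, h2, zero_smul]
  have h5 := finrank_ker_pow_le (T - 1) 2
  have h3 : LinearMap.ker (0 : Module.End K W) = ⊤ := LinearMap.ker_zero
  have h4 : LinearMap.ker (T - 1) = Module.End.eigenspace T 1 := by
    rw [Module.End.eigenspace_def, one_smul]
  rw [h1, h4, h3, finrank_top] at h5
  exact h5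

/-- eigenspaces of `T` are permuted by an operator commuting with `T` up to a scalar -/
theorem ev_le {T B : Module.End K W} {d m : K} (hd : d ≠ 0) (hB : Function.Injective B)
    (h : ∀ w, B (T w) = d • T (B w)) : ev T m ≤ ev T (d⁻¹ * m) := by
  rw [ev, ev]
  let f : Module.End.eigenspace T m →ₗ[K] W := B ∘ₗ (Module.End.eigenspace T m).subtype
  have hf : ∀ v, f v ∈ Module.End.eigenspace T (d⁻¹ * m) := by
    rintro ⟨v, hv⟩
    rw [Module.End.mem_eigenspace_iff] at hv ⊢
    show T (B v) = (d⁻¹ * m) • B v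
    rw [mul_smul, ← map_smul, ← hv, h, smul_smul, inv_mul_cancel₀ hd, one_smul]
  refine LinearMap.finrank_le_finrank_of_injective (f := f.codRestrict _ hf) ?_
  intro u v huv
  have h1 : f u = f v := congrArg Subtype.val huv
  exact Subtype.ext (hB h1)

/-- an element of order three -/
theorem three_mul_ev {T B : Module.End K W} {d : K} (hd1 : d ≠ 1) (hd3 : d ^ 3 = 1) (hT : T ^ 3 = 1)
    (hB : Function.Injective B) (h : ∀ w, B (T w) = d • T (B w)) : finrank K W ≤ 3 * ev T 1 := by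
  have hd : d ≠ 0 := by
    rintro rfl
    rw [zero_pow (by norm_num)] at hd3
    exact zero_ne_one hd3
  have hq : d ^ 2 + d + 1 = 0 := by
    have h1 : (d - 1) * (d ^ 2 + d + 1) = 0 := by linear_combination hd3
    exact (mul_eq_zero.1 h1).resolve_left (sub_ne_zero.2 hd1)
  have e1 := ev_le (m := d⁻¹ * (d⁻¹ * 1)) hd hB h
  have e2 := ev_le (m := d⁻¹ * 1) hd hB h
  have e3 : d⁻¹ * (d⁻¹ * (d⁻¹ * 1)) = 1 := by
    have h7 := inv_mul_cancel₀ hd
    have h8 : d⁻¹ ^ 3 = 1 := by rw [inv_pow, hd3, inv_one]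
    linear_combination h8
  rw [e3] at e1
  have e4 : ∀ m : K, LinearMap.ker (T - m • 1) = Module.End.eigenspace T m := by
    intro m
    rw [Module.End.eigenspace_def]
  have h1 : (T - (d⁻¹ * (d⁻¹ * 1)) • 1) * ((T - (d⁻¹ * 1) • 1) * (T - (1 : K) • (1 : Module.End K W))) = 0 := by
    refine LinearMap.ext fun v => ?_
    have h5 : T (T (T v)) = v := by
      have := LinearMap.congr_fun hT v
      rwa [pow_succ, pow_two] at this
    show T (T (T v - (1 : K) • v) - (d⁻¹ * 1) • (T v - (1 : K) • v))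
      - (d⁻¹ * (d⁻¹ * 1)) • (T (T v - (1 : K) • v) - (d⁻¹ * 1) • (T v - (1 : K) • v)) = 0
    simp only [map_sub, map_smul, one_smul, mul_one]
    rw [h5]
    have h6 : d⁻¹ ^ 2 + d⁻¹ + 1 = 0 := by
      have h7 := inv_mul_cancel₀ hd
      linear_combination d⁻¹ ^ 2 * hq - (d⁻¹ * d + 1) * h7 - d⁻¹ * h7
    have h7 : d⁻¹ * (d⁻¹ * d⁻¹) = 1 := by rw [mul_one] at e3; exact e3
    obtain ⟨e, he⟩ : ∃ e, e = d⁻¹ := ⟨_, rfl⟩
    rw [← he] at h6 h7 ⊢
    have h8 : v - T (T v) - e • (T (T v) - T v) - (e * e) • (T (T v) - T v - e • (T v - v)) =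
        (1 - e * (e * e)) • v + (-(1 + e + e ^ 2)) • T (T v) + (e * (1 + e + e * e)) • T v := by
      module
    rw [h8]
    have h9 : 1 - e * (e * e) = 0 := by linear_combination -h7
    have h10 : -(1 + e + e ^ 2) = 0 := by linear_combination -h6
    have h11 : e * (1 + e + e * e) = 0 := by linear_combination e * h6
    rw [h9, h10, h11, zero_smul, zero_smul, zero_smul, add_zero, add_zero]
  have h2 := finrank_ker_mul_le (T - (d⁻¹ * (d⁻¹ * 1)) • 1) ((T - (d⁻¹ * 1) • 1) * (T - (1 : K) • (1 : Module.End K W)))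
  have h3 := finrank_ker_mul_le (T - (d⁻¹ * 1) • 1) (T - (1 : K) • (1 : Module.End K W))
  rw [h1] at h2
  have h4 : LinearMap.ker (0 : Module.End K W) = ⊤ := LinearMap.ker_zero
  rw [h4, finrank_top, e4] at h2
  rw [e4, e4] at h3
  have h5 : ∀ m, finrank K ↥(Module.End.eigenspace T m) = ev T m := fun m => rfl
  rw [h5] at h2 h3
  rw [h5] at h3
  omega

omit [FiniteDimensional K W] in
/-- restriction to a stable subspace -/
theorem ev_restrict {T : Module.End K W} {U : Submodule K W} (hU : ∀ w ∈ U, T w ∈ U) (m : K) :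
    ev (T.restrict hU) m = finrank K ↥(U ⊓ Module.End.eigenspace T m) := by
  have h1 : (Module.End.eigenspace (T.restrict hU) m).map U.subtype = U ⊓ Module.End.eigenspace T m := by
    ext w
    constructor
    · rintro ⟨u, hu, rfl⟩
      rw [SetLike.mem_coe, Module.End.mem_eigenspace_iff] at hu
      exact ⟨u.2, Module.End.mem_eigenspace_iff.2 (congrArg Subtype.val hu)⟩
    · rintro ⟨hu, hw⟩
      exact ⟨⟨w, hu⟩, Module.End.mem_eigenspace_iff.2 (Subtype.ext (Module.End.mem_eigenspace_iff.1 hw)), rfl⟩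
  rw [ev, ← Submodule.finrank_map_subtype_eq U, h1]

/-- eigenspaces and stable decompositions -/
theorem ev_le_add {T : Module.End K W} {U1 U2 : Submodule K W} (h1 : ∀ w ∈ U1, T w ∈ U1) (h2 : ∀ w ∈ U2, T w ∈ U2)
    (hc : IsCompl U1 U2) (m : K) :
    ev T m ≤ finrank K ↥(U1 ⊓ Module.End.eigenspace T m) + finrank K ↥(U2 ⊓ Module.End.eigenspace T m) := by
  have h3 : Module.End.eigenspace T m ≤ (U1 ⊓ Module.End.eigenspace T m) ⊔ (U2 ⊓ Module.End.eigenspace T m) := by
    intro w hw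
    obtain ⟨u1, hu1, u2, hu2, rfl⟩ := Submodule.mem_sup.1 (hc.sup_eq_top ▸ Submodule.mem_top : w ∈ U1 ⊔ U2)
    rw [Module.End.mem_eigenspace_iff] at hw
    have h4 : T u1 - m • u1 = -(T u2 - m • u2) := by
      rw [map_add, smul_add] at hw
      rw [neg_sub, sub_eq_sub_iff_add_eq_add, hw]
      abel
    have h5 : T u1 - m • u1 ∈ U1 ⊓ U2 := by
      refine ⟨U1.sub_mem (h1 _ hu1) (U1.smul_mem _ hu1), ?_⟩
      rw [h4]
      exact U2.neg_mem (U2.sub_mem (h2 _ hu2) (U2.smul_mem _ hu2))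
    rw [hc.inf_eq_bot, Submodule.mem_bot] at h5
    have h6 : T u2 - m • u2 = 0 := by rw [h5, eq_comm, neg_eq_zero] at h4; exact h4
    refine Submodule.add_mem_sup ⟨hu1, ?_⟩ ⟨hu2, ?_⟩
    · exact Module.End.mem_eigenspace_iff.2 (sub_eq_zero.1 h5)
    · exact Module.End.mem_eigenspace_iff.2 (sub_eq_zero.1 h6)
  exact (Submodule.finrank_mono h3).trans (Submodule.finrank_add_le_finrank_add_finrank _ _)

end lin

/-! ### stable subspaces of the preimage of the alternating group -/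

section sub

variable {K : Type*} [Field K] {W : Type*} [AddCommGroup W] [Module K W] {P : Type*} [Group P]

/-- restriction of a representation to a stable subspace -/
def subrep (ρ : Representation K P W) (U : Submodule K W) (hU : ∀ b, ∀ w ∈ U, ρ b w ∈ U) : Representation K P ↥U where
  toFun b := (ρ b).restrict (hU b)
  map_one' := by
    refine LinearMap.ext fun w => Subtype.ext ?_
    show ρ 1 (w : W) = w
    rw [map_one]
    rfl
  map_mul' a b := by
    refine LinearMap.ext fun w => Subtype.ext ?_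
    show ρ (a * b) (w : W) = ρ a (ρ b w)
    rw [map_mul]
    rfl

end sub

variable {F : Type u} [Field F] [Finite F] {φ : A6 →* ↥(chevE6.group F)}

/-- the representation of the preimage -/
noncomputable abbrev rP (φ : A6 →* ↥(chevE6.group F)) (ρ : Representation F ↥(Zgrp F) (I27 → F)) :
    Representation F ↥(φ.range.comap (ad F)) (I27 → F) :=
  MonoidHom.comp ρ (φ.range.comap (ad F)).subtype

omit [Finite F] in
theorem stab_rP {ρ : Representation F ↥(Zgrp F) (I27 → F)} {U : Submodule F (I27 → F)} (hU : Stab ρ φ.range U) :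
    ∀ b, ∀ w ∈ U, rP φ ρ b w ∈ U := fun b w hw => hU b b.2 w hw

omit [Finite F] in
theorem ext_pr (hφ : Function.Injective φ) : Ext (Cov.pr hφ) := by
  refine ⟨Cov.pr_surjective hφ, fun z hz b => ?_, fun z hz => ?_⟩
  · exact Subtype.ext (Cov.ker_comm ((Cov.pr_eq_one hφ z).1 hz) b)
  · exact Subtype.ext (Cov.ker_pow ((Cov.pr_eq_one hφ z).1 hz))

/-- lifts of disjoint 3-cycles commute up to a scalar of order three -/
theorem comm_smul (hφ : Function.Injective φ) {ω : Fˣ} (hc : Cover φ ω) {ρ : Representation F ↥(Zgrp F) (I27 → F)}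
    (hρ : ρ = V F ∨ ρ = V' F) {a b : A6} (ha : (a : Perm (Fin 6)).cycleType = {3}) (hb : (b : Perm (Fin 6)).cycleType = {3})
    (hab : (a : Perm (Fin 6)).Disjoint b) {x y : ↥(Zgrp F)} (hx : ad F x = φ a) (hy : ad F y = φ b) :
    ∃ d : F, d ≠ 1 ∧ d ^ 3 = 1 ∧ ∀ w, ρ x (ρ y w) = d • ρ y (ρ x w) := by
  have hcm : a * b = b * a := Subtype.ext hab.commute.eq
  obtain ⟨z, hz⟩ : ∃ z : ↥(Zgrp F), z = x * y * x⁻¹ * y⁻¹ := ⟨_, rfl⟩
  have hz1 : ad F z = 1 := by
    rw [hz, map_mul, map_mul, map_mul, map_inv, map_inv, hx, hy, ← map_inv, ← map_inv, ← map_mul, ← map_mul, ← map_mul,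
      hcm, mul_inv_cancel_right, mul_inv_cancel, map_one]
  have hz0 : z ≠ 1 := by
    intro h0
    have h1 := Cov.not_comm (n := 6) (Or.inl rfl) hφ hc ha hb hab hx hy
    rw [← hz, h0] at h1
    have h2 : ((1 : ↥(Zgrp F)) : GL I27 F) = scal 1 := by rw [Cov.scal_one]; rfl
    rw [h2] at h1
    rcases h1 with ⟨-, h1⟩ | ⟨-, h1⟩
    · exact hc.1 (Cov.scal_injective h1).symm
    · exact hc.1 (inv_eq_one.1 (Cov.scal_injective h1).symm)
  obtain ⟨d, hd⟩ := exists_smul hz1 hρ
  have hd1 : d ≠ 1 := by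
    rintro rfl
    exact hz0 (eq_one_of_id hρ fun w => by rw [hd, one_smul])
  obtain ⟨v, hv⟩ : ∃ v : I27 → F, v ≠ 0 := ⟨fun _ => 1, fun h => one_ne_zero (congrFun h (0 : I27))⟩
  have hd3 : d ^ 3 = 1 := by
    have h1 : ρ (z ^ 3) v = v := by rw [Cov.ker_pow hz1, map_one]; rfl
    rw [pow_succ, pow_two, rho_mul, rho_mul, hd, hd, hd, smul_smul, smul_smul] at h1
    have h2 : (d * d * d - 1) • v = 0 := by rw [sub_smul, h1, one_smul, sub_self]
    have h3 := (smul_eq_zero.1 h2).resolve_right hv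
    linear_combination h3
  refine ⟨d, hd1, hd3, fun w => ?_⟩
  rw [← hd, ← rho_mul, ← rho_mul, ← rho_mul, hz]
  congr 2
  group

/-- the commuting 3-elements -/
theorem exists_xy (hφ : Function.Injective φ) {ω : Fˣ} (hc : Cover φ ω) {ρ : Representation F ↥(Zgrp F) (I27 → F)}
    (hρ : ρ = V F ∨ ρ = V' F) : ∃ x y, ∃ d : F, XY (Cov.pr hφ) (rP φ ρ) x y d := by
  obtain ⟨x, hx⟩ := Cov.pr_surjective hφ tx
  obtain ⟨y, hy⟩ := Cov.pr_surjective hφ ty
  have hx' : ad F (x : ↥(Zgrp F)) = φ tx := by rw [← hx, Cov.phi_pr]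
  have hy' : ad F (y : ↥(Zgrp F)) = φ ty := by rw [← hy, Cov.phi_pr]
  obtain ⟨d, hd1, hd3, hd⟩ := comm_smul hφ hc hρ (a := tx) (b := ty) (by decide +kernel) (by decide +kernel)
    (show ∀ i, _ from by decide +kernel) hx' hy'
  exact ⟨x, y, d, hx, hy, hd, hd1, hd3⟩

/-- stable subspaces have dimension divisible by 3 -/
theorem three_dvd (hφ : Function.Injective φ) {ω : Fˣ} (hc : Cover φ ω) {ρ : Representation F ↥(Zgrp F) (I27 → F)}
    (hρ : ρ = V F ∨ ρ = V' F) {U : Submodule F (I27 → F)} (hU : Stab ρ φ.range U) : 3 ∣ finrank F ↥U := by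
  obtain ⟨x, y, d, hT⟩ := exists_xy hφ hc hρ
  exact hT.three_dvd U (stab_rP hU)

/-- a stable subspace of dimension three in a given stable subspace -/
theorem exists_three [CharP F 2] (hφ : Function.Injective φ) {ω : Fˣ} (hc : Cover φ ω)
    {ρ : Representation F ↥(Zgrp F) (I27 → F)}
    (hρ : ρ = V F ∨ ρ = V' F) {U : Submodule F (I27 → F)} (hU : Stab ρ φ.range U) {v : I27 → F} (hv : v ∈ U) (hv0 : v ≠ 0)
    (hl : ∀ b : ↥(φ.range.comap (ad F)), (Cov.pr hφ b : Perm (Fin 6)) 5 = 5 → ∃ c : F, ρ b v = c • v) :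
    ∃ W : Submodule F (I27 → F), W ≤ U ∧ Stab ρ φ.range W ∧ finrank F ↥W = 3 := by
  obtain ⟨x, y, d, hT⟩ := exists_xy hφ hc hρ
  have hT' : XY (Cov.pr hφ) (subrep (rP φ ρ) U (stab_rP hU)) x y d :=
    ⟨hT.hx, hT.hy, fun u => Subtype.ext (hT.comm u), hT.ne, hT.cube⟩
  obtain ⟨W, hW, h3⟩ := H906.E6.Hexa.exists_three (ext_pr hφ) hT' (v := (⟨v, hv⟩ : ↥U))
    (fun h => hv0 (congrArg Subtype.val h)) fun b hb => by
      obtain ⟨c, hc⟩ := hl b hb
      exact ⟨c, Subtype.ext hc⟩
  refine ⟨W.map U.subtype, ?_, ?_, ?_⟩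
  · rintro _ ⟨w, -, rfl⟩
    exact w.2
  · rintro g hg _ ⟨w, hw, rfl⟩
    exact ⟨_, hW ⟨g, hg⟩ w hw, rfl⟩
  · rw [Submodule.finrank_map_subtype_eq, h3]

/-! ### the theorem -/

omit [Finite F] in
/-- `tf` is a perfect pairing -/
theorem exists_tf (f : (I27 → F) →ₗ[F] F) : ∃ y : I27 → F, ∀ x, f x = tf x y := by
  let Φ : (I27 → F) →ₗ[F] Module.Dual F (I27 → F) :=
    LinearMap.mk₂ F (fun y x => tf x y) (fun y y' x => tf_add_right x y y') (fun c y x => tf_smul_right c x y)
      (fun y x x' => tf_add_left x x' y) (fun c y x => tf_smul_left c x y)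
  have hΦ : ∀ y x, Φ y x = tf x y := fun y x => rfl
  have hinj : Function.Injective Φ := by
    rw [← LinearMap.ker_eq_bot, eq_bot_iff]
    intro y hy
    rw [LinearMap.mem_ker] at hy
    rw [Submodule.mem_bot]
    apply tf_nondeg
    intro x
    rw [tf_comm, ← hΦ, hy, LinearMap.zero_apply]
  have hsurj : Function.Surjective Φ :=
    (LinearMap.injective_iff_surjective_of_finrank_eq_finrank (Subspace.dual_finrank_eq).symm).1 hinj
  obtain ⟨y, hy⟩ := hsurj f
  exact ⟨y, fun x => by rw [← hy, hΦ]⟩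

/-- a 3-cycle disjoint to a given one -/
theorem exists_disj {a : A6} (ha : (a : Perm (Fin 6)).cycleType = {3}) :
    ∃ b : A6, (b : Perm (Fin 6)).cycleType = {3} ∧ (b : Perm (Fin 6)).Disjoint a := by
  have h1 : (a : Perm (Fin 6)).support.card = 3 := Perm.IsThreeCycle.card_support ha
  have h2 : ((a : Perm (Fin 6)).supportᶜ).card = 3 := by
    rw [Finset.card_compl, h1, Fintype.card_fin]
  obtain ⟨p, q, r, hpq, hpr, hqr, he⟩ := Finset.card_eq_three.1 h2
  have h3 : Perm.IsThreeCycle (swap p q * swap p r) := Perm.isThreeCycle_swap_mul_swap_same hpq hpr hqr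
  refine ⟨⟨swap p q * swap p r, h3.mem_alternatingGroup⟩, h3, fun x => ?_⟩
  by_cases hx : (a : Perm (Fin 6)) x = x
  · exact Or.inr hx
  · left
    have h4 : x ∉ (a : Perm (Fin 6)).supportᶜ := by
      rw [Finset.mem_compl, not_not, Perm.mem_support]
      exact hx
    rw [he] at h4
    simp only [Finset.mem_insert, Finset.mem_singleton, not_or] at h4
    show (swap p q * swap p r) x = x
    rw [Perm.mul_apply, swap_apply_of_ne_of_ne h4.1 h4.2.2, swap_apply_of_ne_of_ne h4.1 h4.2.1]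

/-- **a derivation commuting with the three-fold cover of `A₆`, of rank at most six and 0 on the small stable subspaces** -/
theorem no_der [CharP F 2] {H : Subgroup ↥(chevE6.group F)} (hS : Sit H 6 φ) {ω : Fˣ} (hc : Cover φ ω)
    {c : chevE6.Idx → F} (hc0 : c ≠ 0) (hfix : ∀ g : ↥(Zgrp F), ad F g ∈ φ.range → L F g c = c)
    (hD : ∀ W : Submodule F (I27 → F), Stab (V F) φ.range W → finrank F ↥W = 3 → ∀ w ∈ W, D c w = 0)
    (hD' : ∀ W : Submodule F (I27 → F), Stab (V' F) φ.range W → finrank F ↥W = 3 → ∀ w ∈ W, D' c w = 0)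
    (hr : finrank F ↥(LinearMap.range (D c)) ≤ 6)
    (h5 : finrank F ↥(LinearMap.range (D c)) = 6 → ∀ z : ↥(Zgrp F), ad F z ∈ φ.range → z ≠ 1 → z ^ 5 = 1 →
      2 + finrank F ↥(LinearMap.ker (D c) ⊓ Module.End.eigenspace (V F z) 1) ≤ ev (V F z) 1) : False := by
  have hφ := hS.inj
  have : Fact (Nat.Prime 2) := ⟨Nat.prime_two⟩
  obtain ⟨N, hN⟩ := ((LinearMap.eventually_isCompl_ker_pow_range_pow (D c)).and (Filter.eventually_ge_atTop 1)).exists
  obtain ⟨hcompl, hN1⟩ := hN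
  have hNs : D c ^ N = D c ^ (N - 1) * D c := by rw [← pow_succ, Nat.sub_add_cancel hN1]
  have hNs' : D c ^ N = D c * D c ^ (N - 1) := by rw [← pow_succ', Nat.sub_add_cancel hN1]
  have hcomm : ∀ g : ↥(Zgrp F), ad F g ∈ φ.range → ∀ i x, V F g ((D c ^ i) x) = (D c ^ i) (V F g x) := by
    intro g hg i
    induction i with
    | zero => intro x; rfl
    | succ i ih =>
      intro x
      rw [pow_succ', Module.End.mul_apply, Module.End.mul_apply, D_comm (hfix g hg), ih]
  obtain ⟨K1, hK1⟩ : ∃ K1, K1 = LinearMap.ker (D c ^ N) := ⟨_, rfl⟩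
  obtain ⟨R1, hR1⟩ : ∃ R1, R1 = LinearMap.range (D c ^ N) := ⟨_, rfl⟩
  rw [← hK1, ← hR1] at hcompl
  have hKs : Stab (V F) φ.range K1 := by
    intro g hg w hw
    rw [hK1, LinearMap.mem_ker] at hw ⊢
    rw [← hcomm g hg, hw, map_zero]
  have hRs : Stab (V F) φ.range R1 := by
    rintro g hg w hw
    rw [hR1] at hw ⊢
    obtain ⟨x, rfl⟩ := hw
    exact ⟨V F g x, (hcomm g hg N x).symm⟩
  have hRinj : ∀ w ∈ R1, D c w = 0 → w = 0 := by
    intro w hw h0
    have h1 : w ∈ K1 := by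
      rw [hK1, LinearMap.mem_ker, hNs, Module.End.mul_apply, h0, map_zero]
    have h2 : w ∈ K1 ⊓ R1 := ⟨h1, hw⟩
    rwa [hcompl.inf_eq_bot, Submodule.mem_bot] at h2
  have hR6 : finrank F ↥R1 ≤ finrank F ↥(LinearMap.range (D c)) := by
    refine Submodule.finrank_mono ?_
    rw [hR1, hNs']
    rintro _ ⟨x, rfl⟩
    exact ⟨(D c ^ (N - 1)) x, rfl⟩
  have h3 : 3 ≤ Nat.card F := by
    classical
    have := Fintype.ofFinite F
    have h0 : (ω : F) ≠ 1 := fun h => hc.1 (Units.ext h)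
    have h1 : ({0, 1, (ω : F)} : Finset F).card = 3 := by
      rw [Finset.card_insert_of_notMem, Finset.card_insert_of_notMem, Finset.card_singleton]
      · rw [Finset.mem_singleton]
        exact fun h => h0 h.symm
      · rw [Finset.mem_insert, Finset.mem_singleton]
        rintro (h | h)
        · exact zero_ne_one h
        · exact ω.ne_zero h.symm
    rw [Nat.card_eq_fintype_card, ← h1]
    exact Finset.card_le_univ _
  -- the contradiction from a stable subspace of dimension 3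
  have key : ∀ W : Submodule F (I27 → F), W ≤ R1 → Stab (V F) φ.range W → finrank F ↥W = 3 → False := by
    intro W hW hs h3
    have h4 : W = ⊥ := by
      rw [Submodule.eq_bot_iff]
      exact fun w hw => hRinj w (hW hw) (hD W hs h3 w hw)
    rw [h4, finrank_bot] at h3
    omega
  have key' : ∀ W : Submodule F (I27 → F), (∀ w ∈ W, ∀ x ∈ K1, tf x w = 0) → Stab (V' F) φ.range W → finrank F ↥W = 3 →
      False := by
    intro W hW hs h3
    have h4 : W = ⊥ := by
      rw [Submodule.eq_bot_iff]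
      intro w hw
      apply tf_nondeg
      intro x
      rw [tf_comm]
      obtain ⟨u1, hu1, u2, hu2, rfl⟩ := Submodule.mem_sup.1 (hcompl.sup_eq_top ▸ Submodule.mem_top : x ∈ K1 ⊔ R1)
      rw [hR1, hNs'] at hu2
      obtain ⟨t, rfl⟩ := hu2
      have h5 := adj_D c ((D c ^ (N - 1)) t) w
      rw [hD' W hs h3 w hw, tf_zero_right, add_zero] at h5
      rw [tf_add_left, hW w hw u1 hu1, zero_add]
      exact h5
    rw [h4, finrank_bot] at h3
    omega
  obtain ⟨m, hm⟩ := three_dvd hφ hc (Or.inl rfl) hRs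
  have hm3 : m = 0 ∨ m = 1 ∨ m = 2 := by omega
  rcases hm3 with rfl | rfl | rfl
  · -- nilpotent
    rw [mul_zero, Submodule.finrank_eq_zero] at hm
    refine no_nilp h3 hS hc0 hfix (by omega) ⟨N, ?_⟩
    rw [← LinearMap.range_eq_bot, ← hR1, hm]
  · exact key R1 le_rfl hRs hm
  -- dimension 6
  have hdim : finrank F (I27 → F) = 27 := by
    rw [Module.finrank_fintype_fun_eq_card]
    decide
  have hr6 : finrank F ↥(LinearMap.range (D c)) = 6 := by omega
  have hKK : K1 = LinearMap.ker (D c) := by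
    symm
    refine Submodule.eq_of_le_of_finrank_eq ?_ ?_
    · intro w hw
      rw [LinearMap.mem_ker] at hw
      rw [hK1, LinearMap.mem_ker, hNs, Module.End.mul_apply, hw, map_zero]
    · have h6 := LinearMap.finrank_range_add_finrank_ker (D c)
      have h7 := Submodule.finrank_add_eq_of_isCompl hcompl
      omega
  obtain ⟨ψ, hψ⟩ : ∃ ψ : ↥(alternatingGroup (Fin 5)) →* ↥(Zgrp F), Lift (φ.comp j) ψ := by
    rcases Cov.exists_lift (n := 5) le_rfl (φ := φ.comp j) (hφ.comp j_injective) with h | ⟨h | h, -⟩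
    · exact h
    · omega
    · omega
  have hψ' : ∀ a, ad F (ψ a) = φ (j a) := hψ
  have hψm : ∀ a, ad F (ψ a) ∈ φ.range := fun a => ⟨j a, (hψ' a).symm⟩
  have hline : ∀ {ρ : Representation F ↥(Zgrp F) (I27 → F)}, (ρ = V F ∨ ρ = V' F) → ∀ v : I27 → F,
      (∀ a, ρ (ψ a) v = v) → ∀ b : ↥(φ.range.comap (ad F)), (Cov.pr hφ b : Perm (Fin 6)) 5 = 5 →
        ∃ c : F, ρ b v = c • v := by
    intro ρ hρ v hv b hb
    obtain ⟨a, ha⟩ := j_surj hb
    have h1 : ad F (b : ↥(Zgrp F)) = ad F (ψ a) := by rw [hψ', ha, Cov.phi_pr]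
    obtain ⟨d, hd⟩ := exists_smul (z := (b : ↥(Zgrp F)) * (ψ a)⁻¹) (by rw [map_mul, map_inv, h1, mul_inv_cancel]) hρ
    refine ⟨d, ?_⟩
    rw [← hd]
    conv_rhs => rw [← hv a]
    rw [← rho_mul, inv_mul_cancel_right]
  -- the restriction to `R1`
  let ρ1 : Representation F ↥(alternatingGroup (Fin 5)) ↥R1 :=
    subrep (MonoidHom.comp (V F) ψ) R1 fun a w hw => hRs (ψ a) (hψm a) w hw
  have hρ1 : ∀ a (w : ↥R1), ((ρ1 a w : ↥R1) : I27 → F) = V F (ψ a) w := fun a w => rfl
  have hi1 : ρ1.invariants = ⊥ := by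
    rw [Submodule.eq_bot_iff]
    rintro ⟨v, hv⟩ hvi
    by_contra hv0
    have hv0' : v ≠ 0 := fun h => hv0 (Subtype.ext h)
    obtain ⟨W, hW, hs, h3⟩ := exists_three hφ hc (Or.inl rfl) hRs hv hv0'
      (hline (Or.inl rfl) v fun a => congrArg Subtype.val ((Representation.mem_invariants (ρ := ρ1) _).1 hvi a))
    exact key W hW hs h3
  have hi2 : ρ1.dual.invariants = ⊥ := by
    rw [Submodule.eq_bot_iff]
    intro f hf
    by_contra hf0
    have hf1 : ∀ a w, f (ρ1 a⁻¹ w) = f w := fun a w =>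
      LinearMap.congr_fun ((Representation.mem_invariants (ρ := ρ1.dual) _).1 hf a) w
    obtain ⟨pj, hpj⟩ : ∃ pj : (I27 → F) →ₗ[F] ↥R1, (∀ w : ↥R1, pj w = w) ∧ ∀ w ∈ K1, pj w = 0 :=
      ⟨Submodule.projectionOnto R1 K1 hcompl.symm, fun w => Submodule.projectionOnto_apply_left _ w,
        fun w hw => (Submodule.projectionOnto_apply_eq_zero_iff _).2 hw⟩
    obtain ⟨y, hy⟩ := exists_tf (f ∘ₗ pj)
    have hyK : ∀ x ∈ K1, tf x y = 0 := by
      intro x hx
      rw [← hy, LinearMap.comp_apply, hpj.2 x hx, map_zero]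
    have hyR : ∀ x : ↥R1, tf (x : I27 → F) y = f x := by
      intro x
      rw [← hy, LinearMap.comp_apply, hpj.1]
    have hy0 : y ≠ 0 := by
      rintro rfl
      apply hf0
      refine LinearMap.ext fun x => ?_
      rw [← hyR, tf_zero_right]
      rfl
    have hyi : ∀ a, V' F (ψ a) y = y := by
      intro a
      rw [← sub_eq_zero]
      apply tf_nondeg
      intro x
      obtain ⟨z, hz⟩ : ∃ z, V F (ψ a) z = x := ⟨V F (ψ a)⁻¹ x, Act.V_apply_inv (ψ a) x⟩
      rw [tf_comm, sub_eq_add_neg, tf_add_right, tf_neg_right, ← hz, Act.tf_act]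
      obtain ⟨u1, hu1, u2, hu2, rfl⟩ := Submodule.mem_sup.1 (hcompl.sup_eq_top ▸ Submodule.mem_top : z ∈ K1 ⊔ R1)
      rw [map_add, tf_add_left, tf_add_left, hyK u1 hu1, hyK _ (hKs (ψ a) (hψm a) u1 hu1), zero_add, zero_add]
      have h6 := hyR ⟨u2, hu2⟩
      have h7 := hyR ⟨V F (ψ a) u2, hRs (ψ a) (hψm a) u2 hu2⟩
      have h8 := hf1 a⁻¹ ⟨u2, hu2⟩
      rw [inv_inv] at h8
      have h9 : ρ1 a ⟨u2, hu2⟩ = ⟨V F (ψ a) u2, hRs (ψ a) (hψm a) u2 hu2⟩ := rfl
      rw [h9] at h8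
      change tf u2 y = _ at h6
      change tf (V F (ψ a) u2) y = _ at h7
      rw [h6, h7, h8, add_neg_cancel]
    let U : Submodule F (I27 → F) :=
      { carrier := {w | ∀ x ∈ K1, tf x w = 0}
        zero_mem' := fun x _ => tf_zero_right x
        add_mem' := fun {a b} ha hb x hx => by rw [tf_add_right, ha x hx, hb x hx, add_zero]
        smul_mem' := fun t a ha x hx => by rw [tf_smul_right, ha x hx, mul_zero] }
    have hU : ∀ w, w ∈ U ↔ ∀ x ∈ K1, tf x w = 0 := fun w => Iff.rfl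
    have hUs : Stab (V' F) φ.range U := by
      intro g hg w hw
      rw [hU] at hw ⊢
      intro x hx
      have h6 := hw _ (hKs g⁻¹ (by rw [map_inv]; exact inv_mem hg) x hx)
      rwa [← Act.tf_act g, Act.V_apply_inv] at h6
    obtain ⟨W, hW, hs, h3⟩ := exists_three hφ hc (Or.inr rfl) hUs ((hU y).2 hyK) hy0 (hline (Or.inr rfl) y hyi)
    exact key' W (fun w hw => (hU w).1 (hW hw)) hs h3
  obtain ⟨x, y, hgen, hx, hy, hxy⟩ := H952.F4.Gen.gen5
  have hsc := H952.F4.Scott.scott ρ1 hgen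
  rw [hi1, hi2, finrank_bot, finrank_bot, hm] at hsc
  have hord : ∀ {a : ↥(alternatingGroup (Fin 5))} {m : Multiset ℕ} {k : ℕ}, (a : Perm (Fin 5)).cycleType = m → m.lcm = k →
      orderOf a = k := by
    intro a m k ha hm
    rw [← Subgroup.orderOf_coe, ← Perm.lcm_cycleType, ha, hm]
  have ox : orderOf x = 2 := hord hx (by decide)
  have oy : orderOf y = 3 := hord hy (by decide)
  have oz : orderOf (x * y) = 5 := hord hxy (by decide)
  have e2 := two_mul_ev (T := ρ1 x) (by rw [← map_pow, ← ox, pow_orderOf_eq_one, map_one])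
  rw [hm] at e2
  have e3 : 2 ≤ ev (ρ1 y) 1 := by
    -- an element commuting with the lift of `y` up to a scalar
    obtain ⟨b, d, hd1, hd3, hbd⟩ : ∃ b : ↥(Zgrp F), ∃ d : F, d ≠ 1 ∧ d ^ 3 = 1 ∧ ad F b ∈ φ.range ∧
        ∀ w, V F b (V F (ψ y) w) = d • V F (ψ y) (V F b w) := by
      have hjy : ((j y : A6) : Perm (Fin 6)).cycleType = {3} := (Perm.cycleType_extendDomain _).trans hy
      obtain ⟨a, ha, hda⟩ := exists_disj hjy
      obtain ⟨b, hb⟩ := ad_surjective (φ a)
      obtain ⟨d, hd1, hd3, hd⟩ := comm_smul hφ hc (Or.inl rfl) ha hjy hda hb (hψ' y)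
      exact ⟨b, d, hd1, hd3, ⟨a, hb.symm⟩, hd⟩
    have h6 := three_mul_ev (T := ρ1 y) (B := (V F b).restrict (hRs b hbd.1)) hd1 hd3
      (by rw [← map_pow, ← oy, pow_orderOf_eq_one, map_one]) (fun u w huw => Subtype.ext (by
        have h7 : V F b u = V F b w := congrArg Subtype.val huw
        have h8 := congrArg (V F b⁻¹) h7
        rwa [Act.V_inv_apply, Act.V_inv_apply] at h8)) fun w => Subtype.ext (hbd.2 w)
    rw [hm] at h6
    omega
  have hz5 : (x * y) ^ 5 = 1 := orderOf_dvd_iff_pow_eq_one.1 (by rw [oz])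
  have e5 : 2 ≤ ev (ρ1 (x * y)) 1 := by
    have h6 := h5 hr6 (ψ (x * y)) (hψm _) (by
      intro h6
      have h7 : φ (j (x * y)) = 1 := by rw [← hψ', h6, map_one]
      have h8 : x * y = 1 := j_injective (hφ (by rw [h7, map_one, map_one]))
      rw [h8, orderOf_one] at oz
      omega) (by rw [← map_pow, hz5, map_one])
    have h7 := ev_le_add (T := V F (ψ (x * y))) (hKs _ (hψm _)) (hRs _ (hψm _)) hcompl 1
    have h8 : ev (ρ1 (x * y)) 1 = _ := ev_restrict (T := V F (ψ (x * y))) (U := R1) (hRs _ (hψm _)) 1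
    rw [hKK] at h7
    omega
  omega

end Cfsg.Agent.H944.E6CovFit
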