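import Mathlib
import Cfsg.Agent.H944.E6CovFit
import Cfsg.Agent.H952.F4.Gen

/-!
# Derivations commuting with the three-fold cover of `A₆` in characteristic 2: the kernel (helper944)
-/

set_option autoImplicit false

namespace Cfsg.Agent.H944.E6CovKer

open Cfsg Cfsg.Lie Module Equiv
open Cfsg.Agent.ChevalleyStructure.E6Min.Tables Cfsg.Agent.ChevalleyStructure.E6Min.Basic
  Cfsg.Agent.ChevalleyStructure.E6Min.Adjoint
open Cfsg.Agent.H163.E6 Cfsg.Agent.H163.E6.Der
open Cfsg.Agent.H952.F4 (ev es matRep sh cr tf MaxAlt)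
open Cfsg.Agent.H952.F4.Jord
open Cfsg.Agent.H944.E6CovTwo Cfsg.Agent.H944.E6CovFit
open Cfsg.Agent.H906.E6.Hexa (A6 tx ty Ext XY)
open Cfsg.Agent.H906.E6.SixC (j j_injective j_surj eq_one_of_id)

universe u

/-! ### linear algebra -/

section lin

variable {K : Type*} [Field K] {W : Type*} [AddCommGroup W] [Module K W] [FiniteDimensional K W]

/-- an element of order five inverted by an involution, characteristic 2 -/
theorem even_aux [CharP K 2] {T B : Module.End K W} (hT : T ^ 5 = 1) (hB : B ^ 2 = 1) (hBT : (B * T) ^ 2 = 1) :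
    ∃ m, finrank K W = ev T 1 + 2 * m := by
  have h2 : (2 : K) = 0 := CharTwo.two_eq_zero
  obtain ⟨Y, hY⟩ : ∃ Y, Y = LinearMap.range (T - 1) := ⟨_, rfl⟩
  have h1 := H952.F4.Scott.rank_add_ev T
  rw [← hY] at h1
  have hTT : ∀ w, T (T (T (T (T w)))) = w := by
    intro w
    have := LinearMap.congr_fun hT w
    rw [pow_succ, pow_succ, pow_succ, pow_two] at this
    exact this
  have hBB : ∀ w, B (B w) = w := by
    intro w
    have := LinearMap.congr_fun hB w
    rwa [pow_two] at this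
  have hBTT : ∀ w, B (T (B (T w))) = w := by
    intro w
    have := LinearMap.congr_fun hBT w
    rwa [pow_two] at this
  have hYT : ∀ w ∈ Y, T w ∈ Y := by
    rw [hY]
    rintro _ ⟨w, rfl⟩
    exact ⟨T w, by show T (T w) - T w = T (T w - w); rw [map_sub]⟩
  have hYB : ∀ w ∈ Y, B w ∈ Y := by
    rw [hY]
    rintro _ ⟨w, rfl⟩
    refine ⟨-B (T w), ?_⟩
    show T (-B (T w)) - (-B (T w)) = B (T w - w)
    have h3 : T (B (T w)) = B w := by rw [← hBB (T (B (T w))), hBTT]
    rw [map_neg, h3, map_sub]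
    abel
  have hYBT : ∀ w ∈ Y, (B * T) w ∈ Y := fun w hw => hYB _ (hYT w hw)
  have e1 := two_mul_ev (T := B.restrict hYB) (LinearMap.ext fun w => Subtype.ext (LinearMap.congr_fun hB w))
  have e2 := two_mul_ev (T := (B * T).restrict hYBT) (LinearMap.ext fun w => Subtype.ext (LinearMap.congr_fun hBT w))
  rw [ev_restrict] at e1 e2
  have h3 : (Y ⊓ Module.End.eigenspace B 1) ⊓ (Y ⊓ Module.End.eigenspace (B * T) 1) = ⊥ := by
    rw [Submodule.eq_bot_iff]
    rintro w ⟨⟨hw, h3⟩, -, h4⟩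
    have h3' : B w = w := by
      have := Module.End.mem_eigenspace_iff.1 h3
      rwa [one_smul] at this
    have h4' : B (T w) = w := by
      have := Module.End.mem_eigenspace_iff.1 h4
      rwa [one_smul] at this
    have h5 : T w = w := by rw [← hBB (T w), h4', h3']
    rw [hY] at hw
    obtain ⟨u, hu⟩ := hw
    have hu' : T u = u + w := by
      have : T u - u = w := hu
      rw [← this]
      abel
    have h6 := hTT u
    simp only [hu', map_add, h5] at h6
    have h7 : w + (w + (w + (w + w))) = 0 := by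
      have h8 : u + w + w + w + w + w = u := h6
      have h9 : w + (w + (w + (w + w))) = (u + w + w + w + w + w) - u := by abel
      rw [h9, h8, sub_self]
    have h8 : w + (w + (w + (w + w))) = w := by
      have h9 : w + (w + (w + (w + w))) = (2 : K) • ((2 : K) • w) + w := by
        rw [two_smul, two_smul]
        abel
      rw [h9, h2, zero_smul, zero_add]
    rw [← h8, h7]
  have h4 := Submodule.finrank_sup_add_finrank_inf_eq (Y ⊓ Module.End.eigenspace B 1) (Y ⊓ Module.End.eigenspace (B * T) 1)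
  rw [h3, finrank_bot] at h4
  have h5 : finrank K ↥((Y ⊓ Module.End.eigenspace B 1) ⊔ (Y ⊓ Module.End.eigenspace (B * T) 1)) ≤ finrank K ↥Y :=
    Submodule.finrank_mono (sup_le inf_le_left inf_le_left)
  exact ⟨finrank K ↥(Y ⊓ Module.End.eigenspace B 1), by omega⟩

end lin

/-! ### elements of order five -/

open scoped Pointwise in
theorem conj_five {a b : A6} (ha : orderOf a = 5) (hb : orderOf b = 5) : ∃ g : A6, ∃ k : ℕ, b = g * a ^ k * g⁻¹ := by
  have : Fact (Nat.Prime 5) := ⟨by norm_num⟩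
  have hc : Nat.card A6 = 360 := by
    rw [Nat.card_eq_fintype_card]
    decide +kernel
  have hf : (Nat.card A6).factorization 5 = 1 := by
    rw [hc]
    rw [show (360 : ℕ) = 5 * 72 by norm_num, Nat.factorization_mul (by norm_num) (by norm_num)]
    have h1 : Nat.factorization 5 5 = 1 := Nat.Prime.factorization_self (by norm_num)
    have h2 : Nat.factorization 72 5 = 0 := Nat.factorization_eq_zero_of_not_dvd (by norm_num)
    rw [Finsupp.add_apply, h1, h2]
  have hza : Nat.card ↥(Subgroup.zpowers a) = 5 ^ (Nat.card A6).factorization 5 := by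
    rw [hf, pow_one, Nat.card_zpowers, ha]
  have hzb : Nat.card ↥(Subgroup.zpowers b) = 5 ^ (Nat.card A6).factorization 5 := by
    rw [hf, pow_one, Nat.card_zpowers, hb]
  obtain ⟨g, hg⟩ := MulAction.exists_smul_eq A6 (Sylow.ofCard _ hza) (Sylow.ofCard _ hzb)
  have h1 : b ∈ (g • Sylow.ofCard (p := 5) _ hza : Sylow 5 A6) := by
    rw [hg]
    exact Subgroup.mem_zpowers b
  have h2 : g⁻¹ * b * g ∈ Subgroup.zpowers a := by
    have h3 : b ∈ MulAut.conj g • (Subgroup.zpowers a) := h1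
    rw [Subgroup.mem_pointwise_smul_iff_inv_smul_mem] at h3
    have h4 : (MulAut.conj g)⁻¹ • b = g⁻¹ * b * g := by
      rw [← map_inv]
      show g⁻¹ * b * g⁻¹⁻¹ = _
      rw [inv_inv]
    rwa [h4] at h3
  obtain ⟨k, hk⟩ := (Submonoid.mem_powers_iff _ _).1 ((mem_powers_iff_mem_zpowers).2 h2)
  exact ⟨g, k, by rw [hk]; group⟩

theorem real_five : ∀ a : ↥(alternatingGroup (Fin 5)), a ^ 5 = 1 → ∃ k : ↥(alternatingGroup (Fin 5)), k ^ 2 = 1 ∧
    (k * a) ^ 2 = 1 := by
  decide +kernel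

variable {F : Type u} [Field F] [Finite F] {φ : A6 →* ↥(chevE6.group F)}

omit [Finite F] in
/-- the fixed spaces of the elements of order five, inequality -/
theorem fix_le (hφ : Function.Injective φ) {ρ : Representation F ↥(Zgrp F) (I27 → F)} {U : Submodule F (I27 → F)} (hU : Stab ρ φ.range U) {z z' : ↥(Zgrp F)}
    (hz : ad F z ∈ φ.range) (hz' : ad F z' ∈ φ.range) (h1 : z ≠ 1) (h1' : z' ≠ 1) (h5 : z ^ 5 = 1) (h5' : z' ^ 5 = 1) :
    finrank F ↥(U ⊓ Module.End.eigenspace (ρ z) 1) ≤ finrank F ↥(U ⊓ Module.End.eigenspace (ρ z') 1) := by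
  have key : ∀ {z : ↥(Zgrp F)}, z ≠ 1 → z ^ 5 = 1 → ∀ {a : A6}, φ a = ad F z → orderOf a = 5 := by
    intro z h1 h5 a ha
    have : Fact (Nat.Prime 5) := ⟨by norm_num⟩
    refine orderOf_eq_prime (hφ (by rw [map_pow, ha, ← map_pow, h5, map_one, map_one])) ?_
    rintro rfl
    have h2 : z ^ 3 = 1 := Cov.ker_pow (by rw [← ha, map_one])
    apply h1
    have h3 : z ^ 6 = 1 := by rw [show (6 : ℕ) = 3 * 2 by norm_num, pow_mul, h2, one_pow]
    rw [pow_succ, h5, one_mul] at h3
    exact h3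
  obtain ⟨a, ha⟩ := hz
  obtain ⟨a', ha'⟩ := hz'
  obtain ⟨g, k, hg⟩ := conj_five (key h1 h5 ha) (key h1' h5' ha')
  obtain ⟨h, hh⟩ := ad_surjective (φ g)
  -- the lift of order five
  have h2 : ad F (h * z ^ k * h⁻¹) = ad F z' := by
    rw [map_mul, map_mul, map_inv, map_pow, hh, ← ha, ← ha', hg, map_mul, map_mul, map_inv, map_pow]
  have h3 : z' = h * z ^ k * h⁻¹ := by
    obtain ⟨w, hw⟩ : ∃ w, w = z'⁻¹ * (h * z ^ k * h⁻¹) := ⟨_, rfl⟩
    have hw1 : ad F w = 1 := by rw [hw, map_mul, h2, map_inv, inv_mul_cancel]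
    have hw3 := Cov.ker_pow hw1
    have hwc := Cov.ker_comm hw1
    have e1 : h * z ^ k * h⁻¹ = z' * w := by rw [hw]; group
    have e2 : (h * z ^ k * h⁻¹) ^ 5 = 1 := by
      rw [conj_pow, ← pow_mul, mul_comm, pow_mul, h5, one_pow, mul_one, mul_inv_cancel]
    have hcm : Commute z' w := hwc z'
    rw [e1, hcm.mul_pow, h5', one_mul] at e2
    have e3 : w = 1 := by
      have e4 : w ^ 6 = 1 := by rw [show (6 : ℕ) = 3 * 2 by norm_num, pow_mul, hw3, one_pow]
      rwa [pow_succ, e2, one_mul] at e4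
    rw [e1, e3, mul_one]
  have hst : ∀ w, w ∈ U ⊓ Module.End.eigenspace (ρ z) 1 → ρ h w ∈ U ⊓ Module.End.eigenspace (ρ z') 1 := by
    rintro w ⟨hw, hw1⟩
    refine ⟨hU h ⟨g, hh.symm⟩ w hw, ?_⟩
    rw [SetLike.mem_coe, Module.End.mem_eigenspace_iff, one_smul] at hw1 ⊢
    have h4 : ∀ k : ℕ, ρ (z ^ k) w = w := by
      intro k
      induction k with
      | zero => rw [pow_zero, map_one]; rfl
      | succ k ih => rw [pow_succ, rho_mul, hw1, ih]
    rw [h3, ← rho_mul, inv_mul_cancel_right, rho_mul, h4]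
  refine LinearMap.finrank_le_finrank_of_injective
    (f := (ρ h).restrict (p := U ⊓ Module.End.eigenspace (ρ z) 1) (q := U ⊓ Module.End.eigenspace (ρ z') 1) hst) ?_
  intro u v huv
  have h4 : ρ h u = ρ h v := congrArg Subtype.val huv
  have h5 := congrArg (ρ h⁻¹) h4
  rw [← rho_mul, ← rho_mul, inv_mul_cancel, map_one] at h5
  exact Subtype.ext h5

/-- the fixed space of an element of order five on a stable subspace is at most half of it -/
theorem fix_half [CharP F 2] (hφ : Function.Injective φ) {ω : Fˣ} (hc : Cover φ ω) {ρ : Representation F ↥(Zgrp F) (I27 → F)}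
    (hρ : ρ = V F ∨ ρ = V' F) {U : Submodule F (I27 → F)} (hU : Stab ρ φ.range U) {z : ↥(Zgrp F)}
    (hz : ad F z ∈ φ.range) (h1 : z ≠ 1) (h5 : z ^ 5 = 1) :
    2 * finrank F ↥(U ⊓ Module.End.eigenspace (ρ z) 1) ≤ finrank F ↥U := by
  obtain ⟨x, y, hgen, -, hy, hxy⟩ := H952.F4.Gen.gen6a
  have lift : ∀ a : A6, (a : Perm (Fin 6)).cycleType = {5} → ∃ w : ↥(Zgrp F), ad F w = φ a ∧ w ≠ 1 ∧ w ^ 5 = 1 := by
    intro a ha
    have oa : orderOf a = 5 := by
      rw [← Subgroup.orderOf_coe, ← Perm.lcm_cycleType, ha]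
      decide
    obtain ⟨g, hg⟩ := ad_surjective (φ a)
    have h2 : ad F (g ^ 5) = 1 := by rw [map_pow, hg, ← map_pow, ← oa, pow_orderOf_eq_one, map_one]
    have h3 := Cov.ker_pow h2
    refine ⟨g ^ 6, ?_, ?_, ?_⟩
    · rw [pow_succ, map_mul, h2, one_mul, hg]
    · intro h4
      have h5 : φ a = 1 := by
        have h6 := congrArg (ad F) h4
        rw [pow_succ, map_mul, h2, one_mul, hg, map_one] at h6
        exact h6
      have h6 : a = 1 := hφ (by rw [h5, map_one])
      rw [h6, orderOf_one] at oa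
      omega
    · rw [← pow_mul, show 6 * 5 = 5 * 3 * 2 by norm_num, pow_mul, pow_mul, h3, one_pow]
  obtain ⟨b, hb, hb1, hb5⟩ := lift y hy
  obtain ⟨c, hc', hc1, hc5⟩ := lift (x * y) hxy
  have e1 := fix_le hφ hU hz ⟨y, hb.symm⟩ h1 hb1 h5 hb5
  have e2 := fix_le hφ hU hz ⟨x * y, hc'.symm⟩ h1 hc1 h5 hc5
  have h3 : (U ⊓ Module.End.eigenspace (ρ b) 1) ⊓ (U ⊓ Module.End.eigenspace (ρ c) 1) = ⊥ := by
    rw [Submodule.eq_bot_iff]
    rintro v ⟨⟨-, h3⟩, -, h4⟩
    rw [SetLike.mem_coe, Module.End.mem_eigenspace_iff, one_smul] at h3 h4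
    by_contra hv
    -- the line of `v` is stable
    have key : ∀ a : A6, ∀ g : ↥(Zgrp F), ad F g = φ a → ∃ s : F, ρ g v = s • v := by
      intro a
      have hab : ∀ {a : A6} {w : ↥(Zgrp F)}, ad F w = φ a → ρ w v = v →
          ∀ g : ↥(Zgrp F), ad F g = φ a → ∃ s : F, ρ g v = s • v := by
        intro a w hw hv g hg
        obtain ⟨s, hs⟩ := exists_smul (z := g * w⁻¹) (by rw [map_mul, map_inv, hg, hw, mul_inv_cancel]) hρ
        refine ⟨s, ?_⟩
        rw [← hs]
        conv_rhs => rw [← hv]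
        rw [← rho_mul, inv_mul_cancel_right]
      have hgen' : Subgroup.closure {y, x * y} = ⊤ := by
        rw [eq_top_iff, ← hgen, Subgroup.closure_le]
        have hy' : y ∈ Subgroup.closure {y, x * y} := Subgroup.subset_closure (by simp)
        have hxy' : x * y ∈ Subgroup.closure {y, x * y} := Subgroup.subset_closure (by simp)
        rintro w (rfl | rfl)
        · have := Subgroup.mul_mem _ hxy' (Subgroup.inv_mem _ hy')
          rwa [mul_inv_cancel_right] at this
        · exact hy'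
      refine H952.F4.Scott.fix_all (P := fun a : A6 => ∀ g : ↥(Zgrp F), ad F g = φ a → ∃ s : F, ρ g v = s • v)
        hgen' (hab hb h3) (hab hc' h4) ?_ ?_ ?_ a
      · intro g hg
        obtain ⟨s, hs⟩ := exists_smul (z := g) (by rw [hg, map_one]) hρ
        exact ⟨s, hs v⟩
      · intro a a' ha ha' g hg
        obtain ⟨g', hg'⟩ := ad_surjective (φ a')
        obtain ⟨s', hs'⟩ := ha' g' hg'
        obtain ⟨s, hs⟩ := ha (g * g'⁻¹) (by rw [map_mul, map_inv, hg, hg', map_mul, mul_inv_cancel_right])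
        refine ⟨s' * s, ?_⟩
        have h5 : ρ g v = ρ (g * g'⁻¹) (ρ g' v) := by rw [← rho_mul, inv_mul_cancel_right]
        rw [h5, hs', map_smul, hs, smul_smul]
      · intro a ha g hg
        obtain ⟨s, hs⟩ := ha g⁻¹ (by rw [map_inv, hg, map_inv, inv_inv])
        have hs0 : s ≠ 0 := by
          rintro rfl
          rw [zero_smul] at hs
          have h5 := congrArg (ρ g) hs
          rw [← rho_mul, mul_inv_cancel, map_one, map_zero] at h5
          exact hv h5
        refine ⟨s⁻¹, ?_⟩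
        have h5 : ρ g (s • v) = v := by rw [← hs, ← rho_mul, mul_inv_cancel, map_one]; rfl
        rw [map_smul] at h5
        rw [← h5, smul_smul, inv_mul_cancel₀ hs0, one_smul, h5]
    have hst : Stab ρ φ.range (Submodule.span F {v}) := by
      rintro g ⟨a, ha⟩ w hw
      obtain ⟨t, rfl⟩ := Submodule.mem_span_singleton.1 hw
      obtain ⟨s, hs⟩ := key a g ha.symm
      rw [map_smul, hs]
      exact Submodule.smul_mem _ _ (Submodule.smul_mem _ _ (Submodule.mem_span_singleton_self v))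
    have h4 := three_dvd hφ hc hρ hst
    rw [finrank_span_singleton hv] at h4
    omega
  have h4 := Submodule.finrank_sup_add_finrank_inf_eq (U ⊓ Module.End.eigenspace (ρ b) 1)
    (U ⊓ Module.End.eigenspace (ρ c) 1)
  rw [h3, finrank_bot] at h4
  have h5 : finrank F ↥((U ⊓ Module.End.eigenspace (ρ b) 1) ⊔ (U ⊓ Module.End.eigenspace (ρ c) 1)) ≤ finrank F ↥U :=
    Submodule.finrank_mono (sup_le inf_le_left inf_le_left)
  omega

/-- the parity -/
theorem fix_even [CharP F 2] (hφ : Function.Injective φ) {ρ : Representation F ↥(Zgrp F) (I27 → F)} {U : Submodule F (I27 → F)} (hU : Stab ρ φ.range U) {z : ↥(Zgrp F)}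
    (hz : ad F z ∈ φ.range) (h1 : z ≠ 1) (h5 : z ^ 5 = 1) :
    ∃ m, finrank F ↥U = finrank F ↥(U ⊓ Module.End.eigenspace (ρ z) 1) + 2 * m := by
  have : Fact (Nat.Prime 2) := ⟨Nat.prime_two⟩
  obtain ⟨ψ, hψ⟩ : ∃ ψ : ↥(alternatingGroup (Fin 5)) →* ↥(Zgrp F), Lift (φ.comp j) ψ := by
    rcases Cov.exists_lift (n := 5) le_rfl (φ := φ.comp j) (hφ.comp j_injective) with h | ⟨h | h, -⟩
    · exact h
    · omega
    · omega
  have hψ' : ∀ a, ad F (ψ a) = φ (j a) := hψ
  have hψm : ∀ a, ad F (ψ a) ∈ φ.range := fun a => ⟨j a, (hψ' a).symm⟩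
  obtain ⟨x, y, -, -, -, hxy⟩ := H952.F4.Gen.gen5
  have oz : orderOf (x * y) = 5 := by
    rw [← Subgroup.orderOf_coe, ← Perm.lcm_cycleType, hxy]
    decide
  have hz5 : (x * y) ^ 5 = 1 := orderOf_dvd_iff_pow_eq_one.1 (by rw [oz])
  obtain ⟨w, hw⟩ : ∃ w, w = x * y := ⟨_, rfl⟩
  rw [← hw] at oz hz5
  have hne : ψ w ≠ 1 := by
    intro h6
    have h7 : φ (j w) = 1 := by rw [← hψ', h6, map_one]
    have h8 : w = 1 := j_injective (hφ (by rw [h7, map_one, map_one]))
    rw [h8, orderOf_one] at oz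
    omega
  have hp5 : ψ w ^ 5 = 1 := by rw [← map_pow, hz5, map_one]
  have e1 := fix_le hφ hU hz (hψm w) h1 hne h5 hp5
  have e2 := fix_le hφ hU (hψm w) hz hne h1 hp5 h5
  obtain ⟨k, hk, hkw⟩ := real_five w hz5
  obtain ⟨m, hm⟩ := even_aux (T := (ρ (ψ w)).restrict (hU _ (hψm w))) (B := (ρ (ψ k)).restrict (hU _ (hψm k)))
    (by
      refine LinearMap.ext fun u => Subtype.ext ?_
      have h6 : ρ (ψ w ^ 5) u = u := by rw [hp5, map_one]; rfl
      rw [pow_succ, pow_succ, pow_succ, pow_two] at h6 ⊢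
      rw [rho_mul, rho_mul, rho_mul, rho_mul] at h6
      exact h6)
    (by
      refine LinearMap.ext fun u => Subtype.ext ?_
      have h6 : ρ (ψ k ^ 2) u = u := by rw [← map_pow, hk, map_one, map_one]; rfl
      rw [pow_two] at h6 ⊢
      rw [rho_mul] at h6
      exact h6)
    (by
      refine LinearMap.ext fun u => Subtype.ext ?_
      have h6 : ρ ((ψ k * ψ w) ^ 2) u = u := by rw [← map_mul, ← map_pow, hkw, map_one, map_one]; rfl
      rw [pow_two] at h6 ⊢
      rw [rho_mul, rho_mul, rho_mul] at h6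
      exact h6)
  rw [ev_restrict] at hm
  exact ⟨m, by omega⟩

/-- on a stable subspace of dimension six -/
theorem fix_six [CharP F 2] (hφ : Function.Injective φ) {ω : Fˣ} (hc : Cover φ ω) {ρ : Representation F ↥(Zgrp F) (I27 → F)}
    (hρ : ρ = V F ∨ ρ = V' F) {U : Submodule F (I27 → F)} (hU : Stab ρ φ.range U) (h6 : finrank F ↥U = 6) {z : ↥(Zgrp F)}
    (hz : ad F z ∈ φ.range) (h1 : z ≠ 1) (h5 : z ^ 5 = 1) :
    finrank F ↥(U ⊓ Module.End.eigenspace (ρ z) 1) ≤ 2 := by
  have e1 := fix_half hφ hc hρ hU hz h1 h5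
  obtain ⟨m, hm⟩ := fix_even hφ hU hz h1 h5
  omega

end Cfsg.Agent.H944.E6CovKer
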