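import Mathlib
import Cfsg.Agent.H944.E6CovKer
import Cfsg.Agent.H906.E6.BoxR

/-!
# `sixc_two`: the end game (helper944)

From the list of the stable subspaces of dimension three (two of them in `V`, two in `V'`), the relations between them and
the irreducible subspace `R` of dimension nine spanned by `cr S₁ S₂`: a contradiction, if the fixed space of the elements of order
five has dimension at least 7.
-/

set_option autoImplicit false

namespace Cfsg.Agent.H944.E6CovEnd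

open Cfsg Cfsg.Lie Module Equiv
open Cfsg.Agent.ChevalleyStructure.E6Min.Tables Cfsg.Agent.ChevalleyStructure.E6Min.Basic
  Cfsg.Agent.ChevalleyStructure.E6Min.Adjoint
open Cfsg.Agent.H163.E6 Cfsg.Agent.H163.E6.Der
open Cfsg.Agent.H952.F4 (ev es matRep sh cr tf MaxAlt)
open Cfsg.Agent.H952.F4.Jord
open Cfsg.Agent.H944.E6CovTwo Cfsg.Agent.H944.E6CovFit Cfsg.Agent.H944.E6CovKer
open Cfsg.Agent.H906.E6.Hexa (A6 tx ty Ext XY Tri QD)

universe u

variable {F : Type u} [Field F] [Finite F] {φ : A6 →* ↥(chevE6.group F)}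

/-- the span of the products -/
def crs (S T : Submodule F (I27 → F)) : Submodule F (I27 → F) := Submodule.span F {y | ∃ s ∈ S, ∃ t ∈ T, y = cr s t}

section alt

variable [CharP F 2]

omit [Finite F] [CharP F 2] in
theorem cr_zero_left' (y : I27 → F) : cr 0 y = 0 := by
  have h := cr_smul_left (0 : F) 0 y
  rwa [zero_smul, zero_smul] at h

omit [Finite F] in
theorem cr_self_two (x : I27 → F) : cr x x = 0 := by
  rw [cr_self, CharTwo.two_eq_zero, zero_smul]

omit [Finite F] in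
/-- `cr` is injective on the exterior square of a space of dimension 3 if the span of the products has dimension 3 -/
theorem cr_inj {S : Submodule F (I27 → F)} (dS : finrank F ↥S = 3) (dW : finrank F ↥(crs S S) = 3) {u w : I27 → F}
    (hu : u ∈ S) (hw : w ∈ S) (hu0 : u ≠ 0) (h : cr u w = 0) : ∃ c : F, w = c • u := by
  by_contra hcon
  have hli : LinearIndependent F ![u, w] := by
    rw [LinearIndependent.pair_iff' hu0]
    intro a ha
    exact hcon ⟨a, ha.symm⟩
  obtain ⟨A, hA⟩ : ∃ A, A = Submodule.span F (Set.range ![u, w]) := ⟨_, rfl⟩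
  have hA2 : finrank F ↥A = 2 := by rw [hA, finrank_span_eq_card hli, Fintype.card_fin]
  have hAm : ∀ a, a ∈ A ↔ ∃ p q : F, a = p • u + q • w := by
    intro a
    rw [hA, Matrix.range_cons, Matrix.range_cons, Matrix.range_empty, Set.union_empty, Set.singleton_union,
      Submodule.mem_span_pair]
    exact ⟨fun ⟨p, q, h⟩ => ⟨p, q, h.symm⟩, fun ⟨p, q, h⟩ => ⟨p, q, h.symm⟩⟩
  have hAS : A ≤ S := by
    intro a ha
    obtain ⟨p, q, rfl⟩ := (hAm a).1 ha
    exact S.add_mem (S.smul_mem _ hu) (S.smul_mem _ hw)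
  have hAA : ∀ a ∈ A, ∀ b ∈ A, cr a b = 0 := by
    intro a ha b hb
    obtain ⟨p, q, rfl⟩ := (hAm a).1 ha
    obtain ⟨p', q', rfl⟩ := (hAm b).1 hb
    rw [cr_add_left, cr_add_right, cr_add_right]
    simp only [cr_smul_left, cr_smul_right, cr_self_two, h, cr_comm w u, smul_zero, add_zero]
  obtain ⟨t, htS, htA⟩ : ∃ t ∈ S, t ∉ A := by
    by_contra hc
    push Not at hc
    have : finrank F ↥S ≤ finrank F ↥A := Submodule.finrank_mono hc
    omega
  have hS : S ≤ A ⊔ Submodule.span F {t} := by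
    have h1 : A ⊔ Submodule.span F {t} ≤ S := sup_le hAS (by rwa [Submodule.span_singleton_le_iff_mem])
    have h2 : A < A ⊔ Submodule.span F {t} :=
      lt_of_le_of_ne le_sup_left fun he => htA (he ▸ Submodule.mem_sup_right (Submodule.mem_span_singleton_self t))
    have h3 := Submodule.finrank_lt_finrank_of_lt h2
    have h4 := Submodule.finrank_mono h1
    exact (Submodule.eq_of_le_of_finrank_eq h1 (by omega)).ge
  let f : ↥A →ₗ[F] (I27 → F) :=
    { toFun := fun a => cr (a : I27 → F) t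
      map_add' := fun a b => cr_add_left _ _ _
      map_smul' := fun c a => cr_smul_left _ _ _ }
  have hle : crs S S ≤ LinearMap.range f := by
    rw [crs, Submodule.span_le]
    rintro _ ⟨s, hs, s', hs', rfl⟩
    obtain ⟨a, ha, b, hb, rfl⟩ := Submodule.mem_sup.1 (hS hs)
    obtain ⟨a', ha', b', hb', rfl⟩ := Submodule.mem_sup.1 (hS hs')
    obtain ⟨c, rfl⟩ := Submodule.mem_span_singleton.1 hb
    obtain ⟨c', rfl⟩ := Submodule.mem_span_singleton.1 hb'
    refine ⟨⟨c' • a + c • a', A.add_mem (A.smul_mem _ ha) (A.smul_mem _ ha')⟩, ?_⟩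
    show cr (c' • a + c • a') t = _
    simp only [cr_add_left, cr_add_right, cr_smul_left, cr_smul_right, cr_self_two, hAA a ha a' ha', smul_zero, add_zero,
      zero_add, cr_comm t a']
    exact add_comm _ _
  have h5 := Submodule.finrank_mono hle
  have h6 := LinearMap.finrank_range_le f
  omega

omit [Finite F] [CharP F 2] in
/-- the representation on a stable subspace of dimension three -/
theorem tri (hφ : Function.Injective φ) {ρ : Representation F ↥(Zgrp F) (I27 → F)}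
    (hρ : ρ = V F ∨ ρ = V' F) {S : Submodule F (I27 → F)} (hS : Stab ρ φ.range S) (dS : finrank F ↥S = 3) {x y d}
    (hT : XY (Cov.pr hφ) (rP φ ρ) x y d) : Tri (Cov.pr hφ) (subrep (rP φ ρ) S (stab_rP hS)) x y d := by
  refine ⟨⟨hT.hx, hT.hy, fun u => Subtype.ext (hT.comm u), hT.ne, hT.cube⟩, dS, fun z hz => ?_⟩
  obtain ⟨c, hc⟩ := exists_smul (z := (z : ↥(Zgrp F))) ((Cov.pr_eq_one hφ z).1 hz) hρ
  exact ⟨c, fun u => Subtype.ext (hc u)⟩

/-- `sh` does not map a stable subspace of dimension three into the sum of two stable ones -/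
theorem sh_not_le (hφ : Function.Injective φ) {ω : Fˣ} (hc : Cover φ ω) {S W₁ W₂ : Submodule F (I27 → F)}
    (hS : Stab (V' F) φ.range S) (dS : finrank F ↥S = 3) (hW₁ : Stab (V F) φ.range W₁) (hW₂ : Stab (V F) φ.range W₂)
    (d₂ : finrank F ↥W₂ = 3) (h12 : W₁ ⊓ W₂ = ⊥) (hsp : crs S S = W₂) : ¬ ∀ s ∈ S, sh s ∈ W₁ ⊔ W₂ := by
  intro hsh
  obtain ⟨x, y, d, hT⟩ := exists_xy hφ hc (ρ := V' F) (Or.inr rfl)
  have hM := tri hφ (Or.inr rfl) hS dS hT
  have h1 : ∀ s : ↥S, ∃ w, w ∈ W₂ ∧ sh (s : I27 → F) - w ∈ W₁ := by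
    rintro ⟨s, hs⟩
    obtain ⟨w₁, hw₁, w₂, hw₂, he⟩ := Submodule.mem_sup.1 (hsh s hs)
    exact ⟨w₂, hw₂, by show sh s - w₂ ∈ W₁; rw [← he, add_sub_cancel_right]; exact hw₁⟩
  choose f hf2 hf1 using h1
  have huniq : ∀ (s : ↥S) (w : I27 → F), w ∈ W₂ → sh (s : I27 → F) - w ∈ W₁ → f s = w := by
    intro s w hw hw'
    have h2 : f s - w ∈ W₁ ⊓ W₂ := by
      refine ⟨?_, W₂.sub_mem (hf2 s) hw⟩
      have h3 := W₁.sub_mem hw' (hf1 s)
      have h4 : sh (s : I27 → F) - w - (sh (s : I27 → F) - f s) = f s - w := by abel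
      rwa [h4] at h3
    rw [h12, Submodule.mem_bot] at h2
    exact sub_eq_zero.1 h2
  have hcr : ∀ s t : ↥S, cr (s : I27 → F) t ∈ W₂ := by
    intro s t
    rw [← hsp]
    exact Submodule.subset_span ⟨s, s.2, t, t.2, rfl⟩
  have Q : QD (subrep (rP φ (V' F)) S (stab_rP hS)) (rP φ (V F)) (fun u w : ↥S => cr (u : I27 → F) w) f := by
    refine ⟨fun u u' w => cr_add_left _ _ _, fun c u w => cr_smul_left _ _ _, fun u w => cr_comm _ _,
      fun u => cr_self_two _, fun b u w => ?_, fun u w hu h => ?_, fun u w => ?_, fun c u => ?_, fun b u => ?_, fun u => ?_⟩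
    · exact (Act.cr_act' (b : ↥(Zgrp F)) u w).symm
    · obtain ⟨c, hc⟩ := cr_inj dS (by rw [hsp]; exact d₂) u.2 w.2 (fun h0 => hu (Subtype.ext h0)) h
      exact ⟨c, Subtype.ext hc⟩
    · refine huniq _ _ (W₂.add_mem (W₂.add_mem (hf2 u) (hf2 w)) (hcr u w)) ?_
      have h3 : sh ((u + w : ↥S) : I27 → F) = sh (u : I27 → F) + sh (w : I27 → F) + cr (u : I27 → F) (w : I27 → F) :=
        sh_add _ _
      rw [h3]
      have h4 : sh (u : I27 → F) + sh (w : I27 → F) + cr (u : I27 → F) (w : I27 → F)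
          - (f u + f w + cr (u : I27 → F) (w : I27 → F))
        = (sh (u : I27 → F) - f u) + (sh (w : I27 → F) - f w) := by abel
      rw [h4]
      exact W₁.add_mem (hf1 u) (hf1 w)
    · refine huniq _ _ (W₂.smul_mem _ (hf2 u)) ?_
      show sh (c • (u : I27 → F)) - (c * c) • f u ∈ W₁
      rw [sh_smul, pow_two, ← smul_sub]
      exact W₁.smul_mem _ (hf1 u)
    · symm
      refine huniq _ _ (hW₂ _ b.2 _ (hf2 u)) ?_
      show sh (V' F (b : ↥(Zgrp F)) (u : I27 → F)) - V F (b : ↥(Zgrp F)) (f u) ∈ W₁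
      rw [Act.sh_act', ← map_sub]
      exact hW₁ _ b.2 _ (hf1 u)
    · have h2 := hf2 u
      rw [← hsp, crs] at h2
      refine Submodule.span_mono ?_ h2
      rintro _ ⟨s, hs, t, ht, rfl⟩
      exact ⟨⟨s, hs⟩, ⟨t, ht⟩, rfl⟩
  exact Q.false (ext_pr hφ) hM

omit [Finite F] [CharP F 2] in
/-- the span of the squares -/
def shs (S : Submodule F (I27 → F)) : Submodule F (I27 → F) := Submodule.span F {y | ∃ s ∈ S, y = sh s}

omit [Finite F] [CharP F 2] in
theorem crs_le_shs (S : Submodule F (I27 → F)) : crs S S ≤ shs S := by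
  rw [crs, Submodule.span_le]
  rintro _ ⟨s, hs, t, ht, rfl⟩
  have h1 : cr s t = sh (s + t) - sh s - sh t := by rw [sh_add]; abel
  rw [h1]
  exact Submodule.sub_mem _ (Submodule.sub_mem _ (Submodule.subset_span ⟨s + t, S.add_mem hs ht, rfl⟩)
    (Submodule.subset_span ⟨s, hs, rfl⟩)) (Submodule.subset_span ⟨t, ht, rfl⟩)

omit [Finite F] [CharP F 2] in
theorem stab_shs {S : Submodule F (I27 → F)} (hS : Stab (V' F) φ.range S) : Stab (V F) φ.range (shs S) := by
  intro g hg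
  have h1 : shs S ≤ (shs S).comap (V F g) := by
    conv_lhs => rw [shs]
    rw [Submodule.span_le]
    rintro _ ⟨s, hs, rfl⟩
    show V F g (sh s) ∈ shs S
    rw [← Act.sh_act']
    exact Submodule.subset_span ⟨_, hS g hg s hs, rfl⟩
  exact fun w hw => h1 hw

omit [Finite F] [CharP F 2] in
theorem finrank_shs {S : Submodule F (I27 → F)} (dS : finrank F ↥S = 3) : finrank F ↥(shs S) ≤ 6 := by
  let b := Module.finBasisOfFinrankEq F ↥S dS
  let v : Fin 6 → (I27 → F) := ![sh (b 0 : I27 → F), sh (b 1 : I27 → F), sh (b 2 : I27 → F), cr (b 0 : I27 → F) (b 1),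
    cr (b 0 : I27 → F) (b 2), cr (b 1 : I27 → F) (b 2)]
  have h1 : shs S ≤ Submodule.span F (Set.range v) := by
    rw [shs, Submodule.span_le]
    rintro _ ⟨s, hs, rfl⟩
    have h2 := b.sum_repr ⟨s, hs⟩
    have h3 : s = b.repr ⟨s, hs⟩ 0 • (b 0 : I27 → F) + b.repr ⟨s, hs⟩ 1 • (b 1 : I27 → F)
        + b.repr ⟨s, hs⟩ 2 • (b 2 : I27 → F) := by
      have := congrArg Subtype.val h2
      rw [Fin.sum_univ_three] at this
      exact this.symm
    have hv : ∀ i, v i ∈ Submodule.span F (Set.range v) := fun i => Submodule.subset_span ⟨i, rfl⟩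
    rw [h3, sh_add, sh_add, cr_add_left]
    simp only [sh_smul, cr_smul_left, cr_smul_right]
    refine Submodule.add_mem _ (Submodule.add_mem _ (Submodule.add_mem _ (Submodule.add_mem _ ?_ ?_) ?_) ?_)
      (Submodule.add_mem _ ?_ ?_)
    · exact Submodule.smul_mem _ _ (hv 0)
    · exact Submodule.smul_mem _ _ (hv 1)
    · exact Submodule.smul_mem _ _ (Submodule.smul_mem _ _ (hv 3))
    · exact Submodule.smul_mem _ _ (hv 2)
    · exact Submodule.smul_mem _ _ (Submodule.smul_mem _ _ (hv 4))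
    · exact Submodule.smul_mem _ _ (Submodule.smul_mem _ _ (hv 5))
  exact (Submodule.finrank_mono h1).trans ((finrank_range_le_card v).trans (by simp))

/-! ### operators commuting with the group -/

omit [Finite F] [CharP F 2] in
/-- an element of order five -/
theorem exists_five (hφ : Function.Injective φ) : ∃ w : ↥(Zgrp F), ad F w ∈ φ.range ∧ w ≠ 1 ∧ w ^ 5 = 1 := by
  obtain ⟨x, a, -, -, ha, -⟩ := H952.F4.Gen.gen6a
  have oa : orderOf a = 5 := by
    rw [← Subgroup.orderOf_coe, ← Perm.lcm_cycleType, ha]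
    decide
  obtain ⟨g, hg⟩ := ad_surjective (φ a)
  have h2 : ad F (g ^ 5) = 1 := by rw [map_pow, hg, ← map_pow, ← oa, pow_orderOf_eq_one, map_one]
  have h3 := Cov.ker_pow h2
  refine ⟨g ^ 6, ⟨a, ?_⟩, ?_, ?_⟩
  · rw [pow_succ, map_mul, h2, one_mul, hg]
  · intro h4
    have h5 : φ a = 1 := by
      have h6 := congrArg (ad F) h4
      rw [pow_succ, map_mul, h2, one_mul, hg, map_one] at h6
      exact h6
    have h6 : a = 1 := hφ (by rw [h5, map_one])
    rw [h6, orderOf_one] at oa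
    omega
  · rw [← pow_mul, show 6 * 5 = 5 * 3 * 2 by norm_num, pow_mul, pow_mul, h3, one_pow]

omit [CharP F 2] in
/-- stable subspaces of dimension three are irreducible -/
theorem irr_three (hφ : Function.Injective φ) {ω : Fˣ} (hc : Cover φ ω) {ρ : Representation F ↥(Zgrp F) (I27 → F)}
    (hρ : ρ = V F ∨ ρ = V' F) {W X : Submodule F (I27 → F)} (hW : Stab ρ φ.range W) (dW : finrank F ↥W = 3)
    (hX : Stab ρ φ.range X) : W ⊓ X = ⊥ ∨ W ≤ X := by
  have h1 : Stab ρ φ.range (W ⊓ X) := fun g hg w hw => ⟨hW g hg w hw.1, hX g hg w hw.2⟩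
  obtain ⟨k, hk⟩ := three_dvd hφ hc hρ h1
  have h2 : finrank F ↥(W ⊓ X) ≤ finrank F ↥W := Submodule.finrank_mono inf_le_left
  have h3 : k = 0 ∨ k = 1 := by omega
  rcases h3 with rfl | rfl
  · exact Or.inl (Submodule.finrank_eq_zero.1 hk)
  · right
    have h4 := Submodule.eq_of_le_of_finrank_eq (inf_le_left : W ⊓ X ≤ W) (by omega)
    rw [← h4]
    exact inf_le_right

/-- commuting operators are scalars on the stable subspaces of dimension three if there are only two of them -/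
theorem scalar_on (hφ : Function.Injective φ) {ω : Fˣ} (hc : Cover φ ω) {ρ : Representation F ↥(Zgrp F) (I27 → F)}
    (hρ : ρ = V F ∨ ρ = V' F) {W₁ W₂ : Submodule F (I27 → F)} (a₁ : Stab ρ φ.range W₁) (d₁ : finrank F ↥W₁ = 3)
    (a₂ : Stab ρ φ.range W₂) (d₂ : finrank F ↥W₂ = 3) (hne : W₁ ≠ W₂)
    (ho : ∀ W : Submodule F (I27 → F), Stab ρ φ.range W → finrank F ↥W = 3 → W = W₁ ∨ W = W₂)
    {T : (I27 → F) →ₗ[F] (I27 → F)} (hT : ∀ g, ad F g ∈ φ.range → ∀ x, ρ g (T x) = T (ρ g x)) :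
    ∃ m : F, ∀ w ∈ W₁, T w = m • w := by
  have h12 : W₁ ⊓ W₂ = ⊥ := by
    rcases irr_three hφ hc hρ a₁ d₁ a₂ with h | h
    · exact h
    · exact absurd (Submodule.eq_of_le_of_finrank_eq h (by omega)) hne
  have hmap : ∀ T : (I27 → F) →ₗ[F] (I27 → F), (∀ g, ad F g ∈ φ.range → ∀ x, ρ g (T x) = T (ρ g x)) →
      W₁.map T = ⊥ ∨ W₁.map T = W₁ ∨ W₁.map T = W₂ := by
    intro T hT
    have h1 : Stab ρ φ.range (W₁.map T) := by
      rintro g hg _ ⟨w, hw, rfl⟩
      exact ⟨ρ g w, a₁ g hg w hw, (hT g hg w).symm⟩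
    obtain ⟨k, hk⟩ := three_dvd hφ hc hρ h1
    have h2 := Submodule.finrank_map_le T W₁
    have h3 : k = 0 ∨ k = 1 := by omega
    rcases h3 with rfl | rfl
    · exact Or.inl (Submodule.finrank_eq_zero.1 hk)
    · exact Or.inr (ho _ h1 hk)
  have hst : ∀ w ∈ W₁, T w ∈ W₁ := by
    intro w hw
    have hTw : T w ∈ W₁.map T := ⟨w, hw, rfl⟩
    rcases hmap T hT with h | h | h
    · rw [h, Submodule.mem_bot] at hTw
      rw [hTw]
      exact W₁.zero_mem
    · rwa [h] at hTw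
    · rw [h] at hTw
      have hGw : w + T w ∈ W₁.map (1 + T) := ⟨w, hw, rfl⟩
      rcases hmap (1 + T) (fun g hg x => by
        show ρ g (x + T x) = ρ g x + T (ρ g x)
        rw [map_add, hT g hg]) with h' | h' | h'
      · rw [h', Submodule.mem_bot] at hGw
        have h1 : T w = -w := by rw [eq_neg_iff_add_eq_zero, add_comm]; exact hGw
        rw [h1]
        exact W₁.neg_mem hw
      · rw [h'] at hGw
        have := W₁.sub_mem hGw hw
        rwa [add_sub_cancel_left] at this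
      · rw [h'] at hGw
        have h1 : w ∈ W₁ ⊓ W₂ := ⟨hw, by
          have := W₂.sub_mem hGw hTw
          rwa [add_sub_cancel_right] at this⟩
        rw [h12, Submodule.mem_bot] at h1
        rw [h1, map_zero]
        exact W₁.zero_mem
  obtain ⟨z, hz, hz1, hz5⟩ := exists_five hφ
  have e1 := fix_half hφ hc hρ a₁ hz hz1 hz5
  obtain ⟨m, e2⟩ := fix_even hφ a₁ hz hz1 hz5
  obtain ⟨⟨v, hv1, hv2⟩, hv0, hv⟩ := finrank_eq_one_iff'.1
    (show finrank F ↥(W₁ ⊓ Module.End.eigenspace (ρ z) 1) = 1 by omega)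
  have hv0' : v ≠ 0 := fun h => hv0 (Subtype.ext h)
  obtain ⟨m, hm⟩ := hv ⟨T v, hst v hv1, by
    rw [SetLike.mem_coe, Module.End.mem_eigenspace_iff, one_smul] at hv2 ⊢
    rw [hT z hz, hv2]⟩
  have hm' : T v = m • v := (congrArg Subtype.val hm).symm
  refine ⟨m, ?_⟩
  have h1 : Stab ρ φ.range (LinearMap.ker (T - m • (1 : Module.End F (I27 → F)))) := by
    intro g hg w hw
    rw [LinearMap.mem_ker] at hw ⊢
    have h2 : T w - m • w = 0 := hw
    show T (ρ g w) - m • ρ g w = 0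
    rw [← hT g hg, ← map_smul, ← map_sub, h2, map_zero]
  rcases irr_three hφ hc hρ a₁ d₁ h1 with h | h
  · exfalso
    have h2 : v ∈ W₁ ⊓ LinearMap.ker (T - m • (1 : Module.End F (I27 → F))) := by
      refine ⟨hv1, ?_⟩
      show T v - m • v = 0
      rw [hm', sub_self]
    rw [h, Submodule.mem_bot] at h2
    exact hv0' h2
  · intro w hw
    have h2 : T w - m • w = 0 := h hw
    exact sub_eq_zero.1 h2

omit [Finite F] [CharP F 2] in
/-- eigenspaces on disjoint sums -/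
theorem fix_sup {T : Module.End F (I27 → F)} {A B : Submodule F (I27 → F)} (hA : ∀ w ∈ A, T w ∈ A) (hB : ∀ w ∈ B, T w ∈ B)
    (h : A ⊓ B = ⊥) : finrank F ↥((A ⊔ B) ⊓ Module.End.eigenspace T 1) ≤
      finrank F ↥(A ⊓ Module.End.eigenspace T 1) + finrank F ↥(B ⊓ Module.End.eigenspace T 1) := by
  have h3 : (A ⊔ B) ⊓ Module.End.eigenspace T 1 ≤ (A ⊓ Module.End.eigenspace T 1) ⊔ (B ⊓ Module.End.eigenspace T 1) := by
    rintro w ⟨hw0, hw⟩
    obtain ⟨u1, hu1, u2, hu2, rfl⟩ := Submodule.mem_sup.1 hw0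
    rw [SetLike.mem_coe, Module.End.mem_eigenspace_iff, one_smul, map_add] at hw
    have h4 : T u1 - u1 = -(T u2 - u2) := by
      rw [neg_sub, sub_eq_sub_iff_add_eq_add, hw]
      abel
    have h5 : T u1 - u1 ∈ A ⊓ B := by
      refine ⟨A.sub_mem (hA _ hu1) hu1, ?_⟩
      rw [h4]
      exact B.neg_mem (B.sub_mem (hB _ hu2) hu2)
    rw [h, Submodule.mem_bot] at h5
    have h6 : T u2 - u2 = 0 := by rw [h5, eq_comm, neg_eq_zero] at h4; exact h4
    refine Submodule.add_mem_sup ⟨hu1, ?_⟩ ⟨hu2, ?_⟩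
    · exact Module.End.mem_eigenspace_iff.2 (by rw [one_smul]; exact sub_eq_zero.1 h5)
    · exact Module.End.mem_eigenspace_iff.2 (by rw [one_smul]; exact sub_eq_zero.1 h6)
  exact (Submodule.finrank_mono h3).trans (Submodule.finrank_add_le_finrank_add_finrank _ _)

/-- **the end game** -/
theorem end_game {H : Subgroup ↥(chevE6.group F)} (hS : Sit H 6 φ) {ω : Fˣ} (hc : Cover φ ω)
    {W₁ W₂ S₁ S₂ R : Submodule F (I27 → F)}
    (aW₁ : Stab (V F) φ.range W₁) (dW₁ : finrank F ↥W₁ = 3) (aW₂ : Stab (V F) φ.range W₂) (dW₂ : finrank F ↥W₂ = 3)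
    (aS₁ : Stab (V' F) φ.range S₁) (dS₁ : finrank F ↥S₁ = 3) (aS₂ : Stab (V' F) φ.range S₂) (dS₂ : finrank F ↥S₂ = 3)
    (nW : W₁ ≠ W₂)
    (oV : ∀ W : Submodule F (I27 → F), Stab (V F) φ.range W → finrank F ↥W = 3 → W = W₁ ∨ W = W₂)
    (oV' : ∀ W : Submodule F (I27 → F), Stab (V' F) φ.range W → finrank F ↥W = 3 → W = S₁ ∨ W = S₂)
    (c₁ : crs W₁ W₁ = S₂) (c₂ : crs W₂ W₂ = S₁) (c₁' : crs S₁ S₁ = W₂) (c₂' : crs S₂ S₂ = W₁)
    (aR : Stab (V F) φ.range R) (dR : finrank F ↥R = 9) (sR : R ≤ crs S₁ S₂)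
    (iR : ∀ X : Submodule F (I27 → F), X ≤ R → Stab (V F) φ.range X → X = ⊥ ∨ X = R)
    (fR : ∀ z : ↥(Zgrp F), ad F z ∈ φ.range → z ≠ 1 → z ^ 5 = 1 → finrank F ↥(R ⊓ Module.End.eigenspace (V F z) 1) ≤ 1)
    (hf : ∀ z : ↥(Zgrp F), ad F z ∈ φ.range → z ≠ 1 → z ^ 5 = 1 → 7 ≤ ev (V F z) 1) : False := by
  have hφ := hS.inj
  obtain ⟨c, hc0, hfix⟩ := exists_der hφ hc
  have hV : V F = V F ∨ V F = V' F := Or.inl rfl
  -- `D c` is scalar on `W₁`, `W₂`
  obtain ⟨m₁, hm₁⟩ := scalar_on hφ hc hV aW₁ dW₁ aW₂ dW₂ nW oV (T := D c) (fun g hg x => D_comm (hfix g hg) x)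
  obtain ⟨m₂, hm₂⟩ := scalar_on hφ hc hV aW₂ dW₂ aW₁ dW₁ nW.symm (fun W h1 h2 => (oV W h1 h2).symm) (T := D c)
    (fun g hg x => D_comm (hfix g hg) x)
  have kcr : ∀ {W : Submodule F (I27 → F)} {m : F}, (∀ w ∈ W, D c w = m • w) → ∀ y ∈ crs W W, D' c y = 0 := by
    intro W m hm y hy
    have h1 : crs W W ≤ LinearMap.ker (D' c) := by
      rw [crs, Submodule.span_le]
      rintro _ ⟨s, hs, t, ht, rfl⟩
      show D' c (cr s t) = 0
      rw [D'_cr, hm s hs, hm t ht, cr_smul_left, cr_smul_right, ← two_smul F, CharTwo.two_eq_zero, zero_smul]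
    exact h1 hy
  have hDS₂ : ∀ s ∈ S₂, D' c s = 0 := by rw [← c₁]; exact kcr hm₁
  have hDS₁ : ∀ s ∈ S₁, D' c s = 0 := by rw [← c₂]; exact kcr hm₂
  have kcr' : ∀ {S T : Submodule F (I27 → F)}, (∀ s ∈ S, D' c s = 0) → (∀ s ∈ T, D' c s = 0) → crs S T ≤ LinearMap.ker (D c) := by
    intro S T h1 h2
    rw [crs, Submodule.span_le]
    rintro _ ⟨s, hs, t, ht, rfl⟩
    show D c (cr s t) = 0
    rw [D_cr', h1 s hs, h2 t ht, cr_zero_left', cr_comm, cr_zero_left', add_zero]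
  have ksh : ∀ {S : Submodule F (I27 → F)}, (∀ s ∈ S, D' c s = 0) → shs S ≤ LinearMap.ker (D c) := by
    intro S h1
    rw [shs, Submodule.span_le]
    rintro _ ⟨s, hs, rfl⟩
    show D c (sh s) = 0
    rw [D_sh', h1 s hs, cr_comm, cr_zero_left']
  have hDW₂ : W₂ ≤ LinearMap.ker (D c) := by rw [← c₁']; exact kcr' hDS₁ hDS₁
  have hDW₁ : W₁ ≤ LinearMap.ker (D c) := by rw [← c₂']; exact kcr' hDS₂ hDS₂
  have hDR : R ≤ LinearMap.ker (D c) := sR.trans (kcr' hDS₁ hDS₂)
  -- the subspaces `N₁`, `N₂`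
  have h12 : W₁ ⊓ W₂ = ⊥ := by
    rcases irr_three hφ hc hV aW₁ dW₁ aW₂ with h | h
    · exact h
    · exact absurd (Submodule.eq_of_le_of_finrank_eq h (by omega)) nW
  have h12s : finrank F ↥(W₁ ⊔ W₂) = 6 := by
    have := Submodule.finrank_sup_add_finrank_inf_eq W₁ W₂
    rw [h12, finrank_bot] at this
    omega
  have six : ∀ {S W W' : Submodule F (I27 → F)}, Stab (V' F) φ.range S → finrank F ↥S = 3 → Stab (V F) φ.range W →
      finrank F ↥W = 3 → Stab (V F) φ.range W' → finrank F ↥W' = 3 → W' ⊓ W = ⊥ → crs S S = W →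
      finrank F ↥(shs S) = 6 ∧ W' ⊓ shs S = ⊥ := by
    intro S W W' aS dS aW dW aW' dW' hWW hsp
    have h1 := sh_not_le hφ hc aS dS aW' aW dW hWW hsp
    have h2 : W ≤ shs S := by rw [← hsp]; exact crs_le_shs S
    have h3 := finrank_shs dS
    obtain ⟨k, hk⟩ := three_dvd hφ hc hV (stab_shs aS)
    have h4 := Submodule.finrank_mono h2
    have h5 : finrank F ↥(shs S) ≠ 3 := by
      intro h6
      apply h1
      have h7 : W = shs S := Submodule.eq_of_le_of_finrank_eq h2 (by omega)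
      intro s hs
      rw [h7]
      exact Submodule.mem_sup_right (Submodule.subset_span ⟨s, hs, rfl⟩)
    have h6 : finrank F ↥(shs S) = 6 := by omega
    refine ⟨h6, ?_⟩
    rcases irr_three hφ hc hV aW' dW' (stab_shs aS) with h | h
    · exact h
    · exfalso
      apply h1
      have h7 : W' ⊔ W = shs S := by
        refine Submodule.eq_of_le_of_finrank_eq (sup_le h h2) ?_
        have := Submodule.finrank_sup_add_finrank_inf_eq W' W
        rw [hWW, finrank_bot] at this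
        omega
      intro s hs
      rw [h7]
      exact Submodule.subset_span ⟨s, hs, rfl⟩
  obtain ⟨dN₁, n₁⟩ := six aS₁ dS₁ aW₂ dW₂ aW₁ dW₁ h12 c₁'
  obtain ⟨dN₂, n₂⟩ := six aS₂ dS₂ aW₁ dW₁ aW₂ dW₂ (by rw [inf_comm]; exact h12) c₂'
  have aN₁ := stab_shs aS₁
  have aN₂ := stab_shs aS₂
  have inf_st : ∀ {A B : Submodule F (I27 → F)}, Stab (V F) φ.range A → Stab (V F) φ.range B → Stab (V F) φ.range (A ⊓ B) :=
    fun hA hB g hg w hw => ⟨hA g hg w hw.1, hB g hg w hw.2⟩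
  have sup_st : ∀ {A B : Submodule F (I27 → F)}, Stab (V F) φ.range A → Stab (V F) φ.range B →
      Stab (V F) φ.range (A ⊔ B) := by
    intro A B hA hB g hg w hw
    obtain ⟨a, ha, b, hb, rfl⟩ := Submodule.mem_sup.1 hw
    rw [map_add]
    exact Submodule.add_mem_sup (hA g hg a ha) (hB g hg b hb)
  have hN : shs S₁ ⊓ shs S₂ = ⊥ := by
    have h1 := inf_st aN₁ aN₂
    obtain ⟨k, hk⟩ := three_dvd hφ hc hV h1
    have h2 : finrank F ↥(shs S₁ ⊓ shs S₂) ≤ finrank F ↥(shs S₁) := Submodule.finrank_mono inf_le_left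
    have h3 : k = 0 ∨ k = 1 ∨ k = 2 := by omega
    have q₁ : ¬ W₁ ≤ shs S₁ := by
      intro h
      rw [inf_eq_left.2 h] at n₁
      rw [n₁, finrank_bot] at dW₁
      omega
    have q₂ : ¬ W₂ ≤ shs S₂ := by
      intro h
      rw [inf_eq_left.2 h] at n₂
      rw [n₂, finrank_bot] at dW₂
      omega
    rcases h3 with rfl | rfl | rfl
    · exact Submodule.finrank_eq_zero.1 hk
    · exfalso
      rcases oV _ h1 hk with h | h
      · exact q₁ (h ▸ inf_le_left)
      · exact q₂ (h ▸ inf_le_right)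
    · exfalso
      have h4 : shs S₁ ⊓ shs S₂ = shs S₁ := Submodule.eq_of_le_of_finrank_eq inf_le_left (by omega)
      have h5 : W₂ ≤ shs S₁ := by rw [← c₁']; exact crs_le_shs S₁
      exact q₂ (h5.trans (inf_eq_left.1 h4))
  have dN : finrank F ↥(shs S₁ ⊔ shs S₂) = 12 := by
    have := Submodule.finrank_sup_add_finrank_inf_eq (shs S₁) (shs S₂)
    rw [hN, finrank_bot] at this
    omega
  have hNR : (shs S₁ ⊔ shs S₂) ⊓ R = ⊥ := by
    rcases iR _ inf_le_right (inf_st (sup_st aN₁ aN₂) aR) with h | h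
    · exact h
    · exfalso
      have h1 : R ≤ shs S₁ ⊔ shs S₂ := inf_eq_right.1 h
      have h2 : R ⊓ shs S₁ = ⊥ := by
        rcases iR _ inf_le_left (inf_st aR aN₁) with h | h
        · exact h
        · exfalso
          have h3 := Submodule.finrank_mono (inf_eq_left.1 h)
          omega
      have h3 := Submodule.finrank_sup_add_finrank_inf_eq R (shs S₁)
      rw [h2, finrank_bot] at h3
      have h4 : finrank F ↥(R ⊔ shs S₁) ≤ finrank F ↥(shs S₁ ⊔ shs S₂) := Submodule.finrank_mono (sup_le h1 le_sup_left)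
      omega
  have dK : finrank F ↥((shs S₁ ⊔ shs S₂) ⊔ R) = 21 := by
    have := Submodule.finrank_sup_add_finrank_inf_eq (shs S₁ ⊔ shs S₂) R
    rw [hNR, finrank_bot] at this
    omega
  have hK : (shs S₁ ⊔ shs S₂) ⊔ R ≤ LinearMap.ker (D c) := sup_le (sup_le (ksh hDS₁) (ksh hDS₂)) hDR
  have hK' := Submodule.finrank_mono hK
  have hrk := LinearMap.finrank_range_add_finrank_ker (D c)
  have hdim : finrank F (I27 → F) = 27 := by
    rw [Module.finrank_fintype_fun_eq_card]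
    decide
  rw [hdim] at hrk
  refine no_der hS hc hc0 hfix ?_ ?_ (by omega) ?_
  · intro W h1 h2 w hw
    rcases oV W h1 h2 with rfl | rfl
    · exact hDW₁ hw
    · exact hDW₂ hw
  · intro W h1 h2 w hw
    rcases oV' W h1 h2 with rfl | rfl
    · exact hDS₁ w hw
    · exact hDS₂ w hw
  · intro h6 z hz h1 h5
    have e0 := hf z hz h1 h5
    have hKe : LinearMap.ker (D c) = (shs S₁ ⊔ shs S₂) ⊔ R := (Submodule.eq_of_le_of_finrank_eq hK (by omega)).symm
    rw [hKe]
    have e1 := fix_sup (T := V F z) (fun w hw => sup_st aN₁ aN₂ z hz w hw) (aR z hz) hNR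
    have e2 := fix_sup (T := V F z) (aN₁ z hz) (aN₂ z hz) hN
    have e3 := fix_six hφ hc hV aN₁ dN₁ hz h1 h5
    have e4 := fix_six hφ hc hV aN₂ dN₂ hz h1 h5
    have e5 := fR z hz h1 h5
    omega

end alt

end Cfsg.Agent.H944.E6CovEnd
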