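import Mathlib
import Cfsg.Agent.H952.F4.Jord

/-!
# The number of white vectors of the 27-dimensional module (helper944)

* `card_sing` : `#{v ≠ 0 | sh v = 0} ≤ 27 |F|^17`: if `v i ≠ 0`, then the ten coordinates collinear with `i` are determined
  by `v i` and the sixteen others.
-/

set_option autoImplicit false

namespace Cfsg.Agent.H944.E6Card

open Cfsg Cfsg.Lie
open Cfsg.Agent.H952.F4 (sh)
open Cfsg.Agent.H952.F4.Jord

universe u

/-- the five terms of `sh x e` -/
def tmA (e : I27) (m : Fin 5) : I27 :=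
  if m = 0 then (0 - e.1, e.2.2 + 1, e.2.1 + 1) else if m = 1 then (0 - e.1, e.2.2 + 1, e.2.1 + 2) else
    if m = 2 then (1 - e.1, e.2.1, 0) else if m = 3 then (1 - e.1, e.2.1, 1) else (1 - e.1, e.2.1, 2)

def tmB (e : I27) (m : Fin 5) : I27 :=
  if m = 0 then (0 - e.1, e.2.2 + 2, e.2.1 + 2) else if m = 1 then (0 - e.1, e.2.2 + 2, e.2.1 + 1) else
    if m = 2 then (2 - e.1, 0, e.2.2) else if m = 3 then (2 - e.1, 1, e.2.2) else (2 - e.1, 2, e.2.2)

/-- the coordinate `i` and the sixteen not collinear with it -/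
def fr (i k : I27) : Bool :=
  if k.1 = i.1 then k.2.1 = i.2.1 || k.2.2 = i.2.2 else if k.1 = i.1 + 1 then k.2.1 ≠ i.2.2 else k.2.2 ≠ i.2.1

/-- the equation which determines the coordinate `k` -/
def wt (i k : I27) : I27 :=
  if k.1 = i.1 then (0 - i.1, 0 - i.2.2 - k.2.2, 0 - i.2.1 - k.2.1) else
    if k.1 = i.1 + 1 then (1 - i.1, i.2.1, k.2.2) else (0 - i.1 - 1, k.2.1, i.2.2)

theorem key : ∀ i k : I27, fr i k = false → ∃ m : Fin 5,
    ((tmA (wt i k) m = i ∧ tmB (wt i k) m = k) ∨ (tmA (wt i k) m = k ∧ tmB (wt i k) m = i)) ∧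
      ∀ m' : Fin 5, m' ≠ m → fr i (tmA (wt i k) m') = true ∧ fr i (tmB (wt i k) m') = true := by decide +kernel

theorem card_fr : ∀ i : I27, Fintype.card {k : I27 // fr i k = true} = 17 := by decide +kernel

theorem fr_self (i : I27) : fr i i = true := by
  simp [fr]

theorem sh_terms {R : Type u} [CommRing R] (x : I27 → R) (e : I27) :
    sh x e = ∑ m : Fin 5, (if m = 0 then 1 else -1) * (x (tmA e m) * x (tmB e m)) := by
  obtain ⟨b, i, j⟩ := e
  rw [Fin.sum_univ_five]
  fin_cases b <;> fin_cases i <;> fin_cases j <;>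
  · simp only [Fin.zero_eta, Fin.mk_one, Fin.reduceFinMk, sh000, sh001, sh002, sh010, sh011, sh012, sh020, sh021, sh022,
      sh100, sh101, sh102, sh110, sh111, sh112, sh120, sh121, sh122, sh200, sh201, sh202, sh210, sh211, sh212, sh220,
      sh221, sh222, tmA, tmB, Fin.reduceEq, Fin.isValue, if_true, if_false, Fin.reduceAdd, Fin.reduceSub,
      zero_add, sub_zero, sub_self]
    norm_num
    try ring

section

variable {F : Type u} [Field F]

/-- the coordinates are determined by the seventeen -/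
theorem eq_of_fr {i : I27} {v w : I27 → F} (hi : v i ≠ 0) (hv : sh v = 0) (hw : sh w = 0)
    (h : ∀ k, fr i k = true → v k = w k) : v = w := by
  funext k
  by_cases hk : fr i k = true
  · exact h k hk
  · obtain ⟨m, hm, hm'⟩ := key i k (by simpa using hk)
    have hi' : v i = w i := h i (fr_self i)
    have e1 := congrFun hv (wt i k)
    have e2 := congrFun hw (wt i k)
    rw [sh_terms, ← Finset.add_sum_erase _ _ (Finset.mem_univ m)] at e1 e2
    have e3 : ∑ m' ∈ Finset.univ.erase m, (if m' = 0 then (1 : F) else -1) * (v (tmA (wt i k) m') * v (tmB (wt i k) m')) =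
        ∑ m' ∈ Finset.univ.erase m, (if m' = 0 then (1 : F) else -1) * (w (tmA (wt i k) m') * w (tmB (wt i k) m')) := by
      refine Finset.sum_congr rfl fun m' hm'' => ?_
      obtain ⟨a1, a2⟩ := hm' m' (Finset.ne_of_mem_erase hm'')
      rw [h _ a1, h _ a2]
    rw [e3] at e1
    have e4 : (if m = 0 then (1 : F) else -1) * (v (tmA (wt i k) m) * v (tmB (wt i k) m)) =
        (if m = 0 then (1 : F) else -1) * (w (tmA (wt i k) m) * w (tmB (wt i k) m)) :=
      add_right_cancel (e1.trans e2.symm)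
    have e5 : v (tmA (wt i k) m) * v (tmB (wt i k) m) = w (tmA (wt i k) m) * w (tmB (wt i k) m) := by
      refine mul_left_cancel₀ ?_ e4
      split_ifs <;> simp
    have e6 : v i * v k = v i * w k := by
      rcases hm with ⟨a1, a2⟩ | ⟨a1, a2⟩
      · rw [a1, a2] at e5
        rw [e5, hi']
      · rw [a1, a2] at e5
        rw [mul_comm (v i), e5, ← hi', mul_comm]
    exact mul_left_cancel₀ hi e6

theorem card_coord [Finite F] (i : I27) : Nat.card {v : I27 → F // v i ≠ 0 ∧ sh v = 0} ≤ Nat.card F ^ 17 := by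
  have h1 : Nat.card ({k : I27 // fr i k = true} → F) = Nat.card F ^ 17 := by
    rw [Nat.card_fun, Nat.card_eq_fintype_card (α := {k : I27 // fr i k = true}), card_fr]
  rw [← h1]
  refine Nat.card_le_card_of_injective (fun v k => v.1 k.1) ?_
  intro v w hvw
  apply Subtype.ext
  exact eq_of_fr v.2.1 v.2.2 w.2.2 fun k hk => congrFun hvw ⟨k, hk⟩

end

end Cfsg.Agent.H944.E6Card

namespace Cfsg.Agent.H163.E6.Tw

open Cfsg Cfsg.Lie
open Cfsg.Agent.H952.F4 (sh)

universe u

/-- **the number of white vectors** -/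
theorem card_sing {F : Type u} [Field F] [Finite F] :
    Nat.card {v : I27 → F // v ≠ 0 ∧ sh v = 0} ≤ 27 * Nat.card F ^ 17 := by
  classical
  have h1 : Nat.card {v : I27 → F // v ≠ 0 ∧ sh v = 0} ≤ Nat.card (Σ i : I27, {v : I27 → F // v i ≠ 0 ∧ sh v = 0}) := by
    have hx : ∀ v : {v : I27 → F // v ≠ 0 ∧ sh v = 0}, ∃ i, v.1 i ≠ 0 := fun v => Function.ne_iff.1 v.2.1
    choose f hf using hx
    refine Nat.card_le_card_of_injective (fun v => (⟨f v, v.1, hf v, v.2.2⟩ :
      Σ i : I27, {v : I27 → F // v i ≠ 0 ∧ sh v = 0})) ?_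
    intro v w hvw
    apply Subtype.ext
    have := congrArg (fun z : (Σ i : I27, {v : I27 → F // v i ≠ 0 ∧ sh v = 0}) => z.2.1) hvw
    exact this
  refine h1.trans ?_
  rw [Nat.card_sigma]
  calc ∑ i : I27, Nat.card {v : I27 → F // v i ≠ 0 ∧ sh v = 0} ≤ ∑ _i : I27, Nat.card F ^ 17 :=
        Finset.sum_le_sum fun i _ => Cfsg.Agent.H944.E6Card.card_coord i
    _ = 27 * Nat.card F ^ 17 := by
        rw [Finset.sum_const, smul_eq_mul]
        rfl

end Cfsg.Agent.H163.E6.Tw
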