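import Mathlib
import Cfsg.Agent.H927.E6Der

/-!
# The Lie algebra of `E₆` has no fixed vectors in characteristic different from 3 (helper944)

* `scalar_of_comm` : a matrix which commutes with the twelve simple root matrices is scalar;
* `eq_zero_of_comm` : an element of the Lie algebra which commutes with them is zero (`3 ≠ 0`);
-/

set_option autoImplicit false

namespace Cfsg.Agent.H944.E6CenA

open Cfsg Cfsg.Lie Module
open scoped Matrix
open Cfsg.Agent.ChevalleyStructure
open Cfsg.Agent.ChevalleyStructure.E6Min.Tables Cfsg.Agent.ChevalleyStructure.E6Min.Basic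
  Cfsg.Agent.ChevalleyStructure.E6Min.Adjoint
open Cfsg.Agent.H163.E6
open Cfsg.Agent.H952.F4 (ev sh cr tf MaxAlt)
open Cfsg.Agent.H952.F4.Jord

universe u

theorem sep_all : ∀ x y : I27, x ≠ y → ∃ r ∈ [46, 25, 39, 32, 56, 36, 15, 35, 42, 37, 29, 34],
    ind r x ≠ ind r y := by decide +kernel

/-- distance from the first coordinate -/
def rk (x : I27) : ℕ :=
  [0, 1, 2, 1, 2, 3, 2, 3, 4, 8, 5, 4, 7, 4, 3, 6, 5, 4, 8, 7, 6, 5, 4, 5, 4, 3, 4].getD (code x) 0

theorem rk_all : ∀ x : I27, x = (0, 0, 0) ∨ ∃ r ∈ [46, 25, 39, 32, 56, 36, 15, 35, 42, 37, 29, 34],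
    sg r x ≠ 0 ∧ rk (sr r x) < rk x := by decide +kernel

theorem tw_lt {r : ℕ} (hr : r ∈ [46, 25, 39, 32, 56, 36, 15, 35, 42, 37, 29, 34]) :
    r < 72 ∧ 71 - r ∈ [46, 25, 39, 32, 56, 36, 15, 35, 42, 37, 29, 34] := by
  revert r
  decide

theorem ind_cases (r : ℕ) (x : I27) : ind r x = 0 ∨ ind r x = 1 := by
  by_cases h : sg r x = 0
  · exact Or.inl (ind_of_eq h)
  · exact Or.inr (ind_of_ne h)

variable {F : Type u} [Field F]

/-- a matrix commuting with the twelve simple root matrices is scalar -/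
theorem scalar_of_comm {M : Matrix I27 I27 F}
    (h : ∀ r ∈ [46, 25, 39, 32, 56, 36, 15, 35, 42, 37, 29, 34], M * Nm F r = Nm F r * M) : ∃ c : F, M = c • 1 := by
  have hd : ∀ x y, x ≠ y → M x y = 0 := by
    intro x y hxy
    obtain ⟨r, hr, hne⟩ := sep_all x y hxy
    obtain ⟨h1, h2⟩ := tw_lt hr
    have e1 : M * (Nm F r * Nm F (71 - r)) = (Nm F r * Nm F (71 - r)) * M := by
      rw [← mul_assoc, h r hr, mul_assoc, h _ h2, mul_assoc]
    rw [Nm_mul_opp h1] at e1
    have e2 := congrFun (congrFun e1 x) y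
    rw [Matrix.mul_diagonal, Matrix.diagonal_mul] at e2
    rcases ind_cases r x with h3 | h3 <;> rcases ind_cases r y with h4 | h4 <;> rw [h3, h4] at e2 <;>
      first
        | exact absurd (h3.trans h4.symm) hne
        | simpa using e2
        | simpa using e2.symm
  refine ⟨M (0, 0, 0) (0, 0, 0), ?_⟩
  have hm : ∀ n, ∀ x, rk x ≤ n → M x x = M (0, 0, 0) (0, 0, 0) := by
    intro n
    induction n with
    | zero =>
      intro x hx
      rcases rk_all x with rfl | ⟨r, -, -, h2⟩
      · rfl
      · omega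
    | succ n ih =>
      intro x hx
      rcases rk_all x with rfl | ⟨r, hr, h1, h2⟩
      · rfl
      · rw [← ih (sr r x) (by omega)]
        have e2 := congrFun (congrFun (h r hr) x) (sr r x)
        have e3 : (M * Nm F r) x (sr r x) = M x x * ((sg r x : ℤ) : F) := by
          rw [Matrix.mul_apply, Finset.sum_eq_single x]
          · rw [Nm_apply, if_pos rfl]
          · intro y _ hy
            rw [hd x y (Ne.symm hy), zero_mul]
          · intro h; exact absurd (Finset.mem_univ _) h
        rw [e3, Nm_mul_apply, mul_comm] at e2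
        have h5 : ((sg r x : ℤ) : F) ≠ 0 := by
          have := (row_opp (tw_lt hr).1 h1).2.1
          intro h0
          have h6 := congrArg (fun z : ℤ => (z : F)) this
          simp only [Int.cast_mul, h0, zero_mul, Int.cast_one] at h6
          exact zero_ne_one h6
        exact mul_left_cancel₀ h5 e2
  ext x y
  by_cases hxy : x = y
  · subst hxy
    rw [hm _ x le_rfl, Matrix.smul_apply, Matrix.one_apply_eq, smul_eq_mul, mul_one]
  · rw [hd x y hxy, Matrix.smul_apply, Matrix.one_apply_ne hxy, smul_zero]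

/-- an element of the Lie algebra commuting with the twelve simple root matrices is zero -/
theorem eq_zero_of_comm (h3 : (3 : F) ≠ 0) {X : chevE6.Idx → F}
    (h : ∀ r ∈ [46, 25, 39, 32, 56, 36, 15, 35, 42, 37, 29, 34], comb X * Nm F r = Nm F r * comb X) : X = 0 := by
  obtain ⟨c, hc⟩ := scalar_of_comm h
  have hD : ∀ x, Der.D X x = c • x := by
    intro x
    rw [Der.D_apply, hc, Matrix.smul_mulVec, Matrix.one_mulVec]
  have h1 := Der.tf_sh_D X (Cfsg.Agent.H952.F4.u0 F)
  rw [hD, tf_smul_right, tf_sh_self, N_u0, mul_one] at h1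
  have hc0 : c = 0 := (mul_eq_zero.1 h1).resolve_right h3
  apply comb_injective
  rw [hc, hc0, zero_smul, comb_def]
  simp

end Cfsg.Agent.H944.E6CenA
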