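import Mathlib
import Cfsg.Agent.H882.E6Thirty

/-!
# The involution in the centre of the centralizer of an element of order 3 of type `D₄T₂` (helper944)

For an element `x` of order 3 with `ev (V x) 1 = 9` and `ev (L x) 1 = 30` over an algebraically closed field there is an
involution `τ` acting trivially on the fixed vectors of `x` in `V` and in `L`. The diagonal form of `x` is one of 270
functions `bN n`; for each of them there is exactly one sign vector `sN m`.
-/

set_option autoImplicit false

namespace Cfsg.Agent.H944.E6Tau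

open Cfsg.Lie Module
open Cfsg.Agent.ChevalleyStructure
open Cfsg.Agent.ChevalleyStructure.E6Min.Tables Cfsg.Agent.ChevalleyStructure.E6Min.Basic
  Cfsg.Agent.ChevalleyStructure.E6Min.Checks Cfsg.Agent.ChevalleyStructure.E6Min.Adjoint
  Cfsg.Agent.ChevalleyStructure.E6Min.Forms Cfsg.Agent.ChevalleyStructure.E6Min.Torus Cfsg.Agent.ChevalleyStructure.E6Min.Checks2
open Cfsg.Agent.H882.E6T
open scoped Matrix
open Cfsg.Agent.H944.E6T (exists_diag ev_diag ev_conj)
open Cfsg.Agent.H952.F4 (ev)
open Cfsg.Agent.H163.E6 (V L V_apply)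
open Cfsg.Agent.BpExc.TorAll (HAlg)

/-! ### tables -/

/-- the weights modulo 2, six bits each -/
def WMT : ℕ := 569722054257765878073203533891362139964490226785

/-- parities of the numbers of bits -/
def PAR : ℕ := 7608434000728254870

/-- the sign vector number `m` -/
def sN (m x : ℕ) : ℕ := (PAR >>> (m &&& ((WMT >>> (6 * x)) &&& 63))) % 2

def zer0 (n k : ℕ) : ℕ := Nat.rec 0 (fun x acc => acc + if bN n x = 0 then 1 else 0) k

def okN (n m : ℕ) : Bool := allLt 27 (fun x => !(bN n x == 0) || sN m x == 0) &&
  allLt 72 (fun r => !(bN n (prA r) == bN n (prB r)) || sN m (prA r) == sN m (prB r))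

def cok (n k : ℕ) : ℕ := Nat.rec 0 (fun m acc => acc + if okN n m = true then 1 else 0) k

def eN (m x k : ℕ) : ℕ := Nat.rec 0 (fun i acc => acc + (m / 2 ^ i % 2) * (lbN x i).natAbs) k

/-- exactly one non-trivial sign vector -/
theorem main_all : allLt 729 (fun n => !(cnt n 72 == 24) || !(zer0 n 27 == 9) || cok n 64 == 2) = true := by
  decide +kernel

/-- the value of a root does not depend on the row -/
theorem const_all : allLt 64 (fun m => allLt 72 fun r => allLt 27 fun x => (ent r x < 32 : Bool) ||
    (sN m x + sN m (srN r x) + sN m (prA r) + sN m (prB r)) % 2 == 0) = true := by decide +kernel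

theorem sN_exp : allLt 64 (fun m => allLt 27 fun x => sN m x == eN m x 6 % 2) = true := by decide +kernel

theorem nz_all : allLt 64 (fun m => m == 0 || !(allLt 27 fun x => sN m x == 0)) = true := by decide +kernel

theorem rel2_all : allLt 64 (fun m => allLt 27 fun x => allLt 27 fun y => !(relN x y == 2) ||
    (sN m x + sN m y + sN m (thN x y)) % 2 == 0) = true := by decide +kernel

theorem rep_all : allLt 64 (fun v => !(allLt 64 fun m => !((sN m 9 == v % 2) && (sN m 10 == v / 2 % 2) &&
    (sN m 12 == v / 4 % 2) && (sN m 15 == v / 8 % 2) && (sN m 18 == v / 16 % 2) && (sN m 19 == v / 32 % 2)))) = true := by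
  decide +kernel

theorem sN_lt (m x : ℕ) : sN m x < 2 := Nat.mod_lt _ (by norm_num)

theorem allLt_false {n : ℕ} {p : ℕ → Bool} (h : allLt n p = false) : ∃ k < n, p k = false := by
  by_contra hne
  push Not at hne
  have h2 : allLt n p = true := by
    clear h
    induction n with
    | zero => rfl
    | succ n ih =>
      show (p n && allLt n p) = true
      rw [Bool.and_eq_true]
      refine ⟨?_, ih fun k hk => hne k (by omega)⟩
      have := hne n (by omega)
      simpa using this
  rw [h] at h2
  exact Bool.false_ne_true h2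

theorem sN_rel {m : ℕ} (hm : m < 64) {x y : I27} (h : rel x y = 2) :
    (sN m (code x) + sN m (code y) + sN m (code (th x y))) % 2 = 0 := by
  have h1 := allLt_spec (allLt_spec (allLt_spec rel2_all m hm) _ (code_lt x)) _ (code_lt y)
  have h2 : relN (code x) (code y) = 2 := h
  rw [h2] at h1
  have h3 : code (th x y) = thN (code x) (code y) := by
    have := allLt_spec (allLt_spec th_all _ (code_lt x)) _ (code_lt y)
    rw [h2] at this
    simp only [beq_self_eq_true, Bool.not_true, Bool.false_or, Bool.and_eq_true, Nat.blt_eq] at this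
    exact code_dec this.1.1.1.1.1.1.1
  rw [h3]
  simpa using h1

/-- every sign vector is one of the `sN m` -/
theorem exists_sN {s : I27 → ZMod 2} (hs : ∀ x y, rel x y = 2 → s x + s y + s (th x y) = 0) :
    ∃ m < 64, ∀ x, s x = ((sN m (code x) : ℕ) : ZMod 2) := by
  have l : ∀ x, (s x).val < 2 := fun x => ZMod.val_lt _
  obtain ⟨v, hv⟩ : ∃ v, v = (s (dec 9)).val + 2 * (s (dec 10)).val + 4 * (s (dec 12)).val + 8 * (s (dec 15)).val +
    16 * (s (dec 18)).val + 32 * (s (dec 19)).val := ⟨_, rfl⟩
  have a0 := l (dec 9)
  have a1 := l (dec 10)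
  have a2 := l (dec 12)
  have a3 := l (dec 15)
  have a4 := l (dec 18)
  have a5 := l (dec 19)
  have hv64 : v < 64 := by omega
  have h1 := allLt_spec rep_all v hv64
  rw [Bool.not_eq_true'] at h1
  obtain ⟨m, hm, h2⟩ := allLt_false h1
  rw [Bool.not_eq_false'] at h2
  simp only [Bool.and_eq_true, beq_iff_eq] at h2
  obtain ⟨⟨⟨⟨⟨b0, b1⟩, b2⟩, b3⟩, b4⟩, b5⟩ := h2
  refine ⟨m, hm, ?_⟩
  have hval : ∀ k, ((s k).val : ZMod 2) = s k := fun k => ZMod.natCast_zmod_val _
  have key : ∀ x, ((-1 : ZMod 3)) ^ ((s x).val + sN m (code x)) = 1 := by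
    refine prop_spec (F := ZMod 3) (d := fun x => (-1 : ZMod 3) ^ ((s x).val + sN m (code x))) ?_ _ _ ?_ prop_check
    · intro x y hxy
      have e1 := sN_rel hm hxy
      have e2 : ((s x).val + (s y).val + (s (th x y)).val) % 2 = 0 := by
        have h3 := hs x y hxy
        rw [← hval x, ← hval y, ← hval (th x y)] at h3
        have h4 : (((s x).val + (s y).val + (s (th x y)).val : ℕ) : ZMod 2) = 0 := by push_cast; exact h3
        rw [ZMod.natCast_eq_zero_iff] at h4
        exact Nat.mod_eq_zero_of_dvd h4
      show (-1 : ZMod 3) ^ _ * (-1) ^ _ * (-1) ^ _ = 1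
      rw [← pow_add, ← pow_add]
      have e3 : Even ((s x).val + sN m (code x) + ((s y).val + sN m (code y)) +
          ((s (th x y)).val + sN m (code (th x y)))) := by
        rw [Nat.even_iff]; omega
      exact e3.neg_one_pow
    · intro x hx
      have e1 : Even ((s x).val + sN m (code x)) := by
        rw [Nat.even_iff]
        have hd : x = dec (code x) := (dec_code x).symm
        have hc : code x = 9 ∨ code x = 10 ∨ code x = 12 ∨ code x = 15 ∨ code x = 18 ∨ code x = 19 := by
          simpa using hx
        rcases hc with hc | hc | hc | hc | hc | hc <;> rw [hc] at hd ⊢ <;> rw [hd] <;> omega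
      exact e1.neg_one_pow
  intro x
  have h3 : Even ((s x).val + sN m (code x)) := by
    rcases Nat.even_or_odd ((s x).val + sN m (code x)) with h | h
    · exact h
    · exfalso
      have := key x
      rw [h.neg_one_pow] at this
      exact absurd this (by decide)
  have h4 := l x
  have h5 := sN_lt m (code x)
  have h6 : (s x).val = sN m (code x) := by
    rw [Nat.even_iff] at h3
    omega
  rw [← h6, hval]

end Cfsg.Agent.H944.E6Tau
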