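import Mathlib
import Cfsg.Agent.H944.E6TauTab

/-!
# The involution in the centre of the centralizer of an element of order 3 of type `D₄T₂` (helper944)
-/

set_option autoImplicit false

namespace Cfsg.Agent.H944.E6Tau

open Cfsg.Lie Module
open Cfsg.Agent.ChevalleyStructure
open Cfsg.Agent.ChevalleyStructure.E6Min.Tables Cfsg.Agent.ChevalleyStructure.E6Min.Basic
  Cfsg.Agent.ChevalleyStructure.E6Min.Checks Cfsg.Agent.ChevalleyStructure.E6Min.Adjoint
  Cfsg.Agent.ChevalleyStructure.E6Min.Forms Cfsg.Agent.ChevalleyStructure.E6Min.Torus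
open Cfsg.Agent.H882.E6T
open scoped Matrix
open Cfsg.Agent.H944.E6T (exists_diag ev_diag ev_conj)
open Cfsg.Agent.H952.F4 (ev)
open Cfsg.Agent.H163.E6 (V L V_apply)
open Cfsg.Agent.BpExc.TorAll (HAlg)

/-! ### the sign vector -/

theorem sN_zero (x : ℕ) : sN 0 x = 0 := by
  unfold sN
  rw [Nat.zero_and]
  rfl

theorem okN_zero (n : ℕ) : okN n 0 = true := by
  have h : ∀ (k : ℕ) (p : ℕ → Bool), (∀ i, p i = true) → allLt k p = true := by
    intro k p hp
    induction k with
    | zero => rfl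
    | succ k ih =>
      show (p k && allLt k p) = true
      rw [hp, ih]; rfl
  unfold okN
  rw [Bool.and_eq_true]
  refine ⟨h _ _ fun i => ?_, h _ _ fun i => ?_⟩
  · rw [sN_zero]; simp
  · rw [sN_zero, sN_zero]; simp

theorem cok_eq (n : ℕ) : ∀ k, cok n k = ((Finset.range k).filter fun m => okN n m = true).card := by
  intro k
  induction k with
  | zero => rfl
  | succ k ih =>
    show cok n k + _ = _
    rw [ih, Finset.range_add_one, Finset.filter_insert]
    split_ifs with h
    · rw [Finset.card_insert_of_notMem (by simp)]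
    · rfl

theorem zer0_eq (n : ℕ) : ∀ k, zer0 n k = ((Finset.range k).filter fun x => bN n x = 0).card := by
  intro k
  induction k with
  | zero => rfl
  | succ k ih =>
    show zer0 n k + _ = _
    rw [ih, Finset.range_add_one, Finset.filter_insert]
    split_ifs with h
    · rw [Finset.card_insert_of_notMem (by simp)]
    · rfl

theorem exists_sign {n : ℕ} (hn : n < 729) (h24 : cnt n 72 = 24) (h9 : zer0 n 27 = 9) :
    ∃ m0 < 64, m0 ≠ 0 ∧ okN n m0 = true ∧ ∀ m < 64, okN n m = true → m = 0 ∨ m = m0 := by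
  have h := allLt_spec main_all n hn
  rw [h24, h9] at h
  simp only [beq_self_eq_true, Bool.not_true, Bool.false_or, beq_iff_eq] at h
  rw [cok_eq] at h
  obtain ⟨a, b, hab, he⟩ := Finset.card_eq_two.1 h
  have h0 : (0 : ℕ) ∈ ((Finset.range 64).filter fun m => okN n m = true) := by
    rw [Finset.mem_filter, Finset.mem_range]
    exact ⟨by norm_num, okN_zero n⟩
  have hm : ∀ m, m ∈ ({a, b} : Finset ℕ) ↔ m < 64 ∧ okN n m = true := by
    intro m
    rw [← he, Finset.mem_filter, Finset.mem_range]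
  rw [he] at h0
  simp only [Finset.mem_insert, Finset.mem_singleton] at h0 hm
  rcases h0 with h0 | h0
  · obtain ⟨h1, h2⟩ := (hm b).1 (Or.inr rfl)
    refine ⟨b, h1, fun hb => hab (h0.symm.trans hb.symm), h2, fun m hm1 hm2 => ?_⟩
    rw [h0]
    exact (hm m).2 ⟨hm1, hm2⟩
  · obtain ⟨h1, h2⟩ := (hm a).1 (Or.inl rfl)
    refine ⟨a, h1, fun hb => hab (hb.trans h0), h2, fun m hm1 hm2 => ?_⟩
    rw [h0]
    exact ((hm m).2 ⟨hm1, hm2⟩).symm

theorem pr_eq {r : ℕ} (hr : r < 72) : prA r = rowN r ∧ prB r = srN r (rowN r) := by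
  have h := allLt_spec pr_all r hr
  simpa only [Bool.and_eq_true, beq_iff_eq] using h

theorem rowN_lt {r : ℕ} (hr : r < 72) : rowN r < 27 := by
  have := allLt_spec row_all r hr
  simp only [Bool.and_eq_true, Nat.blt_eq] at this
  exact this.1.1.1

theorem code_row {r : ℕ} (hr : r < 72) : code (row r) = rowN r := code_dec (rowN_lt hr)

theorem code_sr_row {r : ℕ} (hr : r < 72) : code (sr r (row r)) = srN r (rowN r) := by
  rw [code_sr hr, code_row hr]

/-- uniqueness of the sign vector -/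
theorem sign_unique {n m0 : ℕ} (hu : ∀ m < 64, okN n m = true → m = 0 ∨ m = m0) {s : I27 → ZMod 2}
    (h1 : ∀ x y, rel x y = 2 → s x + s y + s (th x y) = 0) (h2 : ∀ x, bN n (code x) = 0 → s x = 0)
    (h3 : ∀ r < 72, bN n (rowN r) = bN n (srN r (rowN r)) → s (sr r (row r)) = s (row r)) (h4 : ∃ x, s x ≠ 0) :
    ∀ x, s x = ((sN m0 (code x) : ℕ) : ZMod 2) := by
  obtain ⟨m, hm, hs⟩ := exists_sN h1
  have hok : okN n m = true := by
    by_contra hne
    rw [Bool.not_eq_true] at hne
    unfold okN at hne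
    rw [Bool.and_eq_false_iff] at hne
    have hcast : ∀ a b : ℕ, a < 2 → b < 2 → ((a : ℕ) : ZMod 2) = ((b : ℕ) : ZMod 2) → a = b := by
      intro a b ha hb hab
      have := congrArg ZMod.val hab
      rwa [ZMod.val_natCast_of_lt ha, ZMod.val_natCast_of_lt hb] at this
    rcases hne with h | h
    · obtain ⟨k, hk, h5⟩ := allLt_false h
      rw [Bool.or_eq_false_iff] at h5
      obtain ⟨h6, h7⟩ := h5
      rw [Bool.not_eq_false', beq_iff_eq] at h6
      have h8 := h2 (dec k) (by rw [code_dec hk]; exact h6)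
      rw [hs, code_dec hk] at h8
      have h9 := hcast _ 0 (sN_lt m k) (by norm_num) (by rw [h8]; rfl)
      rw [h9] at h7
      exact Bool.false_ne_true h7.symm
    · obtain ⟨r, hr, h5⟩ := allLt_false h
      rw [Bool.or_eq_false_iff] at h5
      obtain ⟨h6, h7⟩ := h5
      rw [Bool.not_eq_false', beq_iff_eq, (pr_eq hr).1, (pr_eq hr).2] at h6
      have h8 := h3 r hr h6
      rw [hs, hs, code_sr_row hr, code_row hr] at h8
      have h9 := hcast _ _ (sN_lt _ _) (sN_lt _ _) h8
      rw [(pr_eq hr).1, (pr_eq hr).2, h9, beq_self_eq_true] at h7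
      exact Bool.false_ne_true h7.symm
  rcases hu m hm hok with rfl | rfl
  · obtain ⟨x, hx⟩ := h4
    exact absurd (by rw [hs, sN_zero]; rfl) hx
  · exact hs

/-! ### the element -/

section elem

variable (K : Type*) [Field K]

/-- the product of the elements `h_i(-1)` over the bits of `m` -/
noncomputable def tP (m : ℕ) : ℕ → GL I27 K
  | 0 => 1
  | k + 1 => tP m k * (if m / 2 ^ k % 2 = 1 then hU k (-1) else 1)

theorem tP_mem (m k : ℕ) : tP K m k ∈ Zgrp K := by
  induction k with
  | zero => exact one_mem _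
  | succ k ih =>
    refine mul_mem ih ?_
    split_ifs
    · exact hU_mem _ _
    · exact one_mem _

theorem neg_one_zpow' (z : ℤ) : (-1 : K) ^ z = (-1) ^ z.natAbs := by
  rcases Int.natAbs_eq z with h | h
  · conv_lhs => rw [h]
    rw [zpow_natCast]
  · conv_lhs => rw [h]
    rw [zpow_neg, zpow_natCast, ← inv_pow, inv_neg_one]

theorem coe_tP (m : ℕ) : ∀ k ≤ 6, ((tP K m k : GL I27 K) : Matrix I27 I27 K) =
    Matrix.diagonal fun x => (-1 : K) ^ eN m (code x) k := by
  intro k
  induction k with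
  | zero =>
    intro _
    show (1 : Matrix I27 I27 K) = _
    rw [← Matrix.diagonal_one]
    congr 1
    funext x
    exact (pow_zero (-1 : K)).symm
  | succ k ih =>
    intro hk
    show ((tP K m k * _ : GL I27 K) : Matrix I27 I27 K) = _
    rw [Units.val_mul, ih (by omega)]
    have h1 : (-1 : K) ≠ 0 := by simp
    have h2 : (((if m / 2 ^ k % 2 = 1 then hU k (-1) else 1 : GL I27 K)) : Matrix I27 I27 K) =
        Matrix.diagonal fun x => (-1 : K) ^ ((m / 2 ^ k % 2) * (lbN (code x) k).natAbs) := by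
      split_ifs with h
      · rw [coe_hU (by omega) h1]
        congr 1
        funext x
        rw [h, one_mul, ← neg_one_zpow']
        rfl
      · have h3 : m / 2 ^ k % 2 = 0 := by omega
        rw [h3, Units.val_one, ← Matrix.diagonal_one]
        congr 1
        funext x
        rw [zero_mul, pow_zero]
    rw [h2, Matrix.diagonal_mul_diagonal]
    congr 1
    funext x
    rw [← pow_add]
    rfl

/-- the involution -/
noncomputable def tau (m : ℕ) : ↥(Zgrp K) := ⟨tP K m 6, tP_mem K m 6⟩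

variable {K}

theorem coe_tau {m : ℕ} (hm : m < 64) : ((tau K m : GL I27 K) : Matrix I27 I27 K) =
    Matrix.diagonal fun x => (-1 : K) ^ sN m (code x) := by
  show ((tP K m 6 : GL I27 K) : Matrix I27 I27 K) = _
  rw [coe_tP K m 6 le_rfl]
  congr 1
  funext x
  have h := allLt_spec (allLt_spec sN_exp m hm) _ (code_lt x)
  rw [beq_iff_eq] at h
  rw [h, ← neg_one_pow_eq_pow_mod_two]

/-- the diagonal of the image in the adjoint group -/
def dT (K : Type*) [Field K] (m : ℕ) : chevE6.Idx → K := Sum.elim (fun _ => 1) fun r : Fin chevE6.nroots =>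
  (-1 : K) ^ (sN m (rowN r.val) + sN m (srN r.val (rowN r.val)))

theorem P_tau {m : ℕ} (hm : m < 64) :
    E6Min.Adjoint.P (Matrix.diagonal fun x => (-1 : K) ^ sN m (code x)) (Matrix.diagonal (dT K m)) := by
  intro col
  have hc : (fun row => Matrix.diagonal (dT K m) row col) = fun row => if row = col then dT K m col else 0 := by
    funext row
    rw [Matrix.diagonal_apply]
    by_cases h : row = col
    · rw [if_pos h, if_pos h, h]
    · rw [if_neg h, if_neg h]
  rw [hc]
  have hcomb : comb (fun row => if row = col then dT K m col else 0) = dT K m col • B K col := by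
    rw [comb_def, Finset.sum_eq_single col]
    · rw [if_pos rfl]
    · intro u _ hu; rw [if_neg hu, zero_smul]
    · intro h; exact absurd (Finset.mem_univ _) h
  rw [hcomb]
  ext a a'
  rw [Matrix.diagonal_mul, smul_mul_assoc, Matrix.smul_apply, Matrix.mul_diagonal, smul_eq_mul]
  rcases col with i | r
  · show (-1 : K) ^ sN m (code a) * Hm K i.val a a' = 1 * (Hm K i.val a a' * (-1 : K) ^ sN m (code a'))
    rw [Hm_apply]
    by_cases h : a = a'
    · subst h
      ring
    · rw [if_neg h]; ring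
  · show (-1 : K) ^ sN m (code a) * Nm K r.val a a' = (-1 : K) ^ _ * (Nm K r.val a a' * (-1 : K) ^ sN m (code a'))
    rw [Nm_apply]
    by_cases h : a' = sr r.val a
    · rw [if_pos h]
      by_cases hs : sg r.val a = 0
      · rw [hs]; simp
      · subst h
        have hr := lt72 r
        have h0 := allLt_spec (allLt_spec (allLt_spec const_all m hm) _ hr) _ (code_lt a)
        have hent : ¬ ent r.val (code a) < 32 := fun h => hs (sg_of_lt h)
        simp only [Bool.or_eq_true, decide_eq_true_eq, beq_iff_eq] at h0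
        have h1 := h0.resolve_left hent
        rw [(pr_eq hr).1, (pr_eq hr).2] at h1
        have e : (-1 : K) ^ sN m (code a) = (-1 : K) ^ (sN m (rowN r.val) + sN m (srN r.val (rowN r.val))) *
            (-1 : K) ^ sN m (code (sr r.val a)) := by
          rw [← pow_add, code_sr hr, neg_one_pow_eq_pow_mod_two (R := K) (sN m (code a)),
            neg_one_pow_eq_pow_mod_two (R := K) (_ + _)]
          congr 1
          omega
        rw [e]
        ring
    · rw [if_neg h]; ring

theorem L_tau {m : ℕ} (hm : m < 64) {X : chevE6.Idx → K}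
    (hX : ∀ r : Fin chevE6.nroots, X (Sum.inr r) ≠ 0 → sN m (rowN r.val) = sN m (srN r.val (rowN r.val))) :
    L K (tau K m) X = X := by
  have h1 : (((ad K (tau K m) : ↥(chevE6.group K)) : GL chevE6.Idx K) : Matrix chevE6.Idx chevE6.Idx K) =
      Matrix.diagonal (dT K m) := by
    refine P_unique (g := (tau K m : GL I27 K)) (ad_P (tau K m)) ?_
    rw [coe_tau hm]
    exact P_tau hm
  show (((ad K (tau K m) : ↥(chevE6.group K)) : GL chevE6.Idx K) : Matrix chevE6.Idx chevE6.Idx K) *ᵥ X = X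
  rw [h1]
  funext i
  rw [Matrix.mulVec_diagonal]
  rcases i with i | r
  · show 1 * X _ = _
    rw [one_mul]
  · show (-1 : K) ^ (sN m (rowN r.val) + sN m (srN r.val (rowN r.val))) * X (Sum.inr r) = X (Sum.inr r)
    by_cases h : X (Sum.inr r) = 0
    · rw [h, mul_zero]
    · rw [← hX r h, ← two_mul, pow_mul, neg_one_sq, one_pow, one_mul]

end elem

/-! ### the diagonal form of `x` -/

/-- elements of order 3 of type `(9 | 30)` are conjugate to diagonal ones -/
theorem exists_b {K : Type*} [Field K] [IsAlgClosed K] (p : ℕ) [Fact p.Prime] [CharP K p] (hK : HAlg p K)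
    (hp : p ≠ 3) {ζ : K} (hζ : IsPrimitiveRoot ζ 3) {x : ↥(Zgrp K)} (hx : x ^ 3 = 1) (h9 : ev (V K x) 1 = 9)
    (h30 : ev (L K x) 1 = 30) : ∃ (g : ↥(Zgrp K)) (n : ℕ), n < 729 ∧ cnt n 72 = 24 ∧ zer0 n 27 = 9 ∧
      (((g * x * g⁻¹ : ↥(Zgrp K)) : GL I27 K) : Matrix I27 I27 K) =
        Matrix.diagonal (fun m : I27 => ζ ^ bN n (code m)) ∧
      ∀ X, L K (g * x * g⁻¹) X = X → ∀ r : Fin chevE6.nroots, X (Sum.inr r) ≠ 0 →
        bN n (rowN r.val) = bN n (srN r.val (rowN r.val)) := by
  classical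
  have hcop : (3 : ℕ).Coprime p := (Nat.coprime_primes Nat.prime_three Fact.out).2 (Ne.symm hp)
  obtain ⟨g, d, hdV, hdL, hdm, htri⟩ := exists_diag p hK (by norm_num : (3 : ℕ) ≠ 0) hcop hx
  have hζ0 : ζ ≠ 0 := hζ.ne_zero (by norm_num)
  let z : Kˣ := Units.mk0 ζ hζ0
  have hzu : IsPrimitiveRoot z 3 := by
    rw [← IsPrimitiveRoot.coe_units_iff]
    exact hζ
  have hex : ∀ i, ∃ a < 3, z ^ a = d i := by
    intro i
    have h1 : ((d i : Kˣ) : K) ^ 3 = 1 := by
      rw [← Units.val_pow_eq_pow_val, hdm i, Units.val_one]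
    obtain ⟨a, ha', ha⟩ := hζ.eq_pow_of_pow_eq_one h1
    refine ⟨a, ha', Units.ext ?_⟩
    rw [Units.val_pow_eq_pow_val, ← ha]
    rfl
  choose a ha' ha using hex
  let b : I27 → ZMod 3 := fun i => (a i : ZMod 3)
  have hzp : ∀ n : ℤ, z ^ n = z ^ ((n : ZMod 3).val) := by
    intro n
    rw [← zpow_natCast, ZMod.val_intCast]
    have h1 : z ^ ((3 : ℕ) : ℤ) = 1 := by rw [zpow_natCast]; exact hzu.pow_eq_one
    conv_lhs => rw [← Int.emod_add_mul_ediv n (3 : ℕ)]
    rw [zpow_add, zpow_mul, h1, one_zpow, mul_one]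
  have hzinj : ∀ {c c' : ZMod 3}, z ^ c.val = z ^ c'.val → c = c' := by
    intro c c' h
    exact ZMod.val_injective 3 (hzu.pow_inj (ZMod.val_lt _) (ZMod.val_lt _) h)
  have hdb : ∀ i, d i = z ^ (b i).val := by
    intro i
    rw [← ha i, ← zpow_natCast, hzp]
    simp [b]
  have hb : ∀ x y, rel x y = 2 → b x + b y + b (th x y) = 0 := by
    intro x y hxy
    have h1 := htri x y hxy
    apply hzinj
    rw [hdb, hdb, hdb, ← pow_add, ← pow_add] at h1
    rw [ZMod.val_zero, pow_zero, ← h1, ← zpow_natCast z ((b x).val + (b y).val + (b (th x y)).val), hzp]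
    congr 2
    push_cast
    simp
  obtain ⟨n, hn, hbn⟩ := exists_num hb
  obtain ⟨D, hD⟩ : ∃ D : chevE6.Idx → K, D = Sum.elim (fun _ => (1 : K))
      (fun r : Fin chevE6.nroots => (((d (row r.val) * (d (sr r.val (row r.val)))⁻¹ : Kˣ)) : K)) := ⟨_, rfl⟩
  have hL : L K (g * x * g⁻¹) = Matrix.toLin' (Matrix.diagonal D) := by
    rw [hD, ← hdL]
    rfl
  have hiff : ∀ r : Fin chevE6.nroots, D (Sum.inr r) = 1 ↔ bN n (rowN r) = bN n (srN r (rowN r)) := by
    intro r
    have hr := lt72 r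
    rw [hD]
    change (((d (row r.val) * (d (sr r.val (row r.val)))⁻¹ : Kˣ)) : K) = 1 ↔ _
    have h2 : bN n (rowN r) = (b (row r.val)).val := by rw [hbn, code_row hr]
    have h3 : bN n (srN r (rowN r)) = (b (sr r.val (row r.val))).val := by rw [hbn, code_sr_row hr]
    rw [h2, h3]
    constructor
    · intro h
      have h4 : d (row r.val) = d (sr r.val (row r.val)) := by
        have h5 : d (row r.val) * (d (sr r.val (row r.val)))⁻¹ = 1 := Units.ext h
        exact mul_inv_eq_one.1 h5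
      rw [hdb, hdb] at h4
      exact congrArg ZMod.val (hzinj h4)
    · intro h
      have h4 : d (row r.val) = d (sr r.val (row r.val)) := by rw [hdb, hdb, h]
      rw [h4, mul_inv_cancel, Units.val_one]
  -- the number of roots
  have hcard : cnt n 72 = 24 := by
    have h1 : ev (L K (g * x * g⁻¹)) 1 = 30 := by rw [ev_conj]; exact h30
    rw [ev_diag _ 1 hL, Finset.card_filter, Fintype.sum_sum_type] at h1
    have e1 : (∑ i : Fin chevE6.rank, if D (Sum.inl i) = 1 then 1 else 0) = 6 := by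
      rw [hD]
      show (∑ i : Fin 6, if (1 : K) = 1 then 1 else 0) = 6
      simp
    have e2 : (∑ r : Fin chevE6.nroots, if D (Sum.inr r) = 1 then 1 else 0) = cnt n 72 := by
      rw [cnt_eq n 72 le_rfl]
      show (∑ r : Fin 72, _) = _
      rw [← Fin.sum_univ_eq_sum_range (fun r => if bN n (rowN r) = bN n (srN r (rowN r)) then 1 else 0) 72]
      refine Finset.sum_congr rfl fun r _ => ?_
      by_cases h : bN n (rowN r) = bN n (srN r (rowN r))
      · rw [if_pos h, if_pos ((hiff r).2 h)]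
      · rw [if_neg h, if_neg (fun h' => h ((hiff r).1 h'))]
    rw [e1, e2] at h1
    omega
  have hzero : zer0 n 27 = 9 := by
    have h1 : ev (V K (g * x * g⁻¹)) 1 = 9 := by rw [ev_conj]; exact h9
    have hV : V K (g * x * g⁻¹) = Matrix.toLin' (Matrix.diagonal fun i => (d i : K)) := by
      rw [← hdV]
      rfl
    rw [ev_diag _ 1 hV] at h1
    rw [zer0_eq, ← h1]
    symm
    refine Finset.card_bij (fun i _ => code i) ?_ ?_ ?_
    · intro i hi
      rw [Finset.mem_filter] at hi ⊢
      refine ⟨Finset.mem_range.2 (code_lt i), ?_⟩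
      have h2 : d i = z ^ (0 : ZMod 3).val := by
        rw [ZMod.val_zero, pow_zero]
        exact Units.ext hi.2
      rw [hdb] at h2
      rw [← hbn, hzinj h2, ZMod.val_zero]
    · intro i _ j _ hij
      rw [← dec_code i, ← dec_code j, hij]
    · intro k hk
      rw [Finset.mem_filter, Finset.mem_range] at hk
      refine ⟨dec k, ?_, code_dec hk.1⟩
      rw [Finset.mem_filter]
      refine ⟨Finset.mem_univ _, ?_⟩
      rw [hdb, hbn, code_dec hk.1, hk.2, pow_zero, Units.val_one]
  refine ⟨g, n, hn, hcard, hzero, ?_, ?_⟩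
  · rw [hdV]
    congr 1
    funext m
    rw [hdb, hbn, Units.val_pow_eq_pow_val]
    rfl
  · intro X hX r hXr
    rw [← hiff]
    rw [hL, Matrix.toLin'_apply] at hX
    have h1 := congrFun hX (Sum.inr r)
    rw [Matrix.mulVec_diagonal] at h1
    exact mul_right_cancel₀ hXr (h1.trans (one_mul _).symm)

/-! ### the four properties -/

section six

/-- `τ` is an involution acting trivially on the fixed vectors of `x` -/
def Six {K : Type*} [Field K] (x τ : ↥(Zgrp K)) : Prop :=
  τ * τ = 1 ∧ τ ≠ 1 ∧ (∀ X, L K x X = X → L K τ X = X) ∧ ∀ v, V K x v = v → V K τ v = v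

variable {K : Type*} [Field K]

theorem fix_conj {G M : Type*} [Group G] [AddCommGroup M] [Module K M] (ρ : Representation K G M) {x τ : G}
    (h : ∀ X, ρ x X = X → ρ τ X = X) (g : G) (X : M) (hX : ρ (g * x * g⁻¹) X = X) : ρ (g * τ * g⁻¹) X = X := by
  have h1 : ρ x (ρ g⁻¹ X) = ρ g⁻¹ X := by
    rw [← Module.End.mul_apply, ← map_mul]
    conv_rhs => rw [← hX]
    rw [← Module.End.mul_apply, ← map_mul]
    congr 2
    group
  have h2 := h _ h1
  have h3 : ρ g (ρ τ (ρ g⁻¹ X)) = X := by
    rw [h2, ← Module.End.mul_apply, ← map_mul, mul_inv_cancel, map_one, Module.End.one_apply]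
  rw [map_mul, map_mul, Module.End.mul_apply, Module.End.mul_apply, h3]

theorem Six.conj {x τ : ↥(Zgrp K)} (h : Six x τ) (g : ↥(Zgrp K)) : Six (g * x * g⁻¹) (g * τ * g⁻¹) := by
  obtain ⟨h1, h2, h3, h4⟩ := h
  refine ⟨?_, ?_, fix_conj (L K) h3 g, fix_conj (V K) h4 g⟩
  · have : g * τ * g⁻¹ * (g * τ * g⁻¹) = g * (τ * τ) * g⁻¹ := by group
    rw [this, h1, mul_one, mul_inv_cancel]
  · intro h0
    apply h2
    have : τ = g⁻¹ * (g * τ * g⁻¹) * g := by group
    rw [this, h0, mul_one, inv_mul_cancel]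

/-- the six properties -/
theorem five_of_six {x τ : ↥(Zgrp K)} (h : Six x τ) (hu : ∀ τ', Six x τ' → τ' = τ) :
    ∃ τ : ↥(Zgrp K), τ * τ = 1 ∧ τ ≠ 1 ∧ (∀ g, g * x = x * g → g * τ = τ * g) ∧ (∀ X, L K x X = X → L K τ X = X) ∧
      (∀ v, V K x v = v → V K τ v = v) ∧ ∀ τ' : ↥(Zgrp K), τ' * τ' = 1 → τ' ≠ 1 → (∀ X, L K x X = X → L K τ' X = X) →
        (∀ v, V K x v = v → V K τ' v = v) → τ' = τ := by
  refine ⟨τ, h.1, h.2.1, ?_, h.2.2.1, h.2.2.2, fun τ' h1 h2 h3 h4 => hu τ' ⟨h1, h2, h3, h4⟩⟩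
  intro g hg
  have h1 := h.conj g
  have h2 : g * x * g⁻¹ = x := by rw [hg, mul_inv_cancel_right]
  rw [h2] at h1
  have h3 := hu _ h1
  conv_rhs => rw [← h3]
  group

end six

/-! ### existence over algebraically closed fields -/

/-- the statement of the uniqueness part -/
def UniqDiag (K : Type*) [Field K] (ζ : K) : Prop :=
  ∀ (b : I27 → ZMod 3) (y τ : ↥(Zgrp K)),
    ((y : GL I27 K) : Matrix I27 I27 K) = Matrix.diagonal (fun m => ζ ^ (b m).val) → Six y τ →
    ∃ s : I27 → ZMod 2, ((τ : GL I27 K) : Matrix I27 I27 K) = Matrix.diagonal (fun m => (-1) ^ (s m).val) ∧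
      (∀ m m', rel m m' = 2 → s m + s m' + s (th m m') = 0) ∧ (∀ m, b m = 0 → s m = 0) ∧
      (∀ r < 72, b (row r) = b (sr r (row r)) → ∀ m, sg r m ≠ 0 → s (sr r m) = s m) ∧ ∃ m, s m ≠ 0

theorem closed_of {K : Type*} [Field K] [IsAlgClosed K] (p : ℕ) [Fact p.Prime] [CharP K p] (hK : HAlg p K)
    (hp : 5 ≤ p) (hU : ∀ ζ : K, IsPrimitiveRoot ζ 3 → UniqDiag K ζ) {x : ↥(Zgrp K)} (hx : x ^ 3 = 1)
    (h9 : ev (V K x) 1 = 9) (h30 : ev (L K x) 1 = 30) : ∃ τ, Six x τ ∧ ∀ τ', Six x τ' → τ' = τ := by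
  have h3 : NeZero (3 : K) := by
    refine ⟨fun h0 => ?_⟩
    have h1 : ((3 : ℕ) : K) = 0 := by exact_mod_cast h0
    rw [CharP.cast_eq_zero_iff K p] at h1
    have := Nat.le_of_dvd (by norm_num) h1
    omega
  have h2 : (2 : K) ≠ 0 := by
    intro h0
    have h1 : ((2 : ℕ) : K) = 0 := by exact_mod_cast h0
    rw [CharP.cast_eq_zero_iff K p] at h1
    have := Nat.le_of_dvd (by norm_num) h1
    omega
  have hneg : (-1 : K) ≠ 1 := by
    intro h0
    apply h2
    linear_combination -h0
  obtain ⟨ζ, hζ⟩ : ∃ ζ : K, IsPrimitiveRoot ζ 3 := by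
    have : NeZero ((3 : ℕ) : K) := by exact_mod_cast h3
    exact HasEnoughRootsOfUnity.exists_primitiveRoot K 3
  obtain ⟨g, n, hn, h24, h0, hy, hL⟩ := exists_b p hK (by omega) hζ hx h9 h30
  obtain ⟨m0, hm0, hne, hok, hu⟩ := exists_sign hn h24 h0
  obtain ⟨y, hyd⟩ : ∃ y, y = g * x * g⁻¹ := ⟨_, rfl⟩
  rw [← hyd] at hy hL
  unfold okN at hok
  rw [Bool.and_eq_true] at hok
  have hok1 : ∀ k < 27, bN n k = 0 → sN m0 k = 0 := by
    intro k hk h
    have := allLt_spec hok.1 k hk
    rw [h] at this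
    simpa using this
  have hok2 : ∀ r < 72, bN n (rowN r) = bN n (srN r (rowN r)) → sN m0 (rowN r) = sN m0 (srN r (rowN r)) := by
    intro r hr h
    have := allLt_spec hok.2 r hr
    rw [(pr_eq hr).1, (pr_eq hr).2, h] at this
    simpa using this
  have hτ : Six y (tau K m0) := by
    refine ⟨?_, ?_, ?_, ?_⟩
    · apply Subtype.ext
      apply Units.ext
      rw [Subgroup.coe_mul, Units.val_mul, coe_tau hm0, Matrix.diagonal_mul_diagonal, Subgroup.coe_one, Units.val_one,
        ← Matrix.diagonal_one]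
      congr 1
      funext i
      rw [← pow_add, ← two_mul, pow_mul, neg_one_sq, one_pow]
    · intro h1
      have h4 := allLt_spec nz_all m0 hm0
      rw [Bool.or_eq_true, beq_iff_eq] at h4
      have h5 := h4.resolve_left hne
      rw [Bool.not_eq_true'] at h5
      obtain ⟨k, hk, h6⟩ := allLt_false h5
      have h7 : sN m0 k = 1 := by
        have := sN_lt m0 k
        rw [beq_eq_false_iff_ne] at h6
        omega
      have h8 := congrArg (fun z : ↥(Zgrp K) => ((z : GL I27 K) : Matrix I27 I27 K) (dec k) (dec k)) h1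
      simp only [coe_tau hm0, Matrix.diagonal_apply_eq, code_dec hk, h7, pow_one, Subgroup.coe_one, Units.val_one,
        Matrix.one_apply_eq] at h8
      exact hneg h8
    · intro X hX
      exact L_tau hm0 fun r hr => hok2 _ (lt72 r) (hL X hX r hr)
    · intro v hv
      rw [V_apply, coe_tau hm0]
      rw [V_apply, hy] at hv
      funext i
      have h1 := congrFun hv i
      rw [Matrix.mulVec_diagonal] at h1 ⊢
      by_cases hvi : v i = 0
      · rw [hvi, mul_zero]
      · have h4 : ζ ^ bN n (code i) = 1 := mul_right_cancel₀ hvi (h1.trans (one_mul _).symm)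
        have h5 : bN n (code i) < 3 := Nat.mod_lt _ (by norm_num)
        have h6 : bN n (code i) = 0 := by
          rw [hζ.pow_eq_one_iff_dvd] at h4
          exact Nat.eq_zero_of_dvd_of_lt h4 h5
        rw [hok1 _ (code_lt i) h6, pow_zero, one_mul]
  have huy : ∀ τ', Six y τ' → τ' = tau K m0 := by
    intro τ' h
    have hb : ∀ m : I27, (((bN n (code m) : ℕ) : ZMod 3)).val = bN n (code m) := fun m =>
      ZMod.val_natCast_of_lt (Nat.mod_lt _ (by norm_num))
    obtain ⟨s, s1, s2, s3, s4, s5⟩ := hU ζ hζ (fun m => ((bN n (code m) : ℕ) : ZMod 3)) y τ'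
      (by rw [hy]; congr 1; funext m; rw [hb]) h
    have hs := sign_unique hu s2 (fun x hx => s3 x (by rw [hx]; rfl))
      (fun r hr h => s4 r hr (by rw [code_row hr, code_sr_row hr, h]) (row r) (row_spec hr).1) s5
    apply Subtype.ext
    apply Units.ext
    rw [s1, coe_tau hm0]
    congr 1
    funext i
    rw [hs i, ZMod.val_natCast_of_lt (sN_lt _ _)]
  refine ⟨g⁻¹ * tau K m0 * g, ?_, ?_⟩
  · have h1 := hτ.conj g⁻¹
    have h4 : g⁻¹ * y * g⁻¹⁻¹ = x := by rw [hyd]; group
    rw [h4, inv_inv] at h1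
    exact h1
  · intro τ' h
    have h1 := h.conj g
    rw [← hyd] at h1
    rw [← huy _ h1]
    group

end Cfsg.Agent.H944.E6Tau
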