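import Mathlib
import Cfsg.Agent.H944.E6TwC
import Cfsg.Agent.H163.E6.Two

/-!
# Elements of order 11 of `E₆`; alternating groups of degree at least 11 fixing a vector `v` with `N(v) ≠ 0` (helper944)

* `eleven` : in characteristic different from 11 an element `x` with `x ^ 11 = 1`, conjugate to `x ^ 3` and with
  `ev (V x) μ = ev (V x) μ⁻¹` for all `μ`, is trivial (the nine parameters modulo 11, `chk11`);
* `black_real` : `V g v = v`, `N(v) ≠ 0` implies `ev (V g) μ = ev (V g) μ⁻¹` (a `g`-isomorphism `V → V'`);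
* `no_black` : the preimage of `A_n`, `n ≥ 11`, does not fix a vector `v` with `N(v) ≠ 0`.
-/

set_option autoImplicit false

namespace Cfsg.Agent.H944.E6T

open Cfsg.Lie Module
open Cfsg.Agent.ChevalleyStructure Cfsg.Agent.ChevalleyStructure.Elts
open Cfsg.Agent.ChevalleyStructure.E6Min.Tables Cfsg.Agent.ChevalleyStructure.E6Min.Basic
  Cfsg.Agent.ChevalleyStructure.E6Min.Checks Cfsg.Agent.ChevalleyStructure.E6Min.Adjoint
  Cfsg.Agent.ChevalleyStructure.E6Min.Forms
open Cfsg.Agent.H952.F4 (ev es matRep)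
open Cfsg.Agent.H163.E6 (V L)
open Cfsg.Agent.BpExc.TorAll

universe u

/-- not one of the packed multiplicities `(7, 2, ..., 2)`, `(17, 1, ..., 1)` -/
def ok11 (v : ℕ) : Bool := !(Nat.beq v 2427333410363490735096327) && !(Nat.beq v 1213666705181745367548177)

/-- the check -/
def chkV (m s : ℕ) (p : ℕ → Bool) : Bool :=
  all3 m s fun x0 x1 x2 => all3 m s fun y0 y1 y2 => all3 m s fun z0 z1 z2 => p (nV m x0 x1 x2 y0 y1 y2 z0 z1 z2)

theorem chk11 : chkV 11 0 ok11 = true := by decide +kernel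

theorem core_natV {m : ℕ} [NeZero m] {s : ℕ} (hs : s < m) {p : ℕ → Bool} (hp : chkV m s p = true) (X Y Z : Fin 3 → ZMod m)
    (hX : X 0 + X 1 + X 2 = (s : ZMod m)) (hY : Y 0 + Y 1 + Y 2 = (s : ZMod m))
    (hZ : Z 0 + Z 1 + Z 2 = (s : ZMod m)) : p (sV W8 X Y Z) = true := by
  obtain ⟨σ, hσ1, hσ2⟩ := exists_sort X
  obtain ⟨τ, hτ1, hτ2⟩ := exists_sort Y
  obtain ⟨υ, hυ1, hυ2⟩ := exists_sort Z
  rw [← sV_perm W8 X Y Z σ τ υ, sV_eq]
  exact all3_spec (all3_spec (all3_spec hp hσ1 hσ2 (ZMod.val_lt _) (sum_mod X hs σ hX))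
    hτ1 hτ2 (ZMod.val_lt _) (sum_mod Y hs τ hY)) hυ1 hυ2 (ZMod.val_lt _) (sum_mod Z hs υ hZ)

theorem core11 {b : I27 → ZMod 11} (hb : ∀ x y, rel x y = 2 → b x + b y + b (th x y) = 0) :
    ok11 (∑ x : I27, W8 (b x)) = true := by
  have hP := par_par hb
  rw [sum_coord hb]
  obtain ⟨t, ht⟩ : ∃ t : ZMod 11, par b 9 + 3 * t = ((0 : ℕ) : ZMod 11) :=
    (by decide : ∀ a : ZMod 11, ∃ t : ZMod 11, a + 3 * t = ((0 : ℕ) : ZMod 11)) (par b 9)
  rw [← sV_shift W8 _ _ _ t]
  refine core_natV (by omega) chk11 _ _ _ ?_ ?_ ?_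
  · rw [← ht]
    have := hP.x
    show par b 0 + t + (par b 1 + t) + (par b 2 + t) = _
    linear_combination this
  · rw [← ht]
    have := hP.y
    show par b 3 + t + (par b 4 + t) + (par b 5 + t) = _
    linear_combination this
  · rw [← ht]
    have := hP.z
    show par b 6 + t + (par b 7 + t) + (par b 8 + t) = _
    linear_combination this

variable {K : Type u} [Field K]

/-- elements of order 11 whose non-trivial eigenvalues have equal multiplicities -/
theorem eleven_closed [IsAlgClosed K] (p : ℕ) [Fact p.Prime] [CharP K p] (hK : HAlg p K) (hmp : (11 : ℕ).Coprime p)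
    {ζ : K} (hζ : IsPrimitiveRoot ζ 11) {x : ↥(Zgrp K)} (hx : x ^ 11 = 1)
    (he : ∀ j < 11, j ≠ 0 → ev (V K x) (ζ ^ j) = ev (V K x) ζ) : x = 1 := by
  classical
  have hm0 : (11 : ℕ) ≠ 0 := by norm_num
  obtain ⟨g, d, hdV, hdL, hdm, htri⟩ := exists_diag p hK hm0 hmp hx
  set t := g * x * g⁻¹ with ht
  have hζ0 : ζ ≠ 0 := hζ.ne_zero hm0
  let z : Kˣ := Units.mk0 ζ hζ0
  have hzu : IsPrimitiveRoot z 11 := by
    rw [← IsPrimitiveRoot.coe_units_iff]
    exact hζ
  have hex : ∀ i, ∃ a < 11, z ^ a = d i := by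
    intro i
    have h1 : ((d i : Kˣ) : K) ^ 11 = 1 := by
      rw [← Units.val_pow_eq_pow_val, hdm i, Units.val_one]
    obtain ⟨a, ha', ha⟩ := hζ.eq_pow_of_pow_eq_one h1
    refine ⟨a, ha', Units.ext ?_⟩
    rw [Units.val_pow_eq_pow_val, ← ha]
    rfl
  choose a ha' ha using hex
  let b : I27 → ZMod 11 := fun i => (a i : ZMod 11)
  have hzp : ∀ n : ℤ, z ^ n = z ^ ((n : ZMod 11).val) := by
    intro n
    rw [← zpow_natCast, ZMod.val_intCast]
    have h1 : z ^ ((11 : ℕ) : ℤ) = 1 := by rw [zpow_natCast]; exact hzu.pow_eq_one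
    conv_lhs => rw [← Int.emod_add_mul_ediv n (11 : ℕ)]
    rw [zpow_add, zpow_mul, h1, one_zpow, mul_one]
  have hzinj : ∀ {c c' : ZMod 11}, z ^ c.val = z ^ c'.val → c = c' := by
    intro c c' h
    exact ZMod.val_injective 11 (hzu.pow_inj (ZMod.val_lt _) (ZMod.val_lt _) h)
  have hdb : ∀ i, d i = z ^ (b i).val := by
    intro i
    rw [← ha i, ← zpow_natCast, hzp]
    simp [b]
  have hb : ∀ x y, rel x y = 2 → b x + b y + b (th x y) = 0 := by
    intro x y hxy
    have h1 := htri x y hxy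
    apply hzinj
    rw [hdb, hdb, hdb, ← pow_add, ← pow_add] at h1
    rw [ZMod.val_zero, pow_zero, ← h1, ← zpow_natCast z ((b x).val + (b y).val + (b (th x y)).val), hzp]
    congr 2
    push_cast
    simp
  have hcore := core11 hb
  set dV : I27 → K := fun i => (d i : K) with hdVd
  have hV : ∀ k : ℕ, V K (t ^ k) = Matrix.toLin' (Matrix.diagonal fun i => dV i ^ k) := by
    intro k
    show Matrix.toLin' (((t ^ k : ↥(Zgrp K)) : GL I27 K) : Matrix I27 I27 K) = _
    rw [Subgroup.coe_pow, Units.val_pow_eq_pow_val, hdV, Matrix.diagonal_pow]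
    rfl
  have hzm : ∀ c : ZMod 11, ((z ^ c.val : Kˣ) : K) ^ 11 = 1 := by
    intro c
    rw [← Units.val_pow_eq_pow_val, ← pow_mul, mul_comm, pow_mul, hzu.pow_eq_one, one_pow, Units.val_one]
  have hζz : ∀ j : ℕ, ζ ^ j = ((z ^ j : Kˣ) : K) := fun j => by
    rw [Units.val_pow_eq_pow_val]
    rfl
  obtain ⟨v1, -, -, -⟩ := diag_facts (V K) hζ hm0 (x := x) (g := g) (d := dV) hV (fun i => by
    rw [hdVd]; show (d i : K) ^ 11 = 1; rw [hdb]; exact hzm _)
  have eV : ∀ j < 11, ev (V K x) (ζ ^ j) = (Finset.univ.filter fun i : I27 => (b i).val = j).card := by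
    intro j hj
    rw [v1]
    refine congrArg Finset.card (Finset.filter_congr fun i _ => ?_)
    rw [hζz]
    change ((d i : Kˣ) : K) = _ ↔ _
    rw [hdb]
    constructor
    · intro h
      exact hzu.pow_inj (ZMod.val_lt _) hj (Units.ext h)
    · intro h
      rw [h]
  obtain ⟨c, hc⟩ : ∃ c, c = ev (V K x) ζ := ⟨_, rfl⟩
  have e0 := eV 0 (by norm_num)
  rw [pow_zero] at e0
  have hcount : ∀ j < 11, j ≠ 0 → (Finset.univ.filter fun i : I27 => (b i).val = j).card = c := by
    intro j hj hj0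
    rw [← eV j hj, he j hj hj0, hc]
  have hsum : ∑ x : I27, W8 (b x) = (Finset.univ.filter fun i : I27 => (b i).val = 0).card +
      c * ∑ j ∈ Finset.range 10, 256 ^ (j + 1) := by
    have h1 : ∑ j ∈ Finset.range 10, (Finset.univ.filter fun i : I27 => (b i).val = j + 1).card * 256 ^ (j + 1) =
        c * ∑ j ∈ Finset.range 10, 256 ^ (j + 1) := by
      rw [Finset.mul_sum]
      refine Finset.sum_congr rfl fun j hj => ?_
      rw [hcount (j + 1) (by have := Finset.mem_range.1 hj; omega) (by omega)]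
    rw [sum_levels, Finset.sum_range_succ', h1, pow_zero, mul_one, Nat.add_comm]
  have htot : (Finset.univ.filter fun i : I27 => (b i).val = 0).card + c * 10 = 27 := by
    have h1 : ∑ j ∈ Finset.range 11, (Finset.univ.filter fun i : I27 => (b i).val = j).card = 27 := by
      have h2 := Finset.card_eq_sum_card_fiberwise (s := (Finset.univ : Finset I27)) (t := Finset.range 11)
        (f := fun i => (b i).val) (fun i _ => Finset.mem_coe.2 (Finset.mem_range.2 (ZMod.val_lt _)))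
      rw [← h2, Finset.card_univ]
      decide
    rw [Finset.sum_range_succ'] at h1
    rw [Finset.sum_congr rfl (g := fun _ => c) (fun j hj =>
      hcount (j + 1) (by have := Finset.mem_range.1 hj; omega) (by omega)), Finset.sum_const, Finset.card_range,
      smul_eq_mul] at h1
    omega
  have hcc : c = 0 ∨ c = 1 ∨ c = 2 := by omega
  rcases hcc with h | h | h
  · apply V_one_of_ev
    rw [e0]
    omega
  · exfalso
    rw [h] at hsum htot
    have h0 : (Finset.univ.filter fun i : I27 => (b i).val = 0).card = 17 := by omega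
    rw [hsum, h0] at hcore
    revert hcore
    decide +kernel
  · exfalso
    rw [h] at hsum htot
    have h0 : (Finset.univ.filter fun i : I27 => (b i).val = 0).card = 7 := by omega
    rw [hsum, h0] at hcore
    revert hcore
    decide +kernel

/-- **elements of order 11 conjugate to their third power are not real on `V`** -/
theorem eleven [IsAlgClosed K] (p : ℕ) [Fact p.Prime] [CharP K p] (hK : HAlg p K) (hp : p ≠ 11)
    {x : ↥(Zgrp K)} (hx : x ^ 11 = 1) (h3 : ∃ g, g * x * g⁻¹ = x ^ 3)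
    (hr : ∀ μ : K, μ ≠ 0 → ev (V K x) μ = ev (V K x) μ⁻¹) : x = 1 := by
  have hc : (11 : ℕ).Coprime p := cop p (by norm_num : (11 : ℕ).Prime) hp
  obtain ⟨ζ, hζ⟩ := exists_prim (K := K) p hc
  have hζ0 : ζ ≠ 0 := hζ.ne_zero (by norm_num)
  obtain ⟨g, hg⟩ := h3
  have hcube : ∀ μ : K, μ ≠ 0 → μ ^ 11 = 1 → ev (V K x) μ = ev (V K x) (μ ^ 3) := by
    intro μ hμ0 hμ
    -- the eigenspace of `x ^ 3` for `μ ^ 3` is the eigenspace of `x` for `μ`
    have h1 : Module.End.eigenspace (V K x) μ = Module.End.eigenspace (V K (x ^ 3)) (μ ^ 3) := by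
      have hpow : ∀ (k : ℕ) (y : ↥(Zgrp K)) (ν : K) (v : I27 → K), V K y v = ν • v → V K (y ^ k) v = ν ^ k • v := by
        intro k y ν v hv
        induction k with
        | zero => rw [pow_zero, map_one, pow_zero, one_smul]; rfl
        | succ k ih =>
          rw [pow_succ', map_mul]
          show V K y (V K (y ^ k) v) = _
          rw [ih, map_smul, hv, smul_smul, pow_succ]
      ext v
      rw [Module.End.mem_eigenspace_iff, Module.End.mem_eigenspace_iff]
      constructor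
      · exact hpow 3 x μ v
      · intro hv
        have h2 := hpow 4 (x ^ 3) (μ ^ 3) v hv
        have e12 : x ^ 12 = x := by rw [show (12 : ℕ) = 11 + 1 from rfl, pow_succ x, hx, one_mul]
        have f12 : μ ^ 12 = μ := by rw [show (12 : ℕ) = 11 + 1 from rfl, pow_succ μ, hμ, one_mul]
        rw [← pow_mul, ← pow_mul] at h2
        change V K (x ^ 12) v = μ ^ 12 • v at h2
        rwa [e12, f12] at h2
    have h2 : ev (V K x) μ = ev (V K (x ^ 3)) (μ ^ 3) := by
      unfold Cfsg.Agent.H952.F4.ev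
      rw [h1]
    rw [h2, ← hg, ev_conj]
  have hpp : ∀ j : ℕ, ev (V K x) (ζ ^ j) = ev (V K x) (ζ ^ (3 * j)) := by
    intro j
    rw [hcube (ζ ^ j) (pow_ne_zero _ hζ0) (by rw [← pow_mul, mul_comm, pow_mul, hζ.pow_eq_one, one_pow]), ← pow_mul,
      mul_comm]
  have hmod : ∀ n : ℕ, ζ ^ n = ζ ^ (n % 11) := by
    intro n
    conv_lhs => rw [← Nat.mod_add_div n 11, pow_add, pow_mul, hζ.pow_eq_one, one_pow, mul_one]
  have hneg : ∀ j k : ℕ, j + k = 11 → ev (V K x) (ζ ^ j) = ev (V K x) (ζ ^ k) := by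
    intro j k hjk
    rw [hr _ (pow_ne_zero _ hζ0)]
    congr 1
    apply inv_eq_of_mul_eq_one_right
    rw [← pow_add, hjk, hζ.pow_eq_one]
  have a1 := hpp 1
  have a3 := hpp 3
  have a9 := hpp 9
  have a5 := hpp 5
  have b1 := hneg 1 10 rfl
  have b2 := hneg 2 9 rfl
  have b3 := hneg 3 8 rfl
  have b4 := hneg 4 7 rfl
  have b5 := hneg 5 6 rfl
  rw [hmod (3 * 1)] at a1
  rw [hmod (3 * 3)] at a3
  rw [hmod (3 * 9)] at a9
  rw [hmod (3 * 5)] at a5
  simp only [Nat.reduceMul, Nat.reduceMod] at a1 a3 a9 a5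
  refine eleven_closed p hK hc hζ hx fun j hj hj0 => ?_
  have e1 : ζ ^ 1 = ζ := pow_one ζ
  rw [e1] at a1 b1
  interval_cases j
  · exact absurd rfl hj0
  · rw [e1]
  · rw [b2, ← a3, ← a1]
  · rw [← a1]
  · rw [← a5, ← a9, ← a3, ← a1]
  · rw [← a9, ← a3, ← a1]
  · rw [← b5, ← a9, ← a3, ← a1]
  · rw [← b4, ← a5, ← a9, ← a3, ← a1]
  · rw [← b3, ← a1]
  · rw [← a3, ← a1]
  · rw [← b1]

end Cfsg.Agent.H944.E6T

namespace Cfsg.Agent.H944.E6Tw

open Cfsg Cfsg.Lie Module
open Cfsg.Agent.ChevalleyStructure.E6Min.Tables Cfsg.Agent.ChevalleyStructure.E6Min.Basic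
  Cfsg.Agent.ChevalleyStructure.E6Min.Adjoint
open Cfsg.Agent.H163.E6
open Cfsg.Agent.H952.F4 (ev sh cr tf MaxAlt)
open Cfsg.Agent.H952.F4.Jord

universe u

/-! ### vectors `v` with `N(v) ≠ 0` -/

section black

variable {F : Type u} [Field F]

/-- the map `V → V'` given by a vector `v` with `N(v) ≠ 0` -/
def bl (v : I27 → F) : (I27 → F) →ₗ[F] (I27 → F) where
  toFun y := ((cubicT v)⁻¹ * tf (sh v) y) • sh v - cr v y
  map_add' y z := by
    rw [tf_add_right, cr_add_right, mul_add, add_smul]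
    abel
  map_smul' c y := by
    rw [tf_smul_right, cr_smul_right, RingHom.id_apply, smul_sub, smul_smul]
    congr 2
    ring

theorem bl_apply (v y : I27 → F) : bl v y = ((cubicT v)⁻¹ * tf (sh v) y) • sh v - cr v y := rfl

theorem bl_eq_zero {v : I27 → F} (hv : cubicT v ≠ 0) {y : I27 → F} (h : bl v y = 0) : y = 0 := by
  obtain ⟨τ, hτ⟩ : ∃ τ, τ = (cubicT v)⁻¹ * tf (sh v) y := ⟨_, rfl⟩
  rw [bl_apply, ← hτ, sub_eq_zero] at h
  have hNτ : cubicT v * τ = tf (sh v) y := by rw [hτ, ← mul_assoc, mul_inv_cancel₀ hv, one_mul]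
  have h1 := cr_sh_cr v y
  rw [← h, cr_smul_right, cr_self, sh_sh, ← hNτ] at h1
  have h2 : y = τ • v := by
    have h3 : cubicT v • y = cubicT v • (τ • v) := by
      have h4 : cubicT v • y = τ • (2 : F) • cubicT v • v - (cubicT v * τ) • v := by rw [h1]; abel
      rw [h4, smul_smul, smul_smul, smul_smul, ← sub_smul]
      congr 1
      ring
    exact smul_right_injective _ hv h3
  have hsh : sh v ≠ 0 := by
    intro h3
    have h4 := sh_sh v
    have h5 : sh (0 : I27 → F) = 0 := by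
      have := sh_smul (0 : F) (0 : I27 → F)
      rwa [zero_smul, zero_pow (by norm_num), zero_smul] at this
    rw [h3, h5] at h4
    rcases smul_eq_zero.1 h4.symm with h6 | h6
    · exact hv h6
    · apply hv
      rw [h6]
      have := N_smul (0 : F) (0 : I27 → F)
      rwa [zero_smul, zero_pow (by norm_num), zero_mul] at this
  rw [h2, cr_smul_right, cr_self] at h
  have h3 : τ • sh v = 0 := by
    have h4 : τ • sh v = (2 * τ) • sh v := by
      conv_lhs => rw [h]
      rw [smul_smul, mul_comm]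
    rw [two_mul, add_smul] at h4
    exact (left_eq_add.1 h4)
  rcases smul_eq_zero.1 h3 with h4 | h4
  · rw [h2, h4, zero_smul]
  · exact absurd h4 hsh

theorem bl_V {v : I27 → F} {g : ↥(Zgrp F)} (hg : V F g v = v) (y : I27 → F) :
    bl v (V F g y) = V' F g (bl v y) := by
  have h1 : V' F g (sh v) = sh v := by rw [← Act.sh_act, hg]
  have h2 : tf (sh v) (V F g y) = tf (sh v) y := by
    rw [tf_comm, ← h1, Act.tf_act, tf_comm, h1]
  have h3 : cr v (V F g y) = V' F g (cr v y) := by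
    rw [← Act.cr_act, hg]
  rw [bl_apply, bl_apply, map_sub, map_smul, h1, h2, h3]

theorem ev_eq_of_bl {v : I27 → F} (hv : cubicT v ≠ 0) {g : ↥(Zgrp F)} (hg : V F g v = v) (μ : F) :
    ev (V F g) μ = ev (V' F g) μ := by
  have hinj : Function.Injective (bl v) := (injective_iff_map_eq_zero (bl v)).2 fun y hy => bl_eq_zero hv hy
  have hsur : Function.Surjective (bl v) := LinearMap.injective_iff_surjective.1 hinj
  have h1 : (Module.End.eigenspace (V F g) μ).map (bl v) = Module.End.eigenspace (V' F g) μ := by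
    ext w
    rw [Submodule.mem_map, Module.End.mem_eigenspace_iff]
    constructor
    · rintro ⟨y, hy, rfl⟩
      rw [Module.End.mem_eigenspace_iff] at hy
      rw [← bl_V hg, hy, map_smul]
    · intro hw
      obtain ⟨y, rfl⟩ := hsur w
      refine ⟨y, ?_, rfl⟩
      rw [Module.End.mem_eigenspace_iff]
      apply hinj
      rw [bl_V hg, hw, map_smul]
  unfold Cfsg.Agent.H952.F4.ev
  rw [← h1]
  exact (Submodule.equivMapOfInjective (bl v) hinj _).finrank_eq

/-- **an element fixing a vector `v` with `N(v) ≠ 0` is real on `V`** -/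
theorem black_real {v : I27 → F} (hv : cubicT v ≠ 0) {g : ↥(Zgrp F)} (hg : V F g v = v) {μ : F} (hμ : μ ≠ 0) :
    ev (V F g) μ = ev (V F g) μ⁻¹ := by
  rw [ev_eq_of_bl hv hg, Act.ev_dual g hμ]

end black

/-! ### alternating groups of degree at least 11 -/

section alt

open Equiv

/-- the 11-cycle -/
def c11 : Perm (Fin 11) := ⟨fun i => i + 1, fun i => i + 10, by decide, by decide⟩

/-- multiplication by 5 -/
def m5 : Perm (Fin 11) := ⟨fun i => 5 * i, fun i => 9 * i, by decide, by decide⟩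

theorem c11_pow : c11 ^ 11 = 1 := by decide
theorem c11_ne : c11 ≠ 1 := by decide
theorem c11_sq : c11 = c11 ^ 6 * c11 ^ 6 := by
  rw [← pow_add, show 6 + 6 = 11 + 1 from rfl, pow_succ, c11_pow, one_mul]
theorem m5_conj : (m5 * m5) * c11 * (m5 * m5)⁻¹ = c11 ^ 3 := by decide

theorem sign_sq (σ : Perm (Fin 11)) : Perm.sign (σ * σ) = 1 := by
  rw [map_mul, Int.units_mul_self]

theorem exists_eleven {n : ℕ} (hn : 11 ≤ n) : ∃ a h : ↥(alternatingGroup (Fin n)), a ≠ 1 ∧ a ^ 11 = 1 ∧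
    h * a * h⁻¹ = a ^ 3 := by
  obtain ⟨j, hj⟩ := Cfsg.Agent.H163.E6.Two.exists_alt hn
  let a : ↥(alternatingGroup (Fin 11)) := ⟨c11, by rw [Perm.mem_alternatingGroup, c11_sq, sign_sq]⟩
  let h : ↥(alternatingGroup (Fin 11)) := ⟨m5 * m5, by rw [Perm.mem_alternatingGroup, sign_sq]⟩
  refine ⟨j a, j h, ?_, ?_, ?_⟩
  · intro h1
    have h2 : a = 1 := hj (by rw [h1, map_one])
    exact c11_ne (congrArg Subtype.val h2)
  · rw [← map_pow, show a ^ 11 = 1 from Subtype.ext c11_pow, map_one]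
  · rw [← map_inv, ← map_mul, ← map_mul, ← map_pow]
    congr 1
    exact Subtype.ext m5_conj

variable {F : Type u} [Field F] [Finite F]

/-- **The preimage of an alternating group of degree at least 11 does not fix a vector `v` with `N(v) ≠ 0`.** -/
theorem no_black (p : ℕ) [Fact p.Prime] [CharP F p] (hp : p ≠ 11) {n : ℕ} (hn : 11 ≤ n)
    {φ : ↥(alternatingGroup (Fin n)) →* ↥(chevE6.group F)} (hinj : Function.Injective φ) {v : I27 → F}
    (hv : cubicT v ≠ 0) (hfix : ∀ b ∈ Bgrp φ, V F b v = v) : False := by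
  obtain ⟨a, h, ha1, ha11, hah⟩ := exists_eleven hn
  have hA : commutator ↥(alternatingGroup (Fin n)) = ⊤ :=
    commutator_alternatingGroup_eq_top (by rw [Nat.card_eq_fintype_card, Fintype.card_fin]; omega)
  have h1 : φ a ∈ (Bgrp φ).map (ad F) := by
    rw [map_Bgrp hA]
    exact ⟨a, rfl⟩
  obtain ⟨b, hb, hba⟩ := h1
  obtain ⟨g, hg⟩ := ad_surjective (F := F) (φ h)
  obtain ⟨x, hx⟩ : ∃ x, x = b ^ 12 := ⟨_, rfl⟩
  have hxB : x ∈ Bgrp φ := by rw [hx]; exact pow_mem hb 12
  have hadx : ad F x = φ a := by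
    rw [hx, map_pow, hba, ← map_pow, show (12 : ℕ) = 11 + 1 from rfl, pow_succ, ha11, one_mul]
  have hx11 : x ^ 11 = 1 := by
    have h2 : ad F (b ^ 11) = 1 := by rw [map_pow, hba, ← map_pow, ha11, map_one]
    have h3 := (Cfsg.Agent.H65.E6Ext.ker_pow h2).1
    rw [hx, ← pow_mul, show 12 * 11 = 11 * 3 * 4 from rfl, pow_mul, pow_mul, h3, one_pow]
  have hconj : g * x * g⁻¹ = x ^ 3 := by
    obtain ⟨k, hk⟩ : ∃ k, k = (x ^ 3)⁻¹ * (g * x * g⁻¹) := ⟨_, rfl⟩
    have h2 : ad F k = 1 := by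
      have h3 : ad F (g * x * g⁻¹) = ad F (x ^ 3) := by
        rw [map_mul, map_mul, map_inv, hg, map_pow, hadx, ← map_inv, ← map_mul, ← map_mul, hah, map_pow]
      rw [hk, map_mul, map_inv, h3, inv_mul_cancel]
    obtain ⟨h3, h4⟩ := Cfsg.Agent.H65.E6Ext.ker_pow h2
    have h5 : g * x * g⁻¹ = x ^ 3 * k := by rw [hk, mul_inv_cancel_left]
    have h6 : (g * x * g⁻¹) ^ 11 = 1 := by rw [conj_pow, hx11, mul_one, mul_inv_cancel]
    have h7 : (x ^ 3 * k) ^ 11 = (x ^ 3) ^ 11 * k ^ 11 := (show Commute (x ^ 3) k from h4 _).mul_pow 11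
    rw [← h5, h6, ← pow_mul, mul_comm 3 11, pow_mul, hx11, one_pow, one_mul] at h7
    have h8 : k = 1 := by
      have h9 : k ^ 12 = 1 := by rw [show (12 : ℕ) = 3 * 4 from rfl, pow_mul, h3, one_pow]
      rwa [show (12 : ℕ) = 11 + 1 from rfl, pow_succ, ← h7, one_mul] at h9
    rw [h5, h8, mul_one]
  have hch : CharP (AlgebraicClosure F) p := charP_of_injective_algebraMap
    (algebraMap F (AlgebraicClosure F)).injective p
  have hK : Cfsg.Agent.BpExc.TorAll.HAlg p (AlgebraicClosure F) := Cfsg.Agent.H944.RootVals.hAlg_closure p F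
  obtain ⟨f, hf⟩ : ∃ f : F →+* AlgebraicClosure F, f = algebraMap F (AlgebraicClosure F) := ⟨_, rfl⟩
  have hV : V (AlgebraicClosure F) (E6T.jm f x) (fun i => f (v i)) = fun i => f (v i) := by
    have h2 : V (AlgebraicClosure F) (E6T.jm f x) (fun i => f (v i)) = fun i => f (V F x v i) := by
      rw [V_apply, E6T.coe_jm, Cfsg.Agent.H65.E6Emb.map_mulVec]
      rfl
    rw [h2, hfix x hxB]
  have hN : cubicT (fun i => f (v i)) ≠ 0 := by
    rw [Cfsg.Agent.H65.E6Emb.cubicT_map]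
    exact (map_ne_zero f).2 hv
  have h2 := E6T.eleven p hK hp (x := E6T.jm f x) (by rw [← map_pow, hx11, map_one])
    ⟨E6T.jm f g, by rw [← map_inv, ← map_mul, ← map_mul, hconj, map_pow]⟩ (fun μ hμ => black_real hN hV hμ)
  have h3 : x = 1 := E6T.jm_injective f (by rw [h2, map_one])
  apply ha1
  apply hinj
  rw [← hadx, h3, map_one, map_one]

end alt

end Cfsg.Agent.H944.E6Tw
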