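import Mathlib
import Cfsg.Agent.H944.E6TwC
import Cfsg.Agent.H163.E6.Two
import Cfsg.Agent.H65.E6Root
import Cfsg.Agent.S1070

/-!
# `Sit` for `²E₆(q)` from `Tw.no_line` and `Tw.no_fixed` (helper944)

* `centralizer_eq` : `C_G(A) = 1` for `MaxAlt H n φ` in a simple group `G`;
* `no_three_of`, `no_six_of` : the fields `no_three`, `no_six` of `Sit` from the field `no_add`;
* `Tw.golden` : `t² = t + 1` has a root in a field with `q²` elements;
* `Tw.sit_of` : `Sit` and `Twist` for `²E₆(q)`.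
-/

set_option autoImplicit false

namespace Cfsg.Agent.H944.E6Tw

open Cfsg Cfsg.Lie Module
open Cfsg.Agent.ChevalleyStructure.E6Min.Tables Cfsg.Agent.ChevalleyStructure.E6Min.Basic
  Cfsg.Agent.ChevalleyStructure.E6Min.Adjoint
open Cfsg.Agent.H163.E6
open Cfsg.Agent.H952.F4 (ev sh cr tf MaxAlt)

universe u

/-- **The centralizer of the alternating group is trivial.** -/
theorem centralizer_eq {G : Type u} [Group G] [IsSimpleGroup G] {H : Subgroup G} {n : ℕ}
    {φ : ↥(alternatingGroup (Fin n)) →* G} (hM : MaxAlt H n φ) (hn : 5 ≤ n) {z : G} (hz : ∀ a, φ a * z = z * φ a) :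
    z = 1 := by
  have h4 : 4 ≤ Nat.card (Fin n) := by rw [Nat.card_eq_fintype_card, Fintype.card_fin]; omega
  have hnt : Nontrivial ↥(alternatingGroup (Fin n)) :=
    alternatingGroup.nontrivial_of_three_le_card (by rw [Nat.card_eq_fintype_card, Fintype.card_fin]; omega)
  let C : Subgroup G := Subgroup.centralizer (φ.range : Set G)
  have memC : ∀ x, x ∈ C ↔ ∀ a, φ a * x = x * φ a := by
    intro x
    rw [Subgroup.mem_centralizer_iff]
    constructor
    · exact fun h a => h _ ⟨a, rfl⟩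
    · rintro h _ ⟨a, rfl⟩
      exact h a
  have hNle : H ≤ Subgroup.normalizer (φ.range : Set G) := by
    intro h hh
    rw [Subgroup.mem_normalizer_iff]
    intro a
    constructor
    · exact fun ha => hM.norm h hh a ha
    · intro ha
      have h1 := hM.norm h⁻¹ (inv_mem hh) _ ha
      have h2 : h⁻¹ * (h * a * h⁻¹) * h⁻¹⁻¹ = a := by group
      rwa [h2] at h1
  have hCle : C ≤ Subgroup.normalizer (φ.range : Set G) := by
    intro x hx
    rw [memC] at hx
    rw [Subgroup.mem_normalizer_iff]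
    intro a
    constructor
    · rintro ⟨b, rfl⟩
      exact ⟨b, by rw [← hx b, mul_inv_cancel_right]⟩
    · rintro ⟨b, hb⟩
      refine ⟨b, ?_⟩
      have h1 : a = x⁻¹ * (φ b * x) := by rw [hb]; group
      rw [h1, hx b, inv_mul_cancel_left]
  have hN : Subgroup.normalizer (φ.range : Set G) = H := by
    rcases eq_or_lt_of_le hNle with h | h
    · exact h.symm
    · exfalso
      have h1 : φ.range.Normal := Subgroup.normalizer_eq_top_iff.1 (hM.coatom.2 _ h)
      rcases h1.eq_bot_or_eq_top with h2 | h2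
      · obtain ⟨a, ha⟩ := exists_ne (1 : ↥(alternatingGroup (Fin n)))
        apply ha
        apply hM.inj
        have h3 : φ a ∈ φ.range := ⟨a, rfl⟩
        rw [h2, Subgroup.mem_bot] at h3
        rw [h3, map_one]
      · have h3 := hM.le
        rw [h2, top_le_iff] at h3
        exact hM.coatom.1 h3
  have hCH : C ≤ H := hCle.trans hN.le
  by_contra hne
  have hCb : C ≠ ⊥ := by
    intro h
    apply hne
    have h1 : z ∈ C := (memC z).2 hz
    rwa [h, Subgroup.mem_bot] at h1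
  have h1 := hM.min C hCH (by
    intro h hh x hx
    rw [memC] at hx ⊢
    intro a
    obtain ⟨b, hb⟩ := hM.norm h⁻¹ (inv_mem hh) (φ a) ⟨a, rfl⟩
    have h2 : φ a = h * φ b * h⁻¹ := by rw [hb]; group
    rw [h2]
    calc h * φ b * h⁻¹ * (h * x * h⁻¹) = h * (φ b * x) * h⁻¹ := by group
      _ = h * (x * φ b) * h⁻¹ := by rw [hx b]
      _ = h * x * h⁻¹ * (h * φ b * h⁻¹) := by group) hCb
  have h2 : Subgroup.center ↥(alternatingGroup (Fin n)) = ⊤ := by
    rw [eq_top_iff]
    intro x _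
    rw [Subgroup.mem_center_iff]
    intro y
    apply hM.inj
    rw [map_mul, map_mul]
    exact (memC (φ x)).1 (h1 ⟨x, rfl⟩) y
  rw [alternatingGroup.center_eq_bot h4] at h2
  exact bot_ne_top h2

section core

variable {F : Type u} [Field F] {n : ℕ} {φ : ↥(alternatingGroup (Fin n)) →* ↥(chevE6.group F)}

theorem alt_perfect (hn : 5 ≤ n) : commutator ↥(alternatingGroup (Fin n)) = ⊤ :=
  commutator_alternatingGroup_eq_top (by rw [Nat.card_eq_fintype_card, Fintype.card_fin]; exact hn)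

/-- a one-parameter group commuting with the derived subgroup of the preimage -/
theorem false_of_root (hn : 5 ≤ n) (no_add : ∀ a : (I27 → F) →ₗ[F] (I27 → F), a ≠ 0 → (∀ x, a (a x) = 0) →
      (∀ t : F, ∃ g : ↥(Zgrp F), (∀ x, V F g x = x + t • a x) ∧ ∀ b, φ b * ad F g = ad F g * φ b) → False)
    {a : (I27 → F) →ₗ[F] (I27 → F)} (ha : a ≠ 0) (ha2 : ∀ x, a (a x) = 0)
    (hz : ∀ t : F, ∃ z : ↥(Zgrp F), ∀ x, V F z x = x + t • a x)
    (hc : ∀ b ∈ Bgrp φ, ∀ x, V F b (a x) = a (V F b x)) : False := by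
  refine no_add a ha ha2 fun t => ?_
  obtain ⟨z, hz⟩ := hz t
  refine ⟨z, hz, fun b => ?_⟩
  have h1 : φ b ∈ (Bgrp φ).map (ad F) := by
    rw [map_Bgrp (alt_perfect hn)]
    exact ⟨b, rfl⟩
  obtain ⟨c, hcB, hcb⟩ := h1
  rw [← hcb, ← map_mul, ← map_mul]
  congr 1
  apply Cfsg.Agent.H65.E6Ext.V_injective
  intro x
  rw [map_mul, map_mul]
  show V F c (V F z x) = V F z (V F c x)
  rw [hz, hz, map_add, map_smul, hc c hcB]

theorem no_six_of (hn : 5 ≤ n) (no_add : ∀ a : (I27 → F) →ₗ[F] (I27 → F), a ≠ 0 → (∀ x, a (a x) = 0) →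
      (∀ t : F, ∃ g : ↥(Zgrp F), (∀ x, V F g x = x + t • a x) ∧ ∀ b, φ b * ad F g = ad F g * φ b) → False)
    (ρ : Representation F ↥(Zgrp F) (I27 → F)) (hρ : ρ = V F ∨ ρ = V' F) (W : Submodule F (I27 → F))
    (hst : Stab ρ φ.range W) (h6 : finrank F ↥W = 6) : ¬ TS W := by
  intro hW
  obtain ⟨a, h1, h2, h3, h4⟩ := Cfsg.Agent.H65.E6Root.six_root ρ hρ (Bgrp_perfect (alt_perfect hn) φ) h6 hW
    (fun b hb w hw => hst b (Bgrp_le φ hb) w hw)
  exact false_of_root hn no_add h1 h2 h3 h4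

theorem no_three_of (hn : 5 ≤ n) (hinj : Function.Injective φ)
    (no_add : ∀ a : (I27 → F) →ₗ[F] (I27 → F), a ≠ 0 → (∀ x, a (a x) = 0) →
      (∀ t : F, ∃ g : ↥(Zgrp F), (∀ x, V F g x = x + t • a x) ∧ ∀ b, φ b * ad F g = ad F g * φ b) → False)
    (h2 : n ≠ 5 ∨ (2 : F) ≠ 0)
    (ρ : Representation F ↥(Zgrp F) (I27 → F)) (hρ : ρ = V F ∨ ρ = V' F) (W : Submodule F (I27 → F))
    (hst : Stab ρ φ.range W) (h3 : finrank F ↥W = 3) : ¬ TS W := by
  intro hW
  have hA := alt_perfect hn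
  let e : ↥(alternatingGroup (Fin n)) ≃* φ.range := MonoidHom.ofInjective hinj
  have hmem : ∀ b : ↥(Bgrp φ), ad F (b : ↥(Zgrp F)) ∈ φ.range := fun b => Bgrp_le φ b.2
  let π : ↥(Bgrp φ) →* ↥(alternatingGroup (Fin n)) :=
    e.symm.toMonoidHom.comp (((ad F).comp (Bgrp φ).subtype).codRestrict φ.range hmem)
  have hπ : ∀ b, φ (π b) = ad F (b : ↥(Zgrp F)) := by
    intro b
    have h1 : (e (π b) : ↥(chevE6.group F)) = ad F (b : ↥(Zgrp F)) := by
      show ((e (e.symm _) : φ.range) : ↥(chevE6.group F)) = _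
      rw [MulEquiv.apply_symm_apply]
      rfl
    exact h1
  have hB : commutator ↥(Bgrp φ) = ⊤ := by
    have h1 := Bgrp_perfect hA φ
    rw [eq_top_iff]
    intro b _
    have h3 : (commutator ↥(Bgrp φ)).map (Bgrp φ).subtype = Bgrp φ := by
      rw [commutator_def, Subgroup.map_commutator, ← MonoidHom.range_eq_map, Subgroup.range_subtype, h1]
    have h4 : (b : ↥(Zgrp F)) ∈ (commutator ↥(Bgrp φ)).map (Bgrp φ).subtype := by rw [h3]; exact b.2
    obtain ⟨c, hc, hcb⟩ := h4
    have h5 : c = b := Subtype.ext hcb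
    rwa [← h5]
  have hs : Function.Surjective π := by
    intro x
    have h1 : φ x ∈ (Bgrp φ).map (ad F) := by
      rw [map_Bgrp hA]
      exact ⟨x, rfl⟩
    obtain ⟨c, hc, hcx⟩ := h1
    exact ⟨⟨c, hc⟩, hinj (by rw [hπ]; exact hcx)⟩
  have hk : ∀ b, π b = 1 → b ∈ Subgroup.center ↥(Bgrp φ) ∧ b ^ 3 = 1 := by
    intro b hb
    have h1 : ad F (b : ↥(Zgrp F)) = 1 := by rw [← hπ, hb, map_one]
    obtain ⟨h3, h4⟩ := Cfsg.Agent.H65.E6Ext.ker_pow h1
    refine ⟨?_, Subtype.ext h3⟩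
    rw [Subgroup.mem_center_iff]
    exact fun x => Subtype.ext (h4 x)
  obtain ⟨a, h4, h5, h6, h7⟩ := Cfsg.Agent.H65.E6Root.three_root ρ hρ
    (fun θ b => Cfsg.Agent.H163.E6.Two.hom_eq_one hB hn h2 π hs hk θ b) h3 hW
    (fun b hb w hw => hst b (Bgrp_le φ hb) w hw)
  exact false_of_root hn no_add h4 h5 h6 h7

end core

end Cfsg.Agent.H944.E6Tw

namespace Cfsg.Agent.H163.E6.Tw

open Cfsg Cfsg.Lie Module
open Cfsg.Agent.ChevalleyStructure
open Cfsg.Agent.ChevalleyStructure.E6Min.Tables Cfsg.Agent.ChevalleyStructure.E6Min.Basic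
  Cfsg.Agent.ChevalleyStructure.E6Min.Adjoint
open Cfsg.Agent.H952.F4 (ev sh cr tf MaxAlt)
open Cfsg.Agent.H944.E6Tw

universe u

variable {K : Type u} [Field K] [Fintype K] {q : ℕ}

/-- `t² = t + 1` has a root in a field with `q²` elements -/
theorem golden (hq : IsPrimePow q) (hK : Fintype.card K = q ^ 2) : ∃ t : K, t * t = t + 1 := by
  classical
  obtain ⟨φ, hφ, hqq⟩ := TwE6Basic.exists_frob hq hK
  by_cases h2 : (2 : K) = 0
  · -- characteristic 2: primitive third roots of unity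
    have hchar : ringChar K = 2 := by
      have h3 := CharP.ringChar_of_prime_eq_zero Nat.prime_two (R := K) (by exact_mod_cast h2)
      exact h3
    have hcard : 3 ∣ Fintype.card Kˣ := by
      rw [Fintype.card_units, hK]
      have h3 : ¬ 3 ∣ q := by
        intro h3
        obtain ⟨p, k, hp, hk, rfl⟩ := (isPrimePow_nat_iff _).1 hq
        have h4 : 3 = p := (Nat.prime_dvd_prime_iff_eq Nat.prime_three hp).1 (Nat.prime_three.dvd_of_dvd_pow h3)
        subst h4
        have h5 : ((Fintype.card K : ℕ) : K) = 0 := FiniteField.cast_card_eq_zero K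
        rw [hK] at h5
        have h6 : (3 : K) = 0 := by
          have : ((3 : ℕ) : K) ^ (k * 2) = 0 := by
            rw [← h5]
            push_cast
            rw [pow_mul]
          exact_mod_cast pow_eq_zero_iff (by omega) |>.1 this
        exact one_ne_zero (α := K) (by linear_combination h6 - h2)
      have h4 : q % 3 = 1 ∨ q % 3 = 2 := by omega
      have h5 : q ^ 2 % 3 = 1 := by
        rcases h4 with h | h <;> simp [Nat.pow_mod, h]
      have hq1 : 1 ≤ q ^ 2 := Nat.one_le_pow _ _ hq.pos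
      omega
    have : Fact (Nat.Prime 3) := ⟨Nat.prime_three⟩
    obtain ⟨x, hx⟩ := exists_prime_orderOf_dvd_card 3 hcard
    refine ⟨(x : K), ?_⟩
    have h3 : (x : K) ^ 3 = 1 := by
      have h4 := pow_orderOf_eq_one x
      rw [hx] at h4
      rw [← Units.val_pow_eq_pow_val, h4, Units.val_one]
    have h4 : (x : K) ≠ 1 := by
      intro h
      have h5 : x = 1 := Units.ext h
      rw [h5, orderOf_one] at hx
      norm_num at hx
    have h5 : ((x : K) - 1) * ((x : K) * x + x + 1) = 0 := by linear_combination h3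
    rcases mul_eq_zero.1 h5 with h6 | h6
    · exact absurd (sub_eq_zero.1 h6) h4
    · linear_combination h6 - ((x : K) + 1) * h2
  · -- 5 is a square
    have hodd : ringChar K ≠ 2 := by
      intro h
      apply h2
      have := ringChar.Nat.cast_ringChar (R := K)
      rw [h] at this
      exact_mod_cast this
    obtain ⟨s, hs⟩ : IsSquare (5 : K) := by
      by_cases h5 : (5 : K) = 0
      · exact ⟨0, by rw [h5, mul_zero]⟩
      · rw [FiniteField.isSquare_iff hodd h5, hK]
        have h6 : (5 : K) ^ q = 5 := by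
          rw [← hφ]
          exact map_ofNat φ 5
        have h7 : (5 : K) ^ (q - 1) = 1 := by
          have h8 : (5 : K) ^ (q - 1) * 5 = 1 * 5 := by
            rw [← pow_succ, Nat.sub_add_cancel hq.pos, h6, one_mul]
          exact mul_right_cancel₀ h5 h8
        have h9 : Odd q := by
          rw [← Nat.not_even_iff_odd]
          intro he
          have h11 : Fintype.card K % 2 = 1 := FiniteField.odd_card_of_char_ne_two hodd
          rw [hK] at h11
          have : q ^ 2 % 2 = 0 := by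
            obtain ⟨k, hk⟩ := he
            rw [hk, pow_two]
            have : (k + k) * (k + k) = 2 * (2 * k * k) := by ring
            omega
          omega
        obtain ⟨k, hk⟩ := h9
        have h10 : q ^ 2 / 2 = (q - 1) * (k + 1) := by
          rw [hk]
          have e1 : (2 * k + 1) ^ 2 = 2 * (2 * k * (k + 1)) + 1 := by ring
          have e2 : 2 * k + 1 - 1 = 2 * k := by omega
          rw [e1, e2]
          omega
        rw [h10, pow_mul, h7, one_pow]
    refine ⟨(1 + s) / 2, ?_⟩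
    field_simp
    linear_combination -hs

variable {H : Subgroup ↥(Cfsg.Lie.twistedE6 K q)} {n : ℕ} {ψ : ↥(alternatingGroup (Fin n)) →* ↥(Cfsg.Lie.twistedE6 K q)}

/-- **`Sit` and `Twist` for `²E₆(q)`.** -/
theorem sit_of (hq : IsPrimePow q) (hK : Fintype.card K = q ^ 2) (hM : MaxAlt H n ψ) (hn : 5 ≤ n)
    (hfix : ∀ ψ' : ↥(alternatingGroup (Fin n)) →* ↥(Zgrp K), Lift ((incl K q).comp ψ) ψ' →
      Representation.invariants (MonoidHom.comp (V K) ψ') = ⊥ ∧
        Representation.invariants (MonoidHom.comp (V' K) ψ') = ⊥)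
    (hline : ∀ ρ : Representation K ↥(Zgrp K) (I27 → K), (ρ = V K ∨ ρ = V' K) → ∀ W : Submodule K (I27 → K),
      Stab ρ (H.map (incl K q)) W → finrank K ↥W ≠ 1) :
    Sit (H.map (incl K q)) n ((incl K q).comp ψ) ∧ Twist q ((incl K q).comp ψ) := by
  have hsim : IsSimpleGroup ↥(Cfsg.Lie.twistedE6 K q) := (Cfsg.Agent.S1070.result hq hK).1
  obtain ⟨φ, hφ, hqq⟩ := TwE6Basic.exists_frob hq hK
  have hA := alt_perfect hn
  have hinj : Function.Injective ((incl K q).comp ψ) := (incl_injective K q).comp hM.inj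
  have no_add : ∀ a : (I27 → K) →ₗ[K] (I27 → K), a ≠ 0 → (∀ x, a (a x) = 0) →
      (∀ t : K, ∃ g : ↥(Zgrp K), (∀ x, V K g x = x + t • a x) ∧
        ∀ b, ((incl K q).comp ψ) b * ad K g = ad K g * ((incl K q).comp ψ) b) → False := by
    intro a ha ha2 h
    refine kill hq hK hφ hqq (A := ((incl K q).comp ψ).range) ?_ ?_ ha ha2 ?_
    · rintro _ ⟨b, rfl⟩
      exact (ψ b).2
    · intro y hy hc
      have h1 : (⟨y, hy⟩ : ↥(Cfsg.Lie.twistedE6 K q)) = 1 := by
        refine centralizer_eq hM hn fun b => ?_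
        apply incl_injective K q
        rw [map_mul, map_mul]
        exact hc _ ⟨b, rfl⟩
      have h2 := congrArg (fun z : ↥(Cfsg.Lie.twistedE6 K q) => (z : GL chevE6.Idx K)) h1
      exact Subtype.ext h2
    · intro t
      obtain ⟨g, h1, h2⟩ := h t
      refine ⟨g, h1, ?_⟩
      rintro _ ⟨b, rfl⟩
      exact h2 b
  refine ⟨⟨hinj, ?_, ?_, ?_, ?_, ?_, ?_, hfix, hline, ?_, ?_, ?_, no_add⟩, twist hq hK hA ψ⟩
  · rintro _ ⟨a, rfl⟩
    exact ⟨ψ a, hM.le ⟨a, rfl⟩, rfl⟩
  · rintro _ ⟨h, hh, rfl⟩ _ ⟨a, rfl⟩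
    obtain ⟨b, hb⟩ := hM.norm h hh (ψ a) ⟨a, rfl⟩
    exact ⟨b, by rw [MonoidHom.comp_apply, hb, map_mul, map_mul, map_inv]; rfl⟩
  · rintro _ ⟨h, hh, rfl⟩
    obtain ⟨b, hb⟩ := hM.sq h hh
    exact ⟨b, by rw [MonoidHom.comp_apply, hb, map_mul]⟩
  · rw [Nat.card_congr (H.equivMapOfInjective _ (incl_injective K q)).symm.toEquiv]
    exact hM.card
  · intro h5
    rcases hM.five h5 with h | h
    · left
      rw [MonoidHom.range_comp, h]
    · right
      rintro _ ⟨a, rfl⟩ ha1 ha5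
      obtain ⟨x, hx, h1⟩ := h (ψ a) ⟨a, rfl⟩ (fun h0 => ha1 (by rw [MonoidHom.comp_apply, h0, map_one]))
        (incl_injective K q (by rw [map_pow, map_one]; exact ha5))
      exact ⟨incl K q x, ⟨x, hx, rfl⟩, by
        rw [MonoidHom.comp_apply, ← map_inv, ← map_mul, ← map_mul, h1, map_pow]⟩
  · rintro _ ⟨h, hh, rfl⟩ hc
    have h1 : h = 1 := centralizer_eq hM hn fun a => incl_injective K q (by rw [map_mul, map_mul]; exact hc a)
    rw [h1, map_one]
  · exact fun h2 ρ hρ W hst h3 => no_three_of hn hinj no_add h2 ρ hρ W hst h3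
  · intro _ ht
    obtain ⟨t, h⟩ := golden hq hK
    exact absurd h (ht t)
  · exact fun ρ hρ W hst h6 => no_six_of hn no_add ρ hρ W hst h6

end Cfsg.Agent.H163.E6.Tw
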