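import Mathlib
import Cfsg.Agent.H944.E6TwD
import Cfsg.Agent.H944.E6Elev
import Cfsg.Agent.H927.E6Cnt

/-!
# `²E₆(q)`: no stable lines, no fixed vectors (helper944)

* `eq_zero_of_Gs` : no line of `V` is stable under `Gs φ`;
* `count_le` : if the line of `v` is stable under a maximal subgroup `H` and `X` is a `Gs φ`-stable finite set containing
  `v`, then `|²E₆(q)| ≤ |H| |X|`;
* `no_fixed_of` : no fixed vectors, from the absence of stable lines (any `H`; after helper927).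
-/

set_option autoImplicit false

namespace Cfsg.Agent.H944.E6Tw

open Cfsg Cfsg.Lie Module
open scoped Matrix
open Cfsg.Agent.ChevalleyStructure
open Cfsg.Agent.ChevalleyStructure.E6Min.Tables Cfsg.Agent.ChevalleyStructure.E6Min.Basic
  Cfsg.Agent.ChevalleyStructure.E6Min.Adjoint
open Cfsg.Agent.H163.E6
open Cfsg.Agent.H952.F4 (ev sh cr tf MaxAlt)
open Cfsg.Agent.H952.F4.Jord
open Cfsg.Agent.H952.F4.MaxA (LS VS mem_LS mem_VS comm_mem rmul rinv)

universe u

section lines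

variable {F : Type u} [Field F] {φ : F →+* F} {q : ℕ}

theorem V_zZ {r : ℕ} (hr : r < 72) (t : F) (v : I27 → F) : V F (zZ r t) v = v + t • (Nm F r *ᵥ v) := by
  rw [V_apply]
  show ((zU r t : GL I27 F) : Matrix I27 I27 F) *ᵥ v = _
  rw [coe_zU hr, zM_def, Matrix.add_mulVec, Matrix.one_mulVec, Matrix.smul_mulVec]

theorem zZ_mem_Gs (hφ : ∀ t, φ t = t ^ q) {t : F} (ht : t ^ q = t) {r : ℕ} (hr : r ∈ [46, 25, 39, 32]) :
    zZ r t ∈ Gs φ := by
  have hr' : r < 72 ∧ (r, r) ∈ [(46, 46), (25, 25), (39, 39), (32, 32), (56, 36), (36, 56), (15, 35), (35, 15),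
      (42, 37), (37, 42), (29, 34), (34, 29)] := by
    simp only [List.mem_cons, List.not_mem_nil, or_false] at hr
    rcases hr with rfl | rfl | rfl | rfl <;> decide
  apply Subtype.ext
  show sZ φ (zU r t) = zU r t
  have := sZ_simple φ hr'.2 t
  simp only at this
  rw [this, hφ, ht]

theorem zZ_pair_mem_Gs (hφ : ∀ t, φ t = t ^ q) (hqq : ∀ t : F, (t ^ q) ^ q = t) (t : F) {rs : ℕ × ℕ}
    (hr : rs ∈ [(56, 36), (15, 35), (42, 37), (29, 34)]) : zZ rs.1 t * zZ rs.2 (t ^ q) ∈ Gs φ := by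
  have hr' : rs ∈ [(46, 46), (25, 25), (39, 39), (32, 32), (56, 36), (36, 56), (15, 35),
      (35, 15), (42, 37), (37, 42), (29, 34), (34, 29)] ∧ (rs.2, rs.1) ∈ [(46, 46), (25, 25), (39, 39), (32, 32),
      (56, 36), (36, 56), (15, 35), (35, 15), (42, 37), (37, 42), (29, 34), (34, 29)] ∧
      rs ∈ [(56, 36), (15, 35), (42, 37), (29, 34), (56, 35), (15, 36), (42, 34), (29, 37)] := by
    simp only [List.mem_cons, List.not_mem_nil, or_false] at hr
    rcases hr with rfl | rfl | rfl | rfl <;> decide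
  obtain ⟨h3, h4, h5⟩ := hr'
  apply Subtype.ext
  show sZ φ (zU rs.1 t * zU rs.2 (t ^ q)) = zU rs.1 t * zU rs.2 (t ^ q)
  have e4 := sZ_simple φ h4 (t ^ q)
  simp only at e4
  rw [map_mul, sZ_simple φ h3 t, e4, hφ, hφ, hqq]
  exact (zU_comm h5 t (t ^ q)).symm

/-- every coordinate is moved by one of the twelve roots -/
theorem cover_all : ∀ y : I27, ∃ r ∈ [46, 25, 39, 32, 56, 36, 15, 35, 42, 37, 29, 34], ∃ x : I27,
    sg r x ≠ 0 ∧ sr r x = y := by decide +kernel

theorem eq_zero_of_twelve {v : I27 → F}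
    (h : ∀ r ∈ [46, 25, 39, 32, 56, 36, 15, 35, 42, 37, 29, 34], Nm F r *ᵥ v = 0) : v = 0 := by
  funext y
  obtain ⟨r, hr, x, h1, h2⟩ := cover_all y
  have h3 := congrFun (h r hr) x
  have h4 : (Nm F r *ᵥ v) x = ((sg r x : ℤ) : F) * v (sr r x) := by
    rw [Matrix.mulVec, dotProduct, Finset.sum_eq_single (sr r x)]
    · rw [Nm_apply, if_pos rfl]
    · intro z _ hz
      rw [Nm_apply, if_neg (by tauto), zero_mul]
    · intro h; exact absurd (Finset.mem_univ _) h
  rw [h4, h2, Pi.zero_apply] at h3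
  rcases mul_eq_zero.1 h3 with h5 | h5
  · exact absurd h5 (E6T.sg_cast_ne_zero h1)
  · exact h5

/-- nilpotent operators have no non-zero eigenvalue -/
theorem eig_zero {M : Type*} [AddCommGroup M] [Module F M] {T : M →ₗ[F] M} {v : M} (hv : v ≠ 0)
    (h3 : T (T (T v)) = 0) {c : F} (hc : T v = c • v) : T v = 0 := by
  rw [hc, map_smul, map_smul, hc, map_smul, hc, smul_smul, smul_smul] at h3
  rcases smul_eq_zero.1 h3 with h | h
  · have h1 : c ^ 3 = 0 := by linear_combination h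
    have h2 : c = 0 := (pow_eq_zero_iff (by norm_num)).1 h1
    rw [hc, h2, zero_smul]
  · exact absurd h hv

/-- **no line of `V` is stable under `Gs φ`** -/
theorem eq_zero_of_Gs [Fintype F] (hq : IsPrimePow q) (hF : Fintype.card F = q ^ 2) (hφ : ∀ t, φ t = t ^ q)
    (hqq : ∀ t : F, (t ^ q) ^ q = t) {v : I27 → F} (hv : ∀ g ∈ Gs φ, ∃ c : F, V F g v = c • v) : v = 0 := by
  by_contra hv0
  -- a value with `t ^ q ≠ t`
  obtain ⟨t0, ht0⟩ : ∃ t : F, t ^ q ≠ t := by
    classical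
    by_contra hne
    push Not at hne
    have hq1 : 1 < q := hq.one_lt
    have hroots : (Polynomial.X ^ q - Polynomial.X : Polynomial F) ≠ 0 := FiniteField.X_pow_card_sub_X_ne_zero F hq1
    have h1 : Fintype.card F ≤ (Polynomial.X ^ q - Polynomial.X : Polynomial F).natDegree := by
      have h2 : (Finset.univ : Finset F) ⊆ (Polynomial.X ^ q - Polynomial.X : Polynomial F).roots.toFinset := by
        intro t _
        rw [Multiset.mem_toFinset, Polynomial.mem_roots hroots, Polynomial.IsRoot.def, Polynomial.eval_sub,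
          Polynomial.eval_pow, Polynomial.eval_X, hne, sub_self]
      calc Fintype.card F = (Finset.univ : Finset F).card := (Finset.card_univ).symm
        _ ≤ _ := Finset.card_le_card h2
        _ ≤ _ := Multiset.toFinset_card_le _
        _ ≤ _ := Polynomial.card_roots' _
    rw [FiniteField.X_pow_card_sub_X_natDegree_eq F hq1, hF] at h1
    nlinarith
  have hsq : ∀ r < 72, ∀ w : I27 → F, Nm F r *ᵥ (Nm F r *ᵥ w) = 0 := by
    intro r hr w
    rw [Matrix.mulVec_mulVec, Nm_sq hr, Matrix.zero_mulVec]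
  have hsingle : ∀ r ∈ [46, 25, 39, 32], Nm F r *ᵥ v = 0 := by
    intro r hr
    have hr' : r < 72 := by
      simp only [List.mem_cons, List.not_mem_nil, or_false] at hr
      omega
    obtain ⟨c, hc⟩ := hv _ (zZ_mem_Gs hφ (one_pow q) hr)
    rw [V_zZ hr', one_smul] at hc
    have h1 : Matrix.toLin' (Nm F r) v = (c - 1) • v := by
      rw [Matrix.toLin'_apply, sub_smul, one_smul, ← hc]
      abel
    refine eig_zero (T := Matrix.toLin' (Nm F r)) hv0 ?_ h1
    rw [Matrix.toLin'_apply, Matrix.toLin'_apply, Matrix.toLin'_apply, hsq r hr']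
  have hpair : ∀ rs ∈ [(56, 36), (15, 35), (42, 37), (29, 34)], Nm F rs.1 *ᵥ v = 0 ∧ Nm F rs.2 *ᵥ v = 0 := by
    intro rs hrs
    have hr' : rs.1 < 72 ∧ rs.2 < 72 ∧ rs ∈ [(56, 36), (15, 35), (42, 37), (29, 34), (56, 35), (15, 36), (42, 34),
        (29, 37)] := by
      simp only [List.mem_cons, List.not_mem_nil, or_false] at hrs
      rcases hrs with rfl | rfl | rfl | rfl <;> decide
    obtain ⟨ha, hb, hl⟩ := hr'
    obtain ⟨k1, k2, k3, k4⟩ := comm_all rs hl
    have hcomm : ∀ w : I27 → F, Nm F rs.1 *ᵥ (Nm F rs.2 *ᵥ w) = Nm F rs.2 *ᵥ (Nm F rs.1 *ᵥ w) := by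
      intro w
      rw [Matrix.mulVec_mulVec, Matrix.mulVec_mulVec, Nm_comm_of_none (F := F) ha hb k1 k4]
    obtain ⟨A, hA⟩ : ∃ A, A = Matrix.toLin' (Nm F rs.1) := ⟨_, rfl⟩
    obtain ⟨B, hB⟩ : ∃ B, B = Matrix.toLin' (Nm F rs.2) := ⟨_, rfl⟩
    have hAA : ∀ w, A (A w) = 0 := fun w => by rw [hA, Matrix.toLin'_apply, Matrix.toLin'_apply, hsq _ ha]
    have hBB : ∀ w, B (B w) = 0 := fun w => by rw [hB, Matrix.toLin'_apply, Matrix.toLin'_apply, hsq _ hb]
    have hAB : ∀ w, A (B w) = B (A w) := fun w => by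
      rw [hA, hB]
      simp only [Matrix.toLin'_apply]
      exact hcomm w
    have key : ∀ t : F, t • A v + t ^ q • B v + (t * t ^ q) • A (B v) = 0 := by
      intro t
      obtain ⟨c, hc⟩ := hv _ (zZ_pair_mem_Gs hφ hqq t hrs)
      rw [map_mul, Module.End.mul_apply, V_zZ hb, V_zZ ha] at hc
      let T : (I27 → F) →ₗ[F] (I27 → F) := t • A + t ^ q • B + (t * t ^ q) • (A ∘ₗ B)
      have hTa : ∀ w, T w = t • A w + t ^ q • B w + (t * t ^ q) • A (B w) := fun w => rfl
      have h1 : T v = (c - 1) • v := by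
        rw [hTa, sub_smul, one_smul, ← hc, hA, hB]
        simp only [Matrix.toLin'_apply, Matrix.mulVec_add, Matrix.mulVec_smul, smul_add, smul_smul]
        abel
      have h2 : T (T (T v)) = 0 := by
        simp only [hTa, map_add, map_smul, hAA, hBB, hAB, smul_zero, add_zero, zero_add, map_zero]
      exact eig_zero hv0 h2 h1
    have hC : A (B v) = 0 := by
      have h1 := congrArg A (key 1)
      simp only [one_pow, one_smul, mul_one, map_add, hAA, map_zero, zero_add, add_zero] at h1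
      exact h1
    have h2 : ∀ t : F, t • A v + t ^ q • B v = 0 := by
      intro t
      have := key t
      rwa [hC, smul_zero, add_zero] at this
    have h3 := h2 1
    rw [one_pow, one_smul, one_smul] at h3
    have h4 : B v = -A v := by rw [eq_neg_iff_add_eq_zero, add_comm]; exact h3
    have h5 := h2 t0
    rw [h4, smul_neg, ← sub_eq_add_neg, ← sub_smul] at h5
    have h6 : A v = 0 := by
      rcases smul_eq_zero.1 h5 with h | h
      · exact absurd (sub_eq_zero.1 h).symm ht0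
      · exact h
    have h7 : B v = 0 := by rw [h4, h6, neg_zero]
    rw [hA, Matrix.toLin'_apply] at h6
    rw [hB, Matrix.toLin'_apply] at h7
    exact ⟨h6, h7⟩
  apply hv0
  apply eq_zero_of_twelve
  intro r hr
  have h56 := hpair (56, 36) (by decide)
  have h15 := hpair (15, 35) (by decide)
  have h42 := hpair (42, 37) (by decide)
  have h29 := hpair (29, 34) (by decide)
  simp only [List.mem_cons, List.not_mem_nil, or_false] at hr
  rcases hr with rfl | rfl | rfl | rfl | rfl | rfl | rfl | rfl | rfl | rfl | rfl | rfl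
  · exact hsingle 46 (by decide)
  · exact hsingle 25 (by decide)
  · exact hsingle 39 (by decide)
  · exact hsingle 32 (by decide)
  · exact h56.1
  · exact h56.2
  · exact h15.1
  · exact h15.2
  · exact h42.1
  · exact h42.2
  · exact h29.1
  · exact h29.2

end lines

section counting

variable {F : Type u} [Field F] [Fintype F] {φ : F →+* F} {q : ℕ}

/-- the orbit of a vector has at most `|X|` elements -/
theorem card_le_orbit {G V : Type*} [Group G] [Finite G] {F : Type*} [Field F] [AddCommGroup V] [Module F V]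
    (ρ : Representation F G V) (v : V) (X : Set V) [Finite X] (hX : ∀ g, ρ g v ∈ X) :
    Nat.card G ≤ Nat.card ↥(VS ρ v) * Nat.card X := by
  rw [← Subgroup.card_mul_index (VS ρ v)]
  refine Nat.mul_le_mul_left _ ?_
  let f : G ⧸ VS ρ v → X := Quotient.lift (fun g => (⟨ρ g v, hX g⟩ : X)) (by
    intro a b hab
    have h1 : a⁻¹ * b ∈ VS ρ v := QuotientGroup.leftRel_apply.1 hab
    rw [mem_VS, rmul] at h1
    apply Subtype.ext
    show ρ a v = ρ b v
    have h2 : ρ a (ρ a⁻¹ (ρ b v)) = ρ a v := by rw [h1]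
    rw [← rmul, mul_inv_cancel, map_one] at h2
    exact h2.symm)
  have hf : Function.Injective f := by
    intro a b hab
    induction a using QuotientGroup.induction_on with
    | H a =>
      induction b using QuotientGroup.induction_on with
      | H b =>
        have h1 : ρ a v = ρ b v := congrArg Subtype.val hab
        rw [QuotientGroup.eq, mem_VS, rmul, ← h1, rinv]
  exact Nat.card_le_card_of_injective f hf

theorem scal_smul {z : ↥(Zgrp F)} (hz : ad F z = 1) : ∃ c : F, c ≠ 0 ∧ ∀ x, V F z x = c • x := by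
  obtain ⟨c, hc0, -, hc⟩ := Cfsg.Agent.H163.E6.Cnt.ker_scalar (Or.inl rfl) hz
  exact ⟨c, hc0, hc⟩

variable {H : Subgroup ↥(Cfsg.Lie.twistedE6 F q)} {n : ℕ} {ψ : ↥(alternatingGroup (Fin n)) →* ↥(Cfsg.Lie.twistedE6 F q)}

/-- the counting lemma -/
theorem count_le (hq : IsPrimePow q) (hF : Fintype.card F = q ^ 2) (hφ : ∀ t, φ t = t ^ q)
    (hqq : ∀ t : F, (t ^ q) ^ q = t) (hH : IsCoatom H) {v : I27 → F} (hv0 : v ≠ 0)
    (hv : ∀ g ∈ Gs φ, ad F g ∈ H.map (Tw.incl F q) → ∃ c : F, V F g v = c • v) (X : Set (I27 → F))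
    (hX : ∀ g ∈ Gs φ, V F g v ∈ X) :
    Nat.card ↥(Cfsg.Lie.twistedE6 F q) ≤ Nat.card ↥H * Nat.card X := by
  have hfin : Finite ↥(Zgrp F) := inferInstance
  -- the line stabilizer
  let S : Subgroup ↥(Cfsg.Lie.twistedE6 F q) := ((Gs φ ⊓ LS (V F) v).map (ad F)).comap (Tw.incl F q)
  have hunit : ∀ {g : ↥(Zgrp F)} {c : F}, V F g v = c • v → g ∈ LS (V F) v := by
    intro g c hc
    have hc0 : c ≠ 0 := by
      rintro rfl
      rw [zero_smul] at hc
      apply hv0
      rw [← rinv (V F) g v, hc, map_zero]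
    exact ⟨Units.mk0 c hc0, hc⟩
  have hHS : H ≤ S := by
    intro y hy
    obtain ⟨g, hg, hgy⟩ := exists_Gs φ hφ hqq y.2
    have h1 : ad F g = Tw.incl F q y := Subtype.ext hgy
    obtain ⟨c, hc⟩ := hv g hg ⟨y, hy, h1.symm⟩
    exact ⟨g, ⟨hg, hunit hc⟩, h1⟩
  have hS : S = H := by
    rcases eq_or_lt_of_le hHS with h | h
    · exact h.symm
    · exfalso
      have h1 : S = ⊤ := hH.2 _ h
      apply hv0
      refine eq_zero_of_Gs hq hF hφ hqq fun g hg => ?_
      have h2 := Gs_le_Gl hq hF hφ hqq hg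
      rw [mem_Gl] at h2
      have h3 : (⟨_, h2⟩ : ↥(Cfsg.Lie.twistedE6 F q)) ∈ S := by rw [h1]; trivial
      obtain ⟨g', ⟨-, c, hc⟩, hg'⟩ := h3
      have h4 : ad F g' = ad F g := Subtype.ext (congrArg (fun y : ↥(chevE6.group F) => (y : GL chevE6.Idx F)) hg')
      obtain ⟨d, -, hd⟩ := scal_smul (z := g'⁻¹ * g) (by rw [map_mul, map_inv, h4, inv_mul_cancel])
      refine ⟨d * c, ?_⟩
      have h5 : g = g' * (g'⁻¹ * g) := by rw [mul_inv_cancel_left]
      rw [h5, rmul, hd, map_smul, hc, smul_smul]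
  -- the stabilizer of the vector
  let ρ : Representation F ↥(Gs φ) (I27 → F) := MonoidHom.comp (V F) (Gs φ).subtype
  have h1 := card_le_orbit ρ v X (fun g => hX g g.2)
  have hinj : Nat.card ↥(VS ρ v) ≤ Nat.card ↥H := by
    have key : ∀ g : ↥(VS ρ v), ∃ y ∈ H, Tw.incl F q y = ad F (g : ↥(Gs φ)) := by
      rintro ⟨⟨g, hg⟩, hgv⟩
      have h2 := Gs_le_Gl hq hF hφ hqq hg
      rw [mem_Gl] at h2
      refine ⟨⟨_, h2⟩, ?_, Subtype.ext rfl⟩
      rw [← hS]
      have h3 : V F g v = (1 : F) • v := by rw [one_smul]; exact hgv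
      exact ⟨g, ⟨hg, hunit h3⟩, Subtype.ext rfl⟩
    choose f hf hf' using key
    refine Nat.card_le_card_of_injective (fun g => (⟨f g, hf g⟩ : ↥H)) ?_
    rintro g g' hgg
    have h2 : f g = f g' := congrArg Subtype.val hgg
    have h3 : ad F ((g : ↥(Gs φ)) : ↥(Zgrp F)) = ad F ((g' : ↥(Gs φ)) : ↥(Zgrp F)) := by rw [← hf', ← hf', h2]
    obtain ⟨z, hz⟩ : ∃ z : ↥(Zgrp F), z = ((g : ↥(Gs φ)) : ↥(Zgrp F))⁻¹ * ((g' : ↥(Gs φ)) : ↥(Zgrp F)) := ⟨_, rfl⟩
    have hz1 : ad F z = 1 := by rw [hz, map_mul, map_inv, h3, inv_mul_cancel]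
    obtain ⟨c, -, hc⟩ := scal_smul hz1
    have hgv : V F ((g : ↥(Gs φ)) : ↥(Zgrp F)) v = v := g.2
    have hgv' : V F ((g' : ↥(Gs φ)) : ↥(Zgrp F)) v = v := g'.2
    have h4 : V F z v = v := by
      have h5 := rinv (V F) ((g : ↥(Gs φ)) : ↥(Zgrp F)) v
      rw [hgv] at h5
      rw [hz, rmul, hgv', h5]
    have h5 : c = 1 := by
      rw [hc] at h4
      have h6 : (c - 1) • v = 0 := by rw [sub_smul, h4, one_smul, sub_self]
      rcases smul_eq_zero.1 h6 with h | h
      · exact sub_eq_zero.1 h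
      · exact absurd h hv0
    have h6 : z = 1 := Cfsg.Agent.H65.E6Ext.V_injective fun x => by
      rw [hc, h5, one_smul, map_one]
      rfl
    rw [h6] at hz
    exact Subtype.ext (Subtype.ext (inv_mul_eq_one.1 hz.symm))
  have h2 : Nat.card ↥(Cfsg.Lie.twistedE6 F q) ≤ Nat.card ↥(Gs φ) := by
    refine Nat.card_le_card_of_surjective
      (fun g : ↥(Gs φ) => (⟨_, (mem_Gl.1 (Gs_le_Gl hq hF hφ hqq g.2))⟩ : ↥(Cfsg.Lie.twistedE6 F q))) ?_
    intro y
    obtain ⟨g, hg, hgy⟩ := exists_Gs φ hφ hqq y.2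
    exact ⟨⟨g, hg⟩, Subtype.ext hgy⟩
  exact h2.trans (h1.trans (Nat.mul_le_mul_right _ hinj))

end counting

/-! ### no fixed vectors -/

section nofixed

open Cfsg.Agent.H163.E6.Cnt (ρ_inv ρ_inv')

variable {F : Type u} [Field F] {H : Subgroup ↥(chevE6.group F)} {n : ℕ}
  {φ : ↥(alternatingGroup (Fin n)) →* ↥(chevE6.group F)}

/-- no fixed vectors, from the absence of stable lines (proof of helper927) -/
theorem no_fixed_of [Finite F] (hnorm : ∀ h ∈ H, ∀ a ∈ φ.range, h * a * h⁻¹ ∈ φ.range)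
    (hMsq : ∀ h ∈ H, h * h ∈ φ.range) (hn : 5 ≤ n) {ψ : ↥(alternatingGroup (Fin n)) →* ↥(Zgrp F)}
    (hψ : Lift φ ψ) {ρ : Representation F ↥(Zgrp F) (I27 → F)} (hρ : ρ = V F ∨ ρ = V' F)
    (no_line : ∀ W : Submodule F (I27 → F), Stab ρ H W → finrank F ↥W ≠ 1) :
    Representation.invariants (MonoidHom.comp ρ ψ) = ⊥ := by
  by_contra hne
  set W : Submodule F (I27 → F) := Representation.invariants (MonoidHom.comp ρ ψ) with hWdef
  have memW : ∀ w, w ∈ W ↔ ∀ a, ρ (ψ a) w = w := by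
    intro w
    rw [hWdef, Representation.mem_invariants]
    rfl
  have hcom : commutator ↥(alternatingGroup (Fin n)) = ⊤ :=
    commutator_alternatingGroup_eq_top (by rw [Nat.card_eq_fintype_card, Fintype.card_fin]; exact hn)
  set Ĥ : Subgroup ↥(Zgrp F) := H.comap (ad F) with hH
  have hscal : ∀ g, ad F g ∈ φ.range → ∃ c : F, c ≠ 0 ∧ c ^ 3 = 1 ∧ ∀ w ∈ W, ρ g w = c • w := by
    intro g hg
    obtain ⟨a, ha⟩ := hg
    have h1 : ad F ((ψ a)⁻¹ * g) = 1 := by rw [map_mul, map_inv, hψ, ha, inv_mul_cancel]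
    obtain ⟨c, hc0, hc3, hc⟩ := Cfsg.Agent.H163.E6.Cnt.ker_scalar hρ h1
    refine ⟨c, hc0, hc3, fun w hw => ?_⟩
    have h2 : g = ψ a * ((ψ a)⁻¹ * g) := by rw [mul_inv_cancel_left]
    rw [h2, map_mul, Module.End.mul_apply, hc, map_smul, (memW w).1 hw]
  have hst : ∀ x ∈ Ĥ, ∀ w ∈ W, ρ x w ∈ W := by
    intro x hx w hw
    by_cases hw0 : w = 0
    · rw [hw0, map_zero]; exact zero_mem _
    have h1 : ∀ a, ψ a ∈ LS ρ (ρ x w) := by
      intro a
      have h2 : ad F (x⁻¹ * ψ a * x) ∈ φ.range := by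
        rw [map_mul, map_mul, map_inv, hψ]
        have := hnorm (ad F x)⁻¹ (inv_mem hx) (φ a) ⟨a, rfl⟩
        rwa [inv_inv] at this
      obtain ⟨c, hc0, -, hc⟩ := hscal _ h2
      refine ⟨Units.mk0 c hc0, ?_⟩
      have h3 : ρ (ψ a) (ρ x w) = ρ x (ρ (x⁻¹ * ψ a * x) w) := by
        rw [← Module.End.mul_apply, ← map_mul, ← Module.End.mul_apply, ← map_mul]
        congr 2
        group
      rw [h3, hc w hw, map_smul]; rfl
    have h2 : (⊤ : Subgroup ↥(alternatingGroup (Fin n))) ≤ (VS ρ (ρ x w)).comap ψ := by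
      rw [← hcom, commutator_def, Subgroup.commutator_le]
      intro a _ b _
      rw [Subgroup.mem_comap, commutatorElement_def, map_mul, map_mul, map_mul, map_inv, map_inv]
      exact comm_mem (h1 a) (h1 b)
    rw [memW]
    intro a
    exact h2 (Subgroup.mem_top a)
  have hsq : ∀ x ∈ Ĥ, ∃ c : F, c ≠ 0 ∧ c ^ 3 = 1 ∧ ∀ w ∈ W, ρ x (ρ x w) = c • w := by
    intro x hx
    obtain ⟨c, hc0, hc3, hc⟩ := hscal (x * x) (by rw [map_mul]; exact hMsq _ hx)
    refine ⟨c, hc0, hc3, fun w hw => ?_⟩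
    rw [← Module.End.mul_apply, ← map_mul]
    exact hc w hw
  have hcomm : ∀ x ∈ Ĥ, ∀ y ∈ Ĥ, ∀ w ∈ W, ρ y (ρ x w) = ρ x (ρ y w) := by
    intro x hx y hy
    obtain ⟨cx, hx0, hx3, hcx⟩ := hsq x hx
    obtain ⟨cy, hy0, hy3, hcy⟩ := hsq y hy
    obtain ⟨cz, hz0, hz3, hcz⟩ := hsq (x * y) (mul_mem hx hy)
    have hmul : ∀ w, ρ (x * y) w = ρ x (ρ y w) := fun w => by rw [map_mul]; rfl
    have h1 : ∀ w ∈ W, ρ y (ρ x w) = (cz * cx⁻¹ * cy⁻¹) • ρ x (ρ y w) := by
      intro w hw
      have hyw := hst y hy w hw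
      have e1 : ρ x (ρ y (ρ x (ρ y (ρ y w)))) = cz • ρ y w := by
        have := hcz (ρ y w) hyw
        rwa [hmul, hmul] at this
      rw [hcy w hw, map_smul, map_smul, map_smul] at e1
      have e2 : ρ x (cy • ρ x (ρ y (ρ x w))) = ρ x (cz • ρ y w) := by rw [e1]
      rw [map_smul, map_smul, hcx _ (hst y hy _ (hst x hx w hw)), smul_smul] at e2
      have e3 : ((cx⁻¹ * cy⁻¹) * (cy * cx)) • ρ y (ρ x w) = ((cx⁻¹ * cy⁻¹) * cz) • ρ x (ρ y w) := by
        rw [mul_smul, e2, smul_smul]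
      have e4 : (cx⁻¹ * cy⁻¹) * (cy * cx) = 1 := by field_simp
      rw [e4, one_smul] at e3
      rw [e3]
      congr 1
      ring
    set d := cz * cx⁻¹ * cy⁻¹ with hd
    have hd3 : d ^ 3 = 1 := by
      rw [hd, mul_pow, mul_pow, inv_pow, inv_pow, hx3, hy3, hz3]; norm_num
    intro w hw
    by_cases hw0 : w = 0
    · simp only [hw0, map_zero]
    have h2 := h1 (ρ x w) (hst x hx w hw)
    rw [h1 w hw, map_smul, hcx w hw, map_smul, hcx _ (hst y hy w hw), smul_smul, smul_smul] at h2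
    have h3 : ρ y w ≠ 0 := by
      intro h0
      apply hw0
      rw [← ρ_inv ρ y w, h0, map_zero]
    have h4 : (cx - d * d * cx) • ρ y w = 0 := by
      rw [sub_smul, sub_eq_zero]
      exact h2
    have h5 := (smul_eq_zero.1 h4).resolve_right h3
    have h6 : d ^ 2 = 1 := by
      have : cx * (1 - d ^ 2) = 0 := by linear_combination h5
      have := (mul_eq_zero.1 this).resolve_left hx0
      linear_combination -this
    have h7 : d = 1 := by
      calc d = d ^ 3 * 1 * d := by rw [hd3]; ring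
        _ = d ^ 2 * d ^ 2 := by ring
        _ = 1 := by rw [h6]; ring
    rw [h1 w hw, h7, one_smul]
  let K : Subgroup ↥(Zgrp F) :=
    { carrier := {x | x ∈ Ĥ ∧ ∀ w ∈ W, ρ x (ρ x w) = w}
      one_mem' := ⟨one_mem _, fun w _ => by rw [map_one]; rfl⟩
      mul_mem' := by
        rintro x y ⟨hx, hx'⟩ ⟨hy, hy'⟩
        refine ⟨mul_mem hx hy, fun w hw => ?_⟩
        have hmul : ∀ w, ρ (x * y) w = ρ x (ρ y w) := fun w => by rw [map_mul]; rfl
        rw [hmul, hmul, hcomm x hx y hy _ (hst y hy w hw), hy' w hw, hx' w hw]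
      inv_mem' := by
        rintro x ⟨hx, hx'⟩
        refine ⟨inv_mem hx, fun w hw => ?_⟩
        have h1 : ρ x⁻¹ w = ρ x w := by
          conv_lhs => rw [← hx' w hw]
          rw [ρ_inv]
        rw [h1]
        rw [ρ_inv] }
  obtain ⟨w, hw, hw0, hw'⟩ := H952.F4.MaxA.exists_line (ρ := ρ) K W hne (fun x hx => hst x hx.1) (fun x hx => hx.2)
  have hline : ∀ x ∈ Ĥ, ∃ c : F, ρ x w = c • w := by
    intro x hx
    obtain ⟨c, hc0, hc3, hc⟩ := hsq x hx
    have hcube : ∀ v ∈ W, ρ (x * x * x) v = c • ρ x v := by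
      intro v hv
      rw [map_mul, map_mul, Module.End.mul_apply, Module.End.mul_apply, hc _ (hst x hx v hv)]
    have hK : x * x * x ∈ K := by
      refine ⟨mul_mem (mul_mem hx hx) hx, fun v hv => ?_⟩
      rw [hcube v hv, map_smul, hcube _ (hst x hx v hv), hc v hv, smul_smul, smul_smul,
        show c * c * c = c ^ 3 by ring, hc3, one_smul]
    have h1 := hw' _ hK
    rw [hcube w hw] at h1
    rcases h1 with h1 | h1
    · refine ⟨c⁻¹, ?_⟩
      calc ρ x w = c⁻¹ • (c • ρ x w) := by rw [smul_smul, inv_mul_cancel₀ hc0, one_smul]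
        _ = c⁻¹ • w := by rw [h1]
    · refine ⟨-c⁻¹, ?_⟩
      calc ρ x w = c⁻¹ • (c • ρ x w) := by rw [smul_smul, inv_mul_cancel₀ hc0, one_smul]
        _ = -c⁻¹ • w := by rw [h1, smul_neg, neg_smul]
  refine no_line (Submodule.span F {w}) ?_ (finrank_span_singleton hw0)
  intro g hg v hv
  obtain ⟨t, rfl⟩ := Submodule.mem_span_singleton.1 hv
  obtain ⟨c, hc⟩ := hline g hg
  rw [map_smul, hc]
  exact Submodule.smul_mem _ _ (Submodule.smul_mem _ _ (Submodule.mem_span_singleton_self w))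

end nofixed

/-! ### no stable lines -/

section noline

variable {F : Type u} [Field F] [Fintype F] {q : ℕ} {H : Subgroup ↥(Cfsg.Lie.twistedE6 F q)} {n : ℕ}
  {ψ : ↥(alternatingGroup (Fin n)) →* ↥(Cfsg.Lie.twistedE6 F q)}

/-- **no stable lines** -/
theorem no_line_of (hq : IsPrimePow q) (hF : Fintype.card F = q ^ 2) (hM : MaxAlt H n ψ) (hn : 5 ≤ n) (hn' : n ≤ 12)
    (hA1 : (n ≤ 10 ∨ 3 ≤ q) → (if n = 6 then 1440 else n.factorial) * q ^ 54 < Nat.card ↥(Cfsg.Lie.twistedE6 F q))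
    (hA2 : q = 2 → (12).factorial * (27 * 4 ^ 17) < Nat.card ↥(Cfsg.Lie.twistedE6 F q))
    (hB : Nat.card {v : I27 → F // v ≠ 0 ∧ sh v = 0} ≤ 27 * Nat.card F ^ 17)
    (ρ : Representation F ↥(Zgrp F) (I27 → F)) (hρ : ρ = V F ∨ ρ = V' F) (W : Submodule F (I27 → F))
    (hst : Stab ρ (H.map (Tw.incl F q)) W) : finrank F ↥W ≠ 1 := by
  obtain ⟨φ, hφ, hqq⟩ := TwE6Basic.exists_frob hq hF
  have hφφ : ∀ t : F, φ (φ t) = t := fun t => by rw [hφ, hφ, hqq]
  -- reduction to an eigenvector in `V`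
  have main : ∀ v : I27 → F, v ≠ 0 →
      (∀ g ∈ Gs φ, ad F g ∈ H.map (Tw.incl F q) → ∃ c : F, V F g v = c • v) → False := by
    intro v hv0 hv
    by_cases h10 : n ≤ 10 ∨ 3 ≤ q
    · -- counting all vectors
      have h1 := count_le hq hF hφ hqq hM.coatom hv0 hv Set.univ (fun g _ => Set.mem_univ _)
      have h2 : Nat.card (Set.univ : Set (I27 → F)) = q ^ 54 := by
        rw [Nat.card_univ, Nat.card_eq_fintype_card, Fintype.card_fun, hF, ← pow_mul]
        rfl
      rw [h2] at h1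
      have h3 := h1.trans (Nat.mul_le_mul_right _ hM.card)
      exact absurd (hA1 h10) (not_lt.2 h3)
    · push Not at h10
      obtain ⟨h11, hq3⟩ := h10
      have hq2 : q = 2 := by
        have := hq.two_le
        omega
      -- no singular vector
      have hsing : ∀ w : I27 → F, w ≠ 0 → sh w = 0 →
          (∀ g ∈ Gs φ, ad F g ∈ H.map (Tw.incl F q) → ∃ c : F, V F g w = c • w) → False := by
        intro w hw0 hws hw
        have h1 := count_le hq hF hφ hqq hM.coatom hw0 hw {v | v ≠ 0 ∧ sh v = 0} (fun g _ => by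
          refine ⟨?_, ?_⟩
          · intro h
            apply hw0
            rw [← rinv (V F) g w, h, map_zero]
          · rw [Act.sh_act, hws, map_zero])
        have h2 : Nat.card ↥H ≤ (12).factorial := by
          refine hM.card.trans ?_
          rw [if_neg (by omega)]
          exact Nat.factorial_le hn'
        have h3 : Nat.card F = 4 := by rw [Nat.card_eq_fintype_card, hF, hq2]; norm_num
        rw [h3] at hB
        have h4 : Nat.card {v : I27 → F | v ≠ 0 ∧ sh v = 0} ≤ 27 * 4 ^ 17 := hB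
        have h5 := h1.trans (Nat.mul_le_mul h2 h4)
        exact absurd (hA2 hq2) (not_lt.2 h5)
      by_cases hN : cubicT v = 0
      · by_cases hs : sh v = 0
        · exact hsing v hv0 hs hv
        · refine hsing (J φ (sh v)) (fun h => hs ((J_eq_zero φ hφφ).1 h)) ?_ ?_
          · rw [sh_J, sh_sh, hN, zero_smul, J_zero]
          · intro g hg hgH
            obtain ⟨c, hc⟩ := hv g hg hgH
            refine ⟨φ (c ^ 2), ?_⟩
            rw [V_J φ hg, ← Act.sh_act, hc, sh_smul, J_smul]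
      · -- `N(v) ≠ 0`
        obtain ⟨p, hp⟩ := CharP.exists F
        have hp2 : p = 2 := by
          have h1 : ((Fintype.card F : ℕ) : F) = 0 := FiniteField.cast_card_eq_zero F
          rw [hF, hq2] at h1
          have h2 : (p : ℕ) ∣ 2 ^ 2 := (CharP.cast_eq_zero_iff F p _).1 h1
          have h3 : p.Prime := by
            rcases CharP.char_is_prime_or_zero F p with h | h
            · exact h
            · rw [h] at h2
              norm_num at h2
          exact (Nat.prime_dvd_prime_iff_eq h3 Nat.prime_two).1 (h3.dvd_of_dvd_pow h2)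
        have hp' : Fact p.Prime := ⟨by rw [hp2]; exact Nat.prime_two⟩
        have hA := alt_perfect hn
        have hBG := Tw.Bgrp_le_Gs hφ hqq hA ψ
        have hinj : Function.Injective ((Tw.incl F q).comp ψ) := (Tw.incl_injective F q).comp hM.inj
        have hLS : ∀ b ∈ Bgrp ((Tw.incl F q).comp ψ), b ∈ LS (V F) v := by
          intro b hb
          obtain ⟨a, ha⟩ := Cfsg.Agent.H944.E6Tw.Bgrp_le _ hb
          obtain ⟨c, hc⟩ := hv b (hBG hb) ⟨ψ a, hM.le ⟨a, rfl⟩, ha⟩
          have hc0 : c ≠ 0 := by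
            rintro rfl
            rw [zero_smul] at hc
            apply hv0
            rw [← rinv (V F) b v, hc, map_zero]
          exact ⟨Units.mk0 c hc0, hc⟩
        have hVS : Bgrp ((Tw.incl F q).comp ψ) ≤ VS (V F) v := by
          rw [← Cfsg.Agent.H944.E6Tw.Bgrp_perfect hA ((Tw.incl F q).comp ψ), Subgroup.commutator_le]
          intro a ha b hb
          exact comm_mem (hLS a ha) (hLS b hb)
        exact no_black p (by rw [hp2]; norm_num) (by omega) hinj hN (fun b hb => hVS hb)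
  intro h1
  obtain ⟨⟨w, hw⟩, hw0, hw1⟩ := finrank_eq_one_iff'.1 h1
  have hw0' : w ≠ 0 := fun h => hw0 (Subtype.ext h)
  have heig : ∀ g, ad F g ∈ H.map (Tw.incl F q) → ∃ c : F, ρ g w = c • w := by
    intro g hg
    obtain ⟨c, hc⟩ := hw1 ⟨ρ g w, hst g hg w hw⟩
    exact ⟨c, (congrArg Subtype.val hc).symm⟩
  rcases hρ with rfl | rfl
  · exact main w hw0' fun g _ hg => heig g hg
  · refine main (J φ w) (fun h => hw0' ((J_eq_zero φ hφφ).1 h)) fun g hg hgH => ?_
    obtain ⟨c, hc⟩ := heig g hgH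
    exact ⟨φ c, by rw [V_J φ hg, hc, J_smul]⟩

end noline

end Cfsg.Agent.H944.E6Tw
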