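import Mathlib
import Cfsg.Agent.H944.E6TwE
import Cfsg.Agent.H944.E6CenA
import Cfsg.Agent.H944.E6Tab
import Cfsg.Agent.H163.E6.Cen

/-!
# The property `Cen` for maximal subgroups of `²E₆(q)` (helper944, after helper927)
-/

set_option autoImplicit false

namespace Cfsg.Agent.H944.E6Tw

open Cfsg Cfsg.Lie Module
open scoped Matrix commutatorElement
open Cfsg.Agent.ChevalleyStructure
open Cfsg.Agent.ChevalleyStructure.E6Min.Tables Cfsg.Agent.ChevalleyStructure.E6Min.Basic
  Cfsg.Agent.ChevalleyStructure.E6Min.Adjoint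
open Cfsg.Agent.H163.E6
open Cfsg.Agent.H952.F4 (ev sh cr tf MaxAlt)
open Cfsg.Agent.H952.F4.Jord

universe u

/-- a perfect group stabilizing a line fixes it pointwise -/
theorem fix_of_perfect {F P W : Type*} [Field F] [Group P] (hP : commutator P = ⊤) [AddCommGroup W] [Module F W]
    (ρ : Representation F P W) {X : W} (hX : X ≠ 0) (h : ∀ g, ∃ c : F, ρ g X = c • X) (g : P) : ρ g X = X := by
  choose c hc using h
  have hmul : ∀ a b, c (a * b) = c a * c b := fun a b => by
    have h1 : ρ (a * b) X = (c a * c b) • X := by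
      rw [map_mul, Module.End.mul_apply, hc b, map_smul, hc a, smul_smul, mul_comm]
    rw [hc] at h1
    exact smul_left_injective F hX h1
  have hone : c 1 = 1 := by
    have h1 : ρ 1 X = (1 : F) • X := by rw [map_one, one_smul]; rfl
    rw [hc] at h1
    exact smul_left_injective F hX h1
  have h2 : g ∈ commutator P := by rw [hP]; trivial
  have h3 := Abelianization.commutator_subset_ker
    (MonoidHom.toHomUnits ({ toFun := c, map_one' := hone, map_mul' := hmul } : P →* F)) h2
  rw [MonoidHom.mem_ker] at h3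
  have h4 : c g = 1 := congrArg Units.val h3
  rw [hc, h4, one_smul]

section

variable {F : Type u} [Field F] {φ : F →+* F} {q : ℕ}

/-- `V (σ g) J = J V' g` -/
theorem V_sE_J (g : ↥(Zgrp F)) (x : I27 → F) : V F (sE φ g) (J φ x) = J φ (V' F g x) := by
  rw [V_apply, V'_apply, J_eq, J_eq, coe_sE, sZ_apply, Units.val_mul, Units.val_mul, coe_QU, ← gm_gU,
    Matrix.mulVec_mulVec, mul_assoc, QM_sq, mul_one, ← Matrix.mulVec_mulVec, gm_mulVec]

/-- fixed vectors of `V'` -/
theorem V'_fix_of (h3 : (3 : F) ≠ 0) {x τ : ↥(Zgrp F)} (hx : x ^ 3 = 1) (hc : τ * x = x * τ)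
    (h : ∀ v, V F x v = v → V F τ v = v) (v : I27 → F) (hv : V' F x v = v) : V' F τ v = v := by
  rw [← sub_eq_zero]
  apply tf_nondeg
  intro u
  have e1 : ∀ g : ↥(Zgrp F), ∀ a b, tf (V' F g a) b = tf a (V F g⁻¹ b) := by
    intro g a b
    have := Act.tf_act g (V F g⁻¹ b) a
    rw [Act.V_apply_inv] at this
    rw [tf_comm, this, tf_comm]
  have e2 : ∀ b, tf v b = tf v (V F x b) := by
    intro b
    have := e1 x v (V F x b)
    rw [hv, ← Module.End.mul_apply, ← map_mul, inv_mul_cancel, map_one, Module.End.one_apply] at this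
    exact this.symm
  have e3 : ∀ b, 3 * tf v b = tf v (b + V F x b + V F x (V F x b)) := by
    intro b
    rw [tf_add_right, tf_add_right, ← e2, ← e2, ← e2]
    ring
  have e4 : ∀ b, V F x (b + V F x b + V F x (V F x b)) = b + V F x b + V F x (V F x b) := by
    intro b
    have h5 : V F x (V F x (V F x b)) = b := by
      rw [← Module.End.mul_apply, ← Module.End.mul_apply, ← map_mul, ← map_mul]
      rw [show x * x * x = 1 from by rw [← hx, pow_succ, pow_two], map_one, Module.End.one_apply]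
    rw [map_add, map_add, h5]
    abel
  have hc' : τ⁻¹ * x = x * τ⁻¹ := by
    rw [inv_mul_eq_iff_eq_mul, ← mul_assoc, hc, mul_inv_cancel_right]
  have e5 : ∀ b, V F x (V F τ⁻¹ b) = V F τ⁻¹ (V F x b) := by
    intro b
    rw [← Module.End.mul_apply, ← Module.End.mul_apply, ← map_mul, ← map_mul, hc']
  have e6 : ∀ b, V F x b = b → V F τ⁻¹ b = b := by
    intro b hb
    have h6 := h b hb
    have h7 : V F τ⁻¹ (V F τ b) = b := by
      rw [← Module.End.mul_apply, ← map_mul, inv_mul_cancel, map_one, Module.End.one_apply]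
    rwa [h6] at h7
  have e7 : 3 * tf v (V F τ⁻¹ u) = 3 * tf v u := by
    rw [e3, e3, e5, e5, ← map_add, ← map_add, e6 _ (e4 u)]
  have e8 := mul_left_cancel₀ h3 e7
  rw [sub_eq_add_neg, tf_add_left, ← neg_one_smul F, tf_smul_left, e1, e8]
  ring

/-- independence of the functions `t`, `t ^ q`, `t ^ (q + 1)` -/
theorem indep [Fintype F] (hq : 2 ≤ q) (hF : Fintype.card F = q ^ 2) {a b c : F}
    (h : ∀ t : F, t * a + t ^ q * b + t ^ (q + 1) * c = 0) : a = 0 ∧ b = 0 := by
  obtain ⟨P, hP⟩ : ∃ P : Polynomial F, P = Polynomial.C a * Polynomial.X + Polynomial.C b * Polynomial.X ^ q +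
    Polynomial.C c * Polynomial.X ^ (q + 1) := ⟨_, rfl⟩
  have h0 : P = 0 := by
    refine Polynomial.eq_zero_of_natDegree_lt_card_of_eval_eq_zero' P Finset.univ ?_ ?_
    · intro t _
      rw [hP]
      simp only [Polynomial.eval_add, Polynomial.eval_mul, Polynomial.eval_C, Polynomial.eval_X, Polynomial.eval_pow]
      linear_combination h t
    · rw [Finset.card_univ, hF]
      have h1 : P.natDegree ≤ q + 1 := by
        rw [hP]
        compute_degree!
      have h2 : q + 1 < q ^ 2 := by nlinarith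
      omega
  have h1 := congrArg (fun Q : Polynomial F => Q.coeff 1) h0
  have h2 := congrArg (fun Q : Polynomial F => Q.coeff q) h0
  rw [hP] at h1 h2
  have e1 : (1 : ℕ) ≠ q := by omega
  have e2 : (1 : ℕ) ≠ q + 1 := by omega
  have e3 : q ≠ 1 := by omega
  have e4 : q ≠ q + 1 := by omega
  have e5 : q ≠ 0 := by omega
  simp only [Polynomial.coeff_add, Polynomial.coeff_C_mul, Polynomial.coeff_X_one, Polynomial.coeff_X_pow, if_neg e1,
    if_neg e2, mul_zero, add_zero, mul_one, Polynomial.coeff_zero] at h1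
  simp only [Polynomial.coeff_add, Polynomial.coeff_C_mul, Polynomial.coeff_X_of_ne_one e3, Polynomial.coeff_X_pow,
    if_neg e4, mul_zero, add_zero, zero_add, mul_one, Polynomial.coeff_zero, if_true] at h2
  exact ⟨h1, h2⟩

/-- **no vector of the Lie algebra is fixed by `Gs φ`** -/
theorem L_eq_zero_of_Gs [Fintype F] (h3 : (3 : F) ≠ 0) (hq : IsPrimePow q) (hF : Fintype.card F = q ^ 2)
    (hφ : ∀ t, φ t = t ^ q) (hqq : ∀ t : F, (t ^ q) ^ q = t) {X : chevE6.Idx → F}
    (h : ∀ g ∈ Gs φ, L F g X = X) : X = 0 := by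
  have hcom : ∀ g ∈ Gs φ, ((g : GL I27 F) : Matrix I27 I27 F) * comb X = comb X * ((g : GL I27 F) : Matrix I27 I27 F) := by
    intro g hg
    have h1 := comb_mul_of (ad_P g) X
    have h2 : (fun row => ∑ col, (((ad F g : chevE6.group F) : GL chevE6.Idx F) : Matrix chevE6.Idx chevE6.Idx F) row col *
        X col) = X := h g hg
    rw [h1, h2]
  apply E6CenA.eq_zero_of_comm h3
  have hsingle : ∀ r ∈ [46, 25, 39, 32], comb X * Nm F r = Nm F r * comb X := by
    intro r hr
    have hr72 : r < 72 := by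
      simp only [List.mem_cons, List.not_mem_nil, or_false] at hr
      omega
    have h1 := hcom _ (zZ_mem_Gs hφ (one_pow q) hr)
    have h2 : (((zZ r (1 : F) : ↥(Zgrp F)) : GL I27 F) : Matrix I27 I27 F) = 1 + Nm F r := by
      show ((zU r (1 : F) : GL I27 F) : Matrix I27 I27 F) = _
      rw [coe_zU hr72, zM_def, one_smul]
    rw [h2, add_mul, mul_add, one_mul, mul_one] at h1
    exact (add_left_cancel h1).symm
  have hpair : ∀ rs ∈ [(56, 36), (15, 35), (42, 37), (29, 34)], comb X * Nm F rs.1 = Nm F rs.1 * comb X ∧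
      comb X * Nm F rs.2 = Nm F rs.2 * comb X := by
    intro rs hr
    have hr72 : rs.1 < 72 ∧ rs.2 < 72 := by
      simp only [List.mem_cons, List.not_mem_nil, or_false] at hr
      rcases hr with rfl | rfl | rfl | rfl <;> decide
    have key : ∀ x y, (comb X * Nm F rs.1 - Nm F rs.1 * comb X) x y = 0 ∧
        (comb X * Nm F rs.2 - Nm F rs.2 * comb X) x y = 0 := by
      intro x y
      refine indep (c := (comb X * (Nm F rs.1 * Nm F rs.2) - (Nm F rs.1 * Nm F rs.2) * comb X) x y) hq.two_le hF ?_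
      intro t
      have h1 := hcom _ (zZ_pair_mem_Gs hφ hqq t hr)
      have h2 : (((zZ rs.1 t * zZ rs.2 (t ^ q) : ↥(Zgrp F)) : GL I27 F) : Matrix I27 I27 F) =
          (1 + t • Nm F rs.1) * (1 + t ^ q • Nm F rs.2) := by
        show ((zU rs.1 t * zU rs.2 (t ^ q) : GL I27 F) : Matrix I27 I27 F) = _
        rw [Units.val_mul, coe_zU hr72.1, coe_zU hr72.2, zM_def, zM_def]
      rw [h2] at h1
      have h3 := congrFun (congrFun h1 x) y
      have h4 : ((1 + t • Nm F rs.1) * (1 + t ^ q • Nm F rs.2)) * comb X - comb X * ((1 + t • Nm F rs.1) *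
          (1 + t ^ q • Nm F rs.2)) = -(t • (comb X * Nm F rs.1 - Nm F rs.1 * comb X) +
          t ^ q • (comb X * Nm F rs.2 - Nm F rs.2 * comb X) + t ^ (q + 1) • (comb X * (Nm F rs.1 * Nm F rs.2) -
          (Nm F rs.1 * Nm F rs.2) * comb X)) := by
        simp only [add_mul, mul_add, one_mul, mul_one, smul_mul_assoc, mul_smul_comm, smul_add, smul_smul, smul_sub,
          pow_succ]
        abel
      have h5 := congrFun (congrFun h4 x) y
      rw [Matrix.sub_apply, h3, sub_self, Matrix.neg_apply, Matrix.add_apply, Matrix.add_apply, Matrix.smul_apply,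
        Matrix.smul_apply, Matrix.smul_apply, smul_eq_mul, smul_eq_mul, smul_eq_mul] at h5
      exact (neg_eq_zero.1 h5.symm)
    constructor
    · rw [← sub_eq_zero]
      ext x y
      exact (key x y).1
    · rw [← sub_eq_zero]
      ext x y
      exact (key x y).2
  intro r hr
  simp only [List.mem_cons, List.not_mem_nil, or_false] at hr
  rcases hr with rfl | rfl | rfl | rfl | rfl | rfl | rfl | rfl | rfl | rfl | rfl | rfl
  · exact hsingle _ (by simp)
  · exact hsingle _ (by simp)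
  · exact hsingle _ (by simp)
  · exact hsingle _ (by simp)
  · exact (hpair (56, 36) (by simp)).1
  · exact (hpair (56, 36) (by simp)).2
  · exact (hpair (15, 35) (by simp)).1
  · exact (hpair (15, 35) (by simp)).2
  · exact (hpair (42, 37) (by simp)).1
  · exact (hpair (42, 37) (by simp)).2
  · exact (hpair (29, 34) (by simp)).1
  · exact (hpair (29, 34) (by simp)).2

/-! ### the semilinear map of the Lie algebra -/

variable (φ) in
/-- the semilinear map of the Lie algebra -/
noncomputable def JL (X : chevE6.Idx → F) : chevE6.Idx → F :=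
  ((GraphSymm.symmE6.P F : GL chevE6.Idx F) : Matrix chevE6.Idx chevE6.Idx F) *ᵥ fun i => φ (X i)

theorem L_sE_JL (g : ↥(Zgrp F)) (X : chevE6.Idx → F) : L F (sE φ g) (JL φ X) = JL φ (L F g X) := by
  show (((ad F (sE φ g) : ↥(chevE6.group F)) : GL chevE6.Idx F) : Matrix chevE6.Idx chevE6.Idx F) *ᵥ JL φ X =
    JL φ ((((ad F g : ↥(chevE6.group F)) : GL chevE6.Idx F) : Matrix chevE6.Idx chevE6.Idx F) *ᵥ X)
  rw [ad_sE]
  set A : GL chevE6.Idx F := ((ad F g : ↥(chevE6.group F)) : GL chevE6.Idx F)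
  set P : GL chevE6.Idx F := GraphSymm.symmE6.P F with hP
  have h1 : TwE6Basic.sg φ A = P * Matrix.GeneralLinearGroup.map φ A * P⁻¹ := rfl
  unfold JL
  rw [← hP, h1, Matrix.mulVec_mulVec, ← Units.val_mul, inv_mul_cancel_right, Units.val_mul, ← Matrix.mulVec_mulVec]
  congr 1
  funext i
  rw [Matrix.mulVec, Matrix.mulVec, dotProduct, dotProduct, map_sum]
  refine Finset.sum_congr rfl fun j _ => ?_
  rw [map_mul]
  rfl

theorem JL_injective : Function.Injective (JL (F := F) φ) := by
  intro X Y h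
  set P : GL chevE6.Idx F := GraphSymm.symmE6.P F with hP
  have h1 : ((P⁻¹ : GL chevE6.Idx F) : Matrix chevE6.Idx chevE6.Idx F) *ᵥ JL φ X =
      ((P⁻¹ : GL chevE6.Idx F) : Matrix chevE6.Idx chevE6.Idx F) *ᵥ JL φ Y := by rw [h]
  unfold JL at h1
  rw [← hP, Matrix.mulVec_mulVec, Matrix.mulVec_mulVec, ← Units.val_mul, inv_mul_cancel, Units.val_one, Matrix.one_mulVec,
    Matrix.one_mulVec] at h1
  funext i
  exact φ.injective (congrFun h1 i)

theorem JL_surjective (hφφ : ∀ t : F, φ (φ t) = t) : Function.Surjective (JL (F := F) φ) := by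
  intro Y
  set P : GL chevE6.Idx F := GraphSymm.symmE6.P F with hP
  refine ⟨fun i => φ ((((P⁻¹ : GL chevE6.Idx F) : Matrix chevE6.Idx chevE6.Idx F) *ᵥ Y) i), ?_⟩
  unfold JL
  rw [← hP]
  simp only [hφφ]
  rw [Matrix.mulVec_mulVec, ← Units.val_mul, mul_inv_cancel, Units.val_one, Matrix.one_mulVec]

end

end Cfsg.Agent.H944.E6Tw

namespace Cfsg.Agent.H163.E6.Tw

open Cfsg Cfsg.Lie Module
open scoped Matrix commutatorElement
open Cfsg.Agent.ChevalleyStructure
open Cfsg.Agent.ChevalleyStructure.E6Min.Tables Cfsg.Agent.ChevalleyStructure.E6Min.Basic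
  Cfsg.Agent.ChevalleyStructure.E6Min.Adjoint
open Cfsg.Agent.H163.E6
open Cfsg.Agent.H952.F4 (ev sh cr tf MaxAlt)
open Cfsg.Agent.H952.F4.Jord
open Cfsg.Agent.H944.E6Tw

universe u

variable {K : Type u} [Field K] [Fintype K] {q : ℕ} {H : Subgroup ↥(Cfsg.Lie.twistedE6 K q)} {n : ℕ}
  {ψ : ↥(alternatingGroup (Fin n)) →* ↥(Cfsg.Lie.twistedE6 K q)}

/-- **the property `Cen` for `²E₆(q)`** -/
theorem cen_of (hq : IsPrimePow q) (hK : Fintype.card K = q ^ 2) (p : ℕ) [Fact p.Prime] [CharP K p] (hp : 5 ≤ p)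
    (hM : MaxAlt H n ψ) (hn : 5 ≤ n)
    (hT : ∀ x : ↥(Zgrp K), x ^ 3 = 1 → ev (V K x) 1 = 9 → ev (L K x) 1 = 30 →
      ∃ τ : ↥(Zgrp K), τ * τ = 1 ∧ τ ≠ 1 ∧ (∀ g, g * x = x * g → g * τ = τ * g) ∧ (∀ X, L K x X = X → L K τ X = X) ∧
        (∀ v, V K x v = v → V K τ v = v) ∧
        ∀ τ' : ↥(Zgrp K), τ' * τ' = 1 → τ' ≠ 1 → (∀ X, L K x X = X → L K τ' X = X) → (∀ v, V K x v = v → V K τ' v = v) →
          τ' = τ) :
    Cen (H.map (incl K q)) ((incl K q).comp ψ) := by
  obtain ⟨f, hf, hqq⟩ := TwE6Basic.exists_frob hq hK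
  have hff : ∀ t : K, f (f t) = t := fun t => by rw [hf, hf, hqq]
  have h3 : (3 : K) ≠ 0 := by
    intro h0
    have h1 : ((3 : ℕ) : K) = 0 := by exact_mod_cast h0
    rw [CharP.cast_eq_zero_iff K p] at h1
    have := Nat.le_of_dvd (by norm_num) h1
    omega
  intro X hX hH x hxφ hx3 hx9 hx30
  -- a fixed lift
  obtain ⟨a, ha⟩ := hxφ
  obtain ⟨b, hb, hbx⟩ := exists_Gs f hf hqq (ψ a).2
  have hbx' : ad K b = ad K x := by
    apply Subtype.ext
    rw [hbx, ← ha]
    rfl
  obtain ⟨c, hcd⟩ : ∃ c, c = b * x⁻¹ := ⟨_, rfl⟩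
  have hc1 : ad K c = 1 := by rw [hcd, map_mul, map_inv, hbx', mul_inv_cancel]
  obtain ⟨hc3, hcc⟩ := Cfsg.Agent.H65.E6Ext.ker_pow hc1
  have hbc : b = c * x := by rw [hcd, inv_mul_cancel_right]
  have hb3 : b ^ 3 = 1 := by
    have h1 : Commute c x := (hcc x).symm
    rw [hbc, h1.mul_pow, hc3, hx3, one_mul]
  have hbL : L K b = L K x := by rw [L_eq, L_eq, hbx']
  have hb30 : ev (L K b) 1 = 30 := by rw [hbL]; exact hx30
  have hb1 : ad K b ≠ 1 := by
    intro h0
    have h1 : L K b = 1 := by rw [L_eq, h0, map_one]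
    rw [h1] at hb30
    have h2 : ev (1 : Module.End K (chevE6.Idx → K)) 1 = 78 := by
      unfold Cfsg.Agent.H952.F4.ev
      have h3 : Module.End.eigenspace (1 : Module.End K (chevE6.Idx → K)) 1 = ⊤ := by
        rw [eq_top_iff]
        intro v _
        rw [Module.End.mem_eigenspace_iff, one_smul]
        rfl
      rw [h3, finrank_top, Module.finrank_fintype_fun_eq_card]
      decide +kernel
    omega
  have hb9 : ev (V K b) 1 = 9 := by
    rcases (Tor.tab p (F := K)).three (by omega) b hb1 hb3 with h | h | h | h <;> omega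
  obtain ⟨τ, t1, t2, t3, t4, t5, t6⟩ := hT b hb3 hb9 hb30
  -- `τ` is fixed
  have hτ : τ ∈ Gs f := by
    rw [mem_Gs]
    apply t6
    · rw [← map_mul, t1, map_one]
    · intro h0
      apply t2
      rw [← sE_sE f hff τ, h0, map_one]
    · intro Y hY
      obtain ⟨Z, rfl⟩ := JL_surjective hff Y
      rw [L_sE_JL]
      congr 1
      apply t4
      apply JL_injective (φ := f)
      rw [← L_sE_JL, (mem_Gs f).1 hb, hY]
    · intro v hv
      obtain ⟨u, rfl⟩ : ∃ u, J f u = v := ⟨J f v, J_J f hff v⟩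
      rw [V_sE_J]
      congr 1
      refine V'_fix_of h3 hb3 (t3 b rfl).symm t5 u ?_
      have h5 : J f (V' K b u) = J f u := by rw [← V_J f hb, hv]
      have h6 := congrArg (J f) h5
      rwa [J_J f hff, J_J f hff] at h6
  -- the stabilizer of the line
  let S : Subgroup ↥(Cfsg.Lie.twistedE6 K q) :=
    { carrier := {g | ∃ c : K, LK K (incl K q g) X = c • X}
      one_mem' := ⟨1, by rw [map_one, map_one, one_smul]; rfl⟩
      mul_mem' := by
        rintro a b ⟨c, hc⟩ ⟨d, hd⟩
        exact ⟨c * d, by rw [map_mul, map_mul, Module.End.mul_apply, hd, map_smul, hc, smul_smul, mul_comm]⟩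
      inv_mem' := by
        rintro a ⟨c, hc⟩
        have h5 : LK K (incl K q a⁻¹) (LK K (incl K q a) X) = X := by
          rw [← Module.End.mul_apply, ← map_mul, ← map_mul, inv_mul_cancel, map_one, map_one]; rfl
        have hc0 : c ≠ 0 := by
          rintro rfl
          rw [zero_smul] at hc
          apply hX
          rw [← h5, hc, map_zero]
        refine ⟨c⁻¹, ?_⟩
        rw [hc, map_smul] at h5
        rw [← h5, smul_smul, inv_mul_cancel₀ hc0, one_smul, h5] }
  have hS : ∀ g, g ∈ S ↔ ∃ c : K, LK K (incl K q g) X = c • X := fun g => Iff.rfl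
  have hHS : H ≤ S := fun h hh => hH _ ⟨h, hh, rfl⟩
  have hStop : S ≠ ⊤ := by
    intro htop
    have hs : IsSimpleGroup ↥(Cfsg.Lie.twistedE6 K q) := (Cfsg.Agent.S1070.result hq hK).1
    have hnc : ¬ ∀ a b : ↥(Cfsg.Lie.twistedE6 K q), a * b = b * a := by
      intro hcomm
      have hA := alt_perfect hn
      have h7 : commutator ↥(alternatingGroup (Fin n)) = ⊥ := by
        rw [commutator_def, Subgroup.commutator_eq_bot_iff_le_centralizer]
        intro a _
        rw [Subgroup.mem_centralizer_iff]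
        intro b _
        exact hM.inj (by rw [map_mul, map_mul, hcomm])
      rw [h7] at hA
      have : Nontrivial ↥(alternatingGroup (Fin n)) :=
        (alternatingGroup.nontrivial_of_three_le_card (by simp; omega))
      obtain ⟨a, ha⟩ := exists_ne (1 : ↥(alternatingGroup (Fin n)))
      have : a ∈ (⊥ : Subgroup ↥(alternatingGroup (Fin n))) := by rw [hA]; trivial
      exact absurd (Subgroup.mem_bot.1 this) ha
    have hP : commutator ↥(Cfsg.Lie.twistedE6 K q) = ⊤ := by
      rcases hs.eq_bot_or_eq_top_of_normal (commutator ↥(Cfsg.Lie.twistedE6 K q)) inferInstance with h | h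
      · exfalso
        apply hnc
        intro a b
        have : ⁅a, b⁆ ∈ commutator ↥(Cfsg.Lie.twistedE6 K q) :=
          Subgroup.commutator_mem_commutator (Subgroup.mem_top a) (Subgroup.mem_top b)
        rw [h, Subgroup.mem_bot, commutatorElement_eq_one_iff_mul_comm] at this
        exact this
      · exact h
    apply hX
    refine L_eq_zero_of_Gs h3 hq hK hf hqq fun g hg => ?_
    have h8 : ((ad K g : ↥(chevE6.group K)) : GL chevE6.Idx K) ∈ Cfsg.Lie.twistedE6 K q := by
      apply mem_twisted hq hK hf hqq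
      rw [← ad_sE, (mem_Gs f).1 hg]
    have h9 := fix_of_perfect hP ((LK K).comp (incl K q)) hX (fun y => by
      have : y ∈ S := by rw [htop]; trivial
      exact this) ⟨_, h8⟩
    exact h9
  have hSH : S = H := by
    rcases hM.coatom.le_iff.1 hHS with h | h
    · exact absurd h hStop
    · exact h
  have h8 : ((ad K τ : ↥(chevE6.group K)) : GL chevE6.Idx K) ∈ Cfsg.Lie.twistedE6 K q := by
    apply mem_twisted hq hK hf hqq
    rw [← ad_sE, (mem_Gs f).1 hτ]
  refine ⟨τ, t1, t2, (t3 x ?_).symm, ⟨⟨_, h8⟩, ?_, rfl⟩⟩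
  · rw [hbc, ← mul_assoc, hcc]
  · show (⟨_, h8⟩ : ↥(Cfsg.Lie.twistedE6 K q)) ∈ H
    rw [← hSH, hS]
    refine ⟨1, ?_⟩
    rw [one_smul]
    show L K τ X = X
    apply t4
    rw [hbL, L_eq, ← ha]
    exact fix_of_perfect (alt_perfect hn) ((LK K).comp ((incl K q).comp ψ)) hX
      (fun a => hH _ ⟨ψ a, hM.le ⟨a, rfl⟩, rfl⟩) a

end Cfsg.Agent.H163.E6.Tw
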