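import Mathlib
import Cfsg.Agent.H944.E6Tau
import Cfsg.Agent.H944.E6TwCen
import Cfsg.Agent.H65.E6Uniq
import Cfsg.Agent.H927.E6Cen

/-!
# The property `Cen` for maximal subgroups of `E₆(q)` and `²E₆(q)` (helper944, helper65, helper927)
-/

set_option autoImplicit false

namespace Cfsg.Agent.H163.E6

open Cfsg Cfsg.Lie Module
open Cfsg.Agent.ChevalleyStructure.E6Min.Tables Cfsg.Agent.ChevalleyStructure.E6Min.Basic
  Cfsg.Agent.ChevalleyStructure.E6Min.Adjoint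
open Cfsg.Agent.H952.F4 (ev es matRep sh cr tf MaxAlt)

universe u

/-- **the involution** -/
theorem exists_tau (p : ℕ) [Fact p.Prime] {F : Type u} [Field F] [Finite F] [CharP F p] (hp : 5 ≤ p) (x : ↥(Zgrp F))
    (hx : x ^ 3 = 1) (h9 : ev (V F x) 1 = 9) (h30 : ev (L F x) 1 = 30) : Cfsg.Agent.H65.E6Uniq.Five x := by
  have hF : 3 ≤ Nat.card F := by
    have h1 : p ∣ Nat.card F := by
      have : Fintype F := Fintype.ofFinite F
      obtain ⟨n, -, h⟩ := FiniteField.card F p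
      rw [Nat.card_eq_fintype_card, h]
      exact dvd_pow_self p n.ne_zero
    have := Nat.le_of_dvd Nat.card_pos h1
    omega
  have : CharP (AlgebraicClosure F) p := charP_of_injective_algebraMap (algebraMap F (AlgebraicClosure F)).injective p
  refine Cfsg.Agent.H65.E6Uniq.descend_closed hF ?_ x hx h9 h30
  intro y hy hy9 hy30
  obtain ⟨τ, h1, h2⟩ := Cfsg.Agent.H944.E6Tau.closed_of p (Cfsg.Agent.H944.RootVals.hAlg_closure p F) hp
    (fun z hz b y τ hyz hs => Cfsg.Agent.H65.E6Uniq.uniq_diag p hp hz hyz hs.1 hs.2.1 hs.2.2.1 hs.2.2.2) hy hy9 hy30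
  exact Cfsg.Agent.H944.E6Tau.five_of_six h1 h2

/-- **`Cen` for maximal subgroups of `E₆(q)`** -/
theorem cen_of_max {F : Type u} [Field F] [Finite F] {H : Subgroup ↥(chevE6.group F)} {n : ℕ}
    {φ : ↥(alternatingGroup (Fin n)) →* ↥(chevE6.group F)} (p : ℕ) [Fact p.Prime] [CharP F p] (hp : 5 ≤ p)
    (hn : 5 ≤ n) (hM : MaxAlt H n φ) : Cen H φ := by
  have h3 : (3 : F) ≠ 0 := by
    intro h0
    have h1 : ((3 : ℕ) : F) = 0 := by exact_mod_cast h0
    rw [CharP.cast_eq_zero_iff F p] at h1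
    have := Nat.le_of_dvd (by norm_num) h1
    omega
  refine Cfsg.Agent.H927.E6Cen.cen_of h3 hM hn fun x hx h9 h30 => ?_
  obtain ⟨τ, t1, t2, t3, t4, -⟩ := exists_tau p hp x hx h9 h30
  exact ⟨τ, t1, t2, (t3 x rfl).symm, t4⟩

/-- **`Cen` for maximal subgroups of `²E₆(q)`** -/
theorem cen_of_max_tw {K : Type u} [Field K] [Fintype K] {q n : ℕ} {H : Subgroup ↥(Cfsg.Lie.twistedE6 K q)}
    {φ : ↥(alternatingGroup (Fin n)) →* ↥(Cfsg.Lie.twistedE6 K q)} (p : ℕ) [Fact p.Prime] [CharP K p] (hp : 5 ≤ p)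
    (hq : IsPrimePow q) (hK : Fintype.card K = q ^ 2) (hn : 5 ≤ n) (hM : MaxAlt H n φ) :
    Cen (H.map (Tw.incl K q)) ((Tw.incl K q).comp φ) :=
  Tw.cen_of hq hK p hp hM hn fun x hx h9 h30 => exists_tau p hp x hx h9 h30

end Cfsg.Agent.H163.E6
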