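import Mathlib
import Cfsg.Agent.H944.E6TwE
import Cfsg.Agent.H944.E6Card
import Cfsg.Agent.H249.E6.TwCard

/-!
# `²E₆(q)`: the situation (helper944)

* `Tw.sit` : a maximal subgroup with an alternating normal subgroup satisfies `Sit` and `Twist`;
* `Tw.fix_sym` : a set of elements of `Bgrp` has a common fixed vector in `V` if and only if it has one in `V'`.
-/

set_option autoImplicit false

namespace Cfsg.Agent.H163.E6.Tw

open Cfsg Cfsg.Lie Module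
open scoped Matrix
open Cfsg.Agent.ChevalleyStructure
open Cfsg.Agent.ChevalleyStructure.E6Min.Tables Cfsg.Agent.ChevalleyStructure.E6Min.Basic
  Cfsg.Agent.ChevalleyStructure.E6Min.Adjoint
open Cfsg.Agent.H163.E6
open Cfsg.Agent.H952.F4 (ev sh cr tf MaxAlt)
open Cfsg.Agent.H944.E6Tw

universe u

variable {K : Type u} [Field K] [Fintype K] {q : ℕ} {H : Subgroup ↥(Cfsg.Lie.twistedE6 K q)} {n : ℕ}
  {φ : ↥(alternatingGroup (Fin n)) →* ↥(Cfsg.Lie.twistedE6 K q)}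

/-- no stable lines -/
theorem no_line (hq : IsPrimePow q) (hK : Fintype.card K = q ^ 2) (hM : MaxAlt H n φ) (hn : 5 ≤ n) (hn' : n ≤ 12)
    (ρ : Representation K ↥(Zgrp K) (I27 → K)) (hρ : ρ = V K ∨ ρ = V' K) (W : Submodule K (I27 → K))
    (hst : Stab ρ (H.map (incl K q)) W) : finrank K ↥W ≠ 1 := by
  refine no_line_of hq hK hM hn hn' (fun h => card_lt hq hK hn' h) ?_ card_sing ρ hρ W hst
  rintro rfl
  exact card_lt_two hK

/-- **the situation for `²E₆(q)`** -/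
theorem sit (hq : IsPrimePow q) (hK : Fintype.card K = q ^ 2) (hM : MaxAlt H n φ) (hn : 5 ≤ n) (hn' : n ≤ 12) :
    Sit (H.map (incl K q)) n ((incl K q).comp φ) ∧ Twist q ((incl K q).comp φ) := by
  have hnorm : ∀ h ∈ H.map (incl K q), ∀ a ∈ ((incl K q).comp φ).range, h * a * h⁻¹ ∈ ((incl K q).comp φ).range := by
    rintro _ ⟨h, hh, rfl⟩ _ ⟨a, rfl⟩
    obtain ⟨b, hb⟩ := hM.norm h hh (φ a) ⟨a, rfl⟩
    exact ⟨b, by rw [MonoidHom.comp_apply, hb, map_mul, map_mul, map_inv]; rfl⟩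
  have hsq : ∀ h ∈ H.map (incl K q), h * h ∈ ((incl K q).comp φ).range := by
    rintro _ ⟨h, hh, rfl⟩
    obtain ⟨b, hb⟩ := hM.sq h hh
    exact ⟨b, by rw [MonoidHom.comp_apply, hb, map_mul]⟩
  have hline : ∀ ρ : Representation K ↥(Zgrp K) (I27 → K), (ρ = V K ∨ ρ = V' K) → ∀ W : Submodule K (I27 → K),
      Stab ρ (H.map (incl K q)) W → finrank K ↥W ≠ 1 := fun ρ hρ W => no_line hq hK hM hn hn' ρ hρ W
  refine sit_of hq hK hM hn (fun ψ' hψ' => ⟨?_, ?_⟩) hline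
  · exact no_fixed_of hnorm hsq hn hψ' (Or.inl rfl) (hline _ (Or.inl rfl))
  · exact no_fixed_of hnorm hsq hn hψ' (Or.inr rfl) (hline _ (Or.inr rfl))

/-- **common fixed vectors in `V` and in `V'`** -/
theorem fix_sym (hq : IsPrimePow q) (hK : Fintype.card K = q ^ 2) (hn : 5 ≤ n)
    (φ : ↥(alternatingGroup (Fin n)) →* ↥(Cfsg.Lie.twistedE6 K q)) (S : Set ↥(Zgrp K))
    (hS : S ⊆ (Bgrp ((incl K q).comp φ) : Set ↥(Zgrp K))) :
    ((∃ v, v ≠ 0 ∧ ∀ g ∈ S, V K g v = v) → ∃ w, w ≠ 0 ∧ ∀ g ∈ S, V' K g w = w) ∧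
      ((∃ v, v ≠ 0 ∧ ∀ g ∈ S, V' K g v = v) → ∃ w, w ≠ 0 ∧ ∀ g ∈ S, V K g w = w) := by
  obtain ⟨f, hf, hqq⟩ := TwE6Basic.exists_frob hq hK
  have hff : ∀ t : K, f (f t) = t := fun t => by rw [hf, hf, hqq]
  have hle : ∀ g ∈ S, g ∈ Gs f := fun g hg => Bgrp_le_Gs hf hqq (alt_perfect hn) φ (hS hg)
  constructor
  · rintro ⟨v, hv, h⟩
    refine ⟨J f v, fun h0 => hv ((J_eq_zero f hff).1 h0), fun g hg => ?_⟩
    rw [V'_J f (hle g hg), h g hg]
  · rintro ⟨v, hv, h⟩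
    refine ⟨J f v, fun h0 => hv ((J_eq_zero f hff).1 h0), fun g hg => ?_⟩
    rw [V_J f (hle g hg), h g hg]

end Cfsg.Agent.H163.E6.Tw
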